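import Cfsg.Agent.Lib.CW.Loc

/-! # The Weil character on the centraliser of a cyclic primary element -/

set_option autoImplicit false

namespace Cfsg.Lib.CW

open Module Polynomial Cfsg.Lib.Unitary Cfsg.Lib.GLC

variable {F V : Type*} [Field F] [Fintype F] [AddCommGroup V] [Module F V] [FiniteDimensional F V]
  {σ : F →+* F} {B : V →ₛₗ[σ] V →ₗ[F] F} {q : ℕ}

omit [Fintype F] in
theorem ar_ind {P : F[X]} {p : AdjoinRoot P → Prop} (h0 : ∀ c, p (algebraMap F _ c))
    (hr : p (AdjoinRoot.root P)) (ha : ∀ x y, p x → p y → p (x + y))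
    (hm : ∀ x y, p x → p y → p (x * y)) (x : AdjoinRoot P) : p x := by
  have hx : x ∈ Algebra.adjoin F ({AdjoinRoot.root P} : Set (AdjoinRoot P)) := by
    rw [AdjoinRoot.adjoinRoot_eq_top]; trivial
  induction hx using Algebra.adjoin_induction with
  | mem y hy => rw [Set.mem_singleton_iff.1 hy]; exact hr
  | algebraMap c => exact h0 c
  | add y z _ _ hy hz => exact ha _ _ hy hz
  | mul y z _ _ hy hz => exact hm _ _ hy hz

omit [Fintype F] [FiniteDimensional F V] in
theorem exists_adj (hB : IsHerm σ B) {g : UG B} {P : F[X]} (e : V ≃ₗ[F] AdjoinRoot P)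
    (he : ∀ v, e (g.1 v) = AdjoinRoot.root P * e v) :
    ∃ τ : AdjoinRoot P →+* AdjoinRoot P, (∀ x, τ (τ x) = x) ∧
      (∀ c, τ (algebraMap F _ c) = algebraMap F _ (σ c)) ∧
      ∀ x u v, B (e.symm (x * u)) (e.symm v) = B (e.symm u) (e.symm (τ x * v)) := by
  have hg : ∀ y, e.symm (AdjoinRoot.root P * y) = g.1 (e.symm y) := fun y => by
    rw [LinearEquiv.symm_apply_eq, he, e.apply_symm_apply]
  have hc : ∀ (c : F) u v, B (e.symm (algebraMap F _ c * u)) (e.symm v) =
      B (e.symm u) (e.symm (algebraMap F _ (σ c) * v)) := fun c u v => by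
    simp only [← Algebra.smul_def, map_smul, LinearMap.map_smulₛₗ, LinearMap.smul_apply]
  have ex : ∀ x : AdjoinRoot P, ∃ y : AdjoinRoot P, ∀ u v,
      B (e.symm (x * u)) (e.symm v) = B (e.symm u) (e.symm (y * v)) := by
    refine ar_ind (fun c => ⟨_, hc c⟩) ⟨e (g.1.symm (e.symm 1)), fun u v => ?_⟩ ?_ ?_
    · have h1 : AdjoinRoot.root P * e (g.1.symm (e.symm 1)) = 1 := by
        rw [← he]; simp
      rw [← g.2 (e.symm u), ← hg, ← hg, ← mul_assoc, h1, one_mul]
    · rintro x y ⟨a, ha⟩ ⟨b, hb⟩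
      exact ⟨a + b, fun u v => by simp only [add_mul, map_add, LinearMap.add_apply, ha, hb]⟩
    · rintro x y ⟨a, ha⟩ ⟨b, hb⟩
      exact ⟨b * a, fun u v => by rw [mul_assoc, ha, hb, mul_assoc]⟩
  choose t ht using ex
  have un : ∀ x y, (∀ u v, B (e.symm (x * u)) (e.symm v) = B (e.symm u) (e.symm (y * v))) →
      t x = y := fun x y h => by
    have : e.symm (t x - y) = 0 := hB.nondeg_right _ fun w => by
      have h1 := ht x (e w) 1
      have h2 := h (e w) 1
      rw [h1, mul_one, mul_one, e.symm_apply_apply] at h2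
      rw [map_sub, map_sub, h2, sub_self]
    exact sub_eq_zero.1 (e.symm.map_eq_zero_iff.1 this)
  refine ⟨{ toFun := t
            map_one' := un _ _ fun u v => by rw [one_mul, one_mul]
            map_mul' := fun x y => un _ _ fun u v => by
              rw [mul_assoc, ht, ht, ← mul_assoc, mul_comm (t y)]
            map_zero' := un _ _ fun u v => by simp
            map_add' := fun x y => un _ _ fun u v => by
              simp only [add_mul, map_add, LinearMap.add_apply, ht] }, fun x => un _ _ fun u v => ?_,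
    fun c => un _ _ (hc c), ht⟩
  show B (e.symm (t x * u)) (e.symm v) = _
  rw [← hB.symm, ← ht, hB.symm]

/-- Let `e : V ≃ R = F[X]/φ^k` be the similarity, `L x = e⁻¹ ∘ (x * ·) ∘ e`.  The endomorphisms commuting
with `g` are the `L x` (an `F`-linear map of `R` commuting with the multiplication by `root` commutes
with all multiplications (`AdjoinRoot.induction_on`, `aeval_cyc`), so it is the multiplication by the
image of `1`).  The adjoint of `L x` (`IsHerm.exists_eq`: `B (L x u) v = B u (A v)`) commutes with `g`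
(`g` is an isometry), so it is `L (τ x)`; `τ` is a ring homomorphism (`R` is commutative, uniqueness of
adjoints by `nondeg`), an involution, and `σ` on `F`.  `h ↦ L h` is a bijection from `{h τ h = 1}` to the
centraliser in `UG B`, `kf (L h)` is the dimension in `loc_sum`; `finrank V = deg φ^k`
(`finrank_adjoinRoot`). -/
theorem base (hσ : IsBar q σ) (hB : IsHerm σ B) {g : UG B} {φ : F[X]} (h1 : φ.Monic)
    (h2 : Irreducible φ) {k : ℕ} (hs : Sim (g.1 : End F V) (cyc (φ ^ k))) (hn : Odd (finrank F V)) :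
    ∑ᶠ h : Subgroup.centralizer ({g} : Set (UG B)), wf q h.1.1 = 0 := by
  obtain ⟨e, he⟩ := hs
  have he' : ∀ v, e (g.1 v) = AdjoinRoot.root (φ ^ k) * e v := he
  obtain ⟨τ, h3, h4, h5⟩ := exists_adj hB e he'
  have hk : Odd (φ ^ k).natDegree := by rwa [← finrank_adjoinRoot, ← e.finrank_eq]
  have key : ∀ (h : Subgroup.centralizer ({g} : Set (UG B))) (x y : AdjoinRoot (φ ^ k)),
      e (h.1.1 (e.symm (x * y))) = x * e (h.1.1 (e.symm y)) := fun h => by
    have hc : ∀ v, g.1 (h.1.1 v) = h.1.1 (g.1 v) := fun v =>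
      congrArg (fun z : UG B => z.1 v) (Subgroup.mem_centralizer_iff.1 h.2 g rfl)
    refine ar_ind (fun c y => ?_) (fun y => ?_) (fun a b ha hb y => ?_) (fun a b ha hb y => ?_)
    · simp only [← Algebra.smul_def, map_smul]
    · rw [← he', hc]
      congr 2
      rw [LinearEquiv.symm_apply_eq, he', e.apply_symm_apply]
    · simp only [add_mul, map_add, ha, hb]
    · rw [mul_assoc, ha, hb, mul_assoc]
  have key' : ∀ (h : Subgroup.centralizer ({g} : Set (UG B))) (v : V),
      h.1.1 v = e.symm (e (h.1.1 (e.symm 1)) * e v) := fun h v => by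
    rw [mul_comm, ← key, mul_one, e.symm_apply_apply, e.symm_apply_apply]
  have hm : ∀ h : Subgroup.centralizer ({g} : Set (UG B)),
      e (h.1.1 (e.symm 1)) * τ (e (h.1.1 (e.symm 1))) = 1 := fun h => by
    have : e.symm (e (h.1.1 (e.symm 1)) * τ (e (h.1.1 (e.symm 1))) - 1) = 0 :=
      hB.nondeg_right _ fun w => by
        have h6 : B (e.symm (e (h.1.1 (e.symm 1)) * e w)) (e.symm (e (h.1.1 (e.symm 1)))) =
            B w (e.symm 1) := by
          rw [← key' h w, e.symm_apply_apply]; exact h.1.2 _ _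
        rw [h5, e.symm_apply_apply, mul_comm] at h6
        rw [map_sub, map_sub, h6, sub_self]
    exact sub_eq_zero.1 (e.symm.map_eq_zero_iff.1 this)
  have := loc_sum hσ h1 h2 hk τ h3 h4
  rw [← neg_eq_zero, ← finsum_neg_distrib] at this
  refine (finsum_eq_of_bijective (fun h : Subgroup.centralizer ({g} : Set (UG B)) =>
    (⟨_, hm h⟩ : {h : AdjoinRoot (φ ^ k) // h * τ h = 1})) ⟨fun a b hab => ?_, fun x => ?_⟩
    fun h => ?_).trans this
  · have hab' : e (a.1.1 (e.symm 1)) = e (b.1.1 (e.symm 1)) := congrArg Subtype.val hab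
    refine Subtype.ext (Subtype.ext (LinearEquiv.ext fun v => ?_))
    rw [key' a, key' b, hab']
  · let m : AdjoinRoot (φ ^ k) ≃ₗ[F] AdjoinRoot (φ ^ k) :=
      LinearEquiv.ofLinearMap (Algebra.lmul F _ x.1) (Algebra.lmul F _ (τ x.1))
        (LinearMap.ext fun y => by
          show x.1 * (τ x.1 * y) = y
          rw [← mul_assoc, x.2, one_mul])
        (LinearMap.ext fun y => by
          show τ x.1 * (x.1 * y) = y
          rw [← mul_assoc, mul_comm (τ x.1), x.2, one_mul])
    have hmv : ∀ v, (e ≪≫ₗ m ≪≫ₗ e.symm) v = e.symm (x.1 * e v) := fun v => rfl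
    refine ⟨⟨⟨e ≪≫ₗ m ≪≫ₗ e.symm, fun u v => ?_⟩, Subgroup.mem_centralizer_iff.2 ?_⟩, Subtype.ext ?_⟩
    · rw [hmv, hmv, h5, ← mul_assoc, mul_comm (τ x.1), x.2, one_mul, e.symm_apply_apply,
        e.symm_apply_apply]
    · intro g' hg'
      rw [Set.mem_singleton_iff.1 hg']
      refine Subtype.ext (LinearEquiv.ext fun v => e.injective ?_)
      show e (g.1 (e.symm (x.1 * e v))) = e (e.symm (x.1 * e (g.1 v)))
      rw [he', he', e.apply_symm_apply, e.apply_symm_apply, mul_left_comm]
    · show e (e.symm (x.1 * e (e.symm 1))) = x.1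
      rw [e.apply_symm_apply, e.apply_symm_apply, mul_one]
  · rw [wf, hn.neg_one_pow, neg_one_mul, kf, ← e.finrank_map_eq]
    refine congrArg (fun W : Submodule F (AdjoinRoot (φ ^ k)) => -(-(q : ℂ)) ^ finrank F W) ?_
    ext y
    obtain ⟨v, rfl⟩ := e.surjective y
    rw [Submodule.mem_map_equiv, e.symm_apply_apply, LinearMap.mem_ker, LinearMap.mem_ker, dev_apply,
      key' h v, ← e.map_eq_zero_iff, map_sub, e.apply_symm_apply]
    show _ ↔ (_ - 1) * e v = 0
    rw [sub_mul, one_mul]

end Cfsg.Lib.CW
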