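import Cfsg.Agent.Lib.CW.Eig

/-! # Transvection groups and their eigenspaces -/

set_option autoImplicit false
set_option linter.unusedSectionVars false

namespace Cfsg.Lib.CW

open Module LinearMap Cfsg.Lib.Unitary

variable {F V : Type*} [Field F] [Fintype F] [AddCommGroup V] [Module F V] [FiniteDimensional F V]
  {σ : F →+* F} {B : V →ₛₗ[σ] V →ₗ[F] F} {q : ℕ} {M : Type*} [AddCommGroup M] [Module ℂ M]
  (hB : IsHerm σ B) (ρ : SUG B →* End ℂ M) (ψ : AddChar F ℂ) {e : V}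

theorem card_Sk (hσ : IsBar q σ) : Nat.card (Sk σ) = q := hσ.card_trace_zero

include hB in
theorem sk_norm {c : F} (hc : c + σ c = 0) (t : F) : c * (t * σ t) + σ (c * (t * σ t)) = 0 := by
  simp only [map_mul, hB.invol]; linear_combination t * σ t * hc

theorem tv_zero (e : V) : tv hB e 0 = 1 := by
  by_cases he : B e e = 0
  · exact Subtype.ext (by rw [tv_eq hB he (by simp), transv_zero]; rfl)
  · rw [tv, dif_neg fun h => he h.1]

theorem tv_add (he : B e e = 0) {c d : F} (hc : c + σ c = 0) (hd : d + σ d = 0) :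
    tv hB e (c + d) = tv hB e c * tv hB e d := by
  refine Subtype.ext ?_
  rw [Subgroup.coe_mul, tv_eq hB he hc, tv_eq hB he hd, transv_mul, tv_eq]

/-- `conj_transv`; the junk cases agree -/
theorem conj_tv (g : SUG B) (e : V) (c : F) : g * tv hB e c * g⁻¹ = tv hB (g.1 e) c := by
  by_cases h : B e e = 0 ∧ c + σ c = 0
  · refine Subtype.ext ?_
    rw [Subgroup.coe_mul, Subgroup.coe_mul, Subgroup.coe_inv, tv_eq hB h.1 h.2, conj_transv g.2.1, tv_eq]
  · rw [tv, dif_neg h, tv, dif_neg (by rwa [g.2.1]), mul_one, mul_inv_cancel]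

theorem tv_smul (he : B e e = 0) {c : F} (hc : c + σ c = 0) (t : F) :
    tv hB (t • e) c = tv hB e (c * (t * σ t)) := by
  refine Subtype.ext (LinearEquiv.ext fun v => ?_)
  rw [tv_apply hB (by simp [he]) hc, tv_apply hB he (sk_norm hB hc t), LinearMap.map_smulₛₗ, LinearMap.smul_apply, smul_smul,
    smul_eq_mul]
  congr 2; ring

theorem tv_smul_one {t : F} (ht : t * σ t = 1) (e : V) (c : F) : tv hB (t • e) c = tv hB e c := by
  by_cases h : B e e = 0 ∧ c + σ c = 0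
  · rw [tv_smul hB h.1 h.2, ht, mul_one]
  · rw [tv, dif_neg _, tv, dif_neg h]
    rwa [map_smul, LinearMap.map_smulₛₗ, LinearMap.smul_apply, smul_smul, ht, one_smul]

theorem tv_injective (he0 : e ≠ 0) (he : B e e = 0) {c d : F} (hc : c + σ c = 0) (hd : d + σ d = 0)
    (h : tv hB e c = tv hB e d) : c = d := by
  by_contra n
  refine he0 (hB.nondeg e fun v => ?_)
  have := congrArg (fun g : SUG B => g.1 v) h
  simp only [tv_apply hB he hc, tv_apply hB he hd, add_right_inj] at this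
  exact (mul_eq_mul_right_iff.1 (smul_left_injective F he0 this)).resolve_left n

theorem conj_ei (g : SUG B) (e w : V) (γ : F) :
    g * ei hB e w γ * g⁻¹ = ei hB (g.1 e) (g.1 w) γ := by
  by_cases h : B e e = 0 ∧ B e w = 0 ∧ γ + σ γ + B w w = 0
  · refine Subtype.ext ?_
    rw [Subgroup.coe_mul, Subgroup.coe_mul, Subgroup.coe_inv, ei_eq hB h.1 h.2.1 h.2.2, conj_eichler g.2.1,
      ei_eq hB _ _ (by rw [g.2.1]; exact h.2.2)]
  · rw [ei, dif_neg h, ei, dif_neg (by rwa [g.2.1, g.2.1, g.2.1]), mul_one, mul_inv_cancel]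

theorem ei_zero (e : V) (c : F) : ei hB e 0 c = tv hB e c := by
  by_cases h : B e e = 0 ∧ c + σ c = 0
  · exact Subtype.ext (by rw [ei_eq hB h.1 (by simp) (by simp [h.2]), tv_eq hB h.1 h.2, eichler_zero])
  · rw [ei, tv, dif_neg h, dif_neg (by simpa using h)]

/-- `eichler_mul` -/
theorem ei_mul (he : B e e = 0) {w w' : V} {γ γ' : F} (hw : B e w = 0) (hγ : γ + σ γ + B w w = 0)
    (hw' : B e w' = 0) (hγ' : γ' + σ γ' + B w' w' = 0) :
    ei hB e w γ * ei hB e w' γ' = ei hB e (w + w') (γ + γ' - B w w') := by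
  refine Subtype.ext ?_
  rw [Subgroup.coe_mul, ei_eq hB he hw hγ, ei_eq hB he hw' hγ', eichler_mul, ei_eq]
  simp only [map_add, map_sub, hB.symm, LinearMap.add_apply]
  linear_combination hγ + hγ'

/-- `exists_eichler_of_mem_QE` -/
theorem exists_ei {f : V} (he : B e e = 0) (hf : B f f = 0) (hef : B e f = 1) {g : SUG B}
    (hg : g.1 ∈ QE B e) : ∃ w γ, B e w = 0 ∧ B f w = 0 ∧ γ + σ γ + B w w = 0 ∧ g = ei hB e w γ := by
  obtain ⟨w, γ, h1, _, h3, h4, h5⟩ := hB.exists_eichler_of_mem_QE he hf hef hg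
  exact ⟨w, γ, h1, h3, h4, Subtype.ext (h5.trans (ei_eq hB he h1 h4).symm)⟩

theorem Ee_map (g : SUG B) {m : M} (hm : m ∈ Ee hB ρ ψ e) : ρ g m ∈ Ee hB ρ ψ (g.1 e) := by
  intro c hc
  rw [← conj_tv, ← End.mul_apply, ← map_mul, inv_mul_cancel_right, map_mul, End.mul_apply, hm c hc, map_smul]

theorem Ee_smul {t : F} (ht : t * σ t = 1) (e : V) : Ee hB ρ ψ (t • e) = Ee hB ρ ψ e := by
  ext m
  simp only [mem_Ee, tv_smul_one hB ht]

theorem pe_conj (g : SUG B) (e : V) : ρ g * pe hB ρ ψ e = pe hB ρ ψ (g.1 e) * ρ g := by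
  have := Fintype.ofFinite (Sk σ)
  simp only [pe, finsum_eq_sum_of_fintype, mul_smul_comm, smul_mul_assoc, Finset.mul_sum, Finset.sum_mul, ← conj_tv, ← map_mul,
    inv_mul_cancel_right]

theorem pe_smul {t : F} (ht : t * σ t = 1) (e : V) : pe hB ρ ψ (t • e) = pe hB ρ ψ e := by
  simp only [pe, tv_smul_one hB ht]

theorem pe_mem (he : B e e = 0) (m : M) : pe hB ρ ψ e m ∈ Ee hB ρ ψ e := by
  have := Fintype.ofFinite (Sk σ)
  intro c hc
  simp only [pe, finsum_eq_sum_of_fintype, LinearMap.smul_apply, LinearMap.sum_apply, map_smul, map_sum]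
  rw [smul_comm (ψ c), Finset.smul_sum (r := ψ c)]
  refine congrArg _ (Fintype.sum_equiv (Equiv.addLeft (⟨c, hc⟩ : Sk σ)) _ _ fun d => ?_)
  rw [Equiv.coe_addLeft, AddSubgroup.coe_add, tv_add hB he hc d.2, map_mul, End.mul_apply, smul_smul, ← ψ.map_add_eq_mul]
  congr 2; ring

theorem pe_of_mem {m : M} (hm : m ∈ Ee hB ρ ψ e) : pe hB ρ ψ e m = m := by
  have := Fintype.ofFinite (Sk σ)
  simp only [pe, finsum_eq_sum_of_fintype, LinearMap.smul_apply, LinearMap.sum_apply]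
  rw [Finset.sum_congr rfl fun c _ => show _ = m by
    rw [hm c c.2, smul_smul, ← ψ.map_add_eq_mul, neg_add_cancel, ψ.map_zero_eq_one, one_smul],
    Finset.sum_const, Finset.card_univ, ← Nat.card_eq_fintype_card, ← Nat.cast_smul_eq_nsmul ℂ, smul_smul,
    inv_mul_cancel₀ (Nat.cast_ne_zero.2 Nat.card_pos.ne'), one_smul]

theorem pe_idem (he : B e e = 0) : pe hB ρ ψ e * pe hB ρ ψ e = pe hB ρ ψ e :=
  LinearMap.ext fun m => pe_of_mem hB ρ ψ (pe_mem hB ρ ψ he m)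

theorem tv_mul_pe (he : B e e = 0) {c : F} (hc : c + σ c = 0) :
    ρ (tv hB e c) * pe hB ρ ψ e = ψ c • pe hB ρ ψ e :=
  LinearMap.ext fun m => pe_mem hB ρ ψ he m c hc

theorem pe_mem_of {Y : Submodule ℂ M} (hY : ∀ c, c + σ c = 0 → ∀ y ∈ Y, ρ (tv hB e c) y ∈ Y) :
    ∀ y ∈ Y, pe hB ρ ψ e y ∈ Y := by
  have := Fintype.ofFinite (Sk σ)
  intro y hy
  simp only [pe, finsum_eq_sum_of_fintype, LinearMap.smul_apply, LinearMap.sum_apply]
  exact Y.smul_mem _ (Y.sum_mem fun c _ => Y.smul_mem _ (hY c c.2 y hy))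

theorem trace_pe [FiniteDimensional ℂ M] (hσ : IsBar q σ) (g : SUG B) (e : V) :
    trace ℂ M (ρ g * pe hB ρ ψ e) =
      (q : ℂ)⁻¹ * ∑ᶠ c : Sk σ, ψ (-c) * trace ℂ M (ρ (g * tv hB e c)) := by
  have := Fintype.ofFinite (Sk σ)
  simp only [pe, finsum_eq_sum_of_fintype, mul_smul_comm, Finset.mul_sum, map_smul, map_sum, card_Sk hσ, smul_eq_mul, map_mul]

variable {ψ}

theorem eq_zero_of_fix (hψ : NT σ ψ) {m : M} (hm : m ∈ Ee hB ρ ψ e)
    (h : ∀ c, c + σ c = 0 → ρ (tv hB e c) m = m) : m = 0 := by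
  obtain ⟨c, hc, h1⟩ := hψ
  by_contra n
  exact h1 (smul_left_injective ℂ n ((hm c hc).symm.trans ((h c hc).trans (one_smul ℂ m).symm)))

/-- `w = pe m` lies in `Ee e` and in `Ee (t e)` (`pe_mem_of`, the transvections commute), so
`ψ (c t σ t) w = ψ c w` (`tv_smul`) for all skew `c`; `eq_of_s` -/
theorem pe_eq_zero (hσ : IsBar q σ) (hψ : NT σ ψ) (he : B e e = 0) {t : F} (ht : t * σ t ≠ 1) {m : M}
    (hm : m ∈ Ee hB ρ ψ (t • e)) : pe hB ρ ψ e m = 0 := by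
  by_contra n
  have k : pe hB ρ ψ e m ∈ Ee hB ρ ψ (t • e) := pe_mem_of hB ρ ψ (fun c hc y hy => (mem_Ee hB ρ ψ).2 fun d hd => by
    rw [← End.mul_apply, ← map_mul, tv_smul hB he hd, ← tv_add hB he (sk_norm hB hd t) hc, add_comm,
      tv_add hB he hc (sk_norm hB hd t), ← tv_smul hB he hd, map_mul, End.mul_apply, hy d hd, map_smul]) m hm
  refine ht (eq_of_s hσ hψ (by rw [map_mul, hB.invol, mul_comm]) (map_one σ) fun c hc => smul_left_injective ℂ n ?_)
  have := k c hc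
  rw [tv_smul hB he hc, pe_mem hB ρ ψ he m _ (sk_norm hB hc t)] at this
  simpa only [mul_one] using this

/-- `eig_ind` for `T c = ρ (tv e c)`, `c : Sk σ`, target `comap (ρ (tv e c) - 1) P`.  An eigenvector `y`
has the character `c ↦ ψ (c s)` (`exists_s`); `s = 0`: the difference is zero; otherwise
`y ∈ Ee (t e)` for `t σ t = s⁻¹` (`exists_norm_eq`, `tv_smul`), so `y ∈ P`. -/
theorem nt_ind (hσ : IsBar q σ) (hψ : NT σ ψ) (he : B e e = 0) {Y P : Submodule ℂ M}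
    (hY : ∀ c, c + σ c = 0 → ∀ y ∈ Y, ρ (tv hB e c) y ∈ Y)
    (h : ∀ t : F, t ≠ 0 → Y ⊓ Ee hB ρ ψ (t • e) ≤ P) {c : F} (hc : c + σ c = 0) :
    ∀ y ∈ Y, ρ (tv hB e c) y - y ∈ P := by
  refine eig_ind (P := P.comap (ρ (tv hB e c) - 1)) (fun d : Sk σ => ρ (tv hB e d)) (by simp [tv_zero])
    (fun x y => by rw [AddSubgroup.coe_add, tv_add hB he x.2 y.2, map_mul]) (fun x => hY x x.2) fun χ y hy k => ?_
  obtain ⟨s, hs, hχ⟩ := exists_s hσ hψ χ
  have kc : ρ (tv hB e c) y = _ := k ⟨c, hc⟩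
  rw [Submodule.mem_comap, LinearMap.sub_apply, End.one_apply, kc]
  by_cases s0 : s = 0
  · simp [hχ, s0]
  obtain ⟨t, ht⟩ := hσ.exists_norm_eq (μ := s⁻¹) (by rw [map_inv₀, hs])
  have : y ∈ P := h t (left_ne_zero_of_mul (ht ▸ inv_ne_zero s0)) ⟨hy, fun d hd => by
    rw [tv_smul hB he hd, show ρ (tv hB e (d * (t * σ t))) y = _ from k ⟨_, sk_norm hB hd t⟩, hχ]
    simp only [ht, inv_mul_cancel_right₀ s0]⟩
  exact P.sub_mem (P.smul_mem _ this) this

/-- otherwise `Ee e' = ⊥` for all isotropic `e' ≠ 0` (`Ee_map`, `exists_SUG_vec`), by `nt_ind` with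
`Y = ⊤`, `P = ⊥` all transvections act trivially, and they generate (`TG_eq_SUG`, `TG_le` for the image
of `ker ρ`) -/
theorem exists_Ee (hσ : IsBar q σ) (hψ : NT σ ψ) (hn : 4 ≤ finrank F V) (hρ : ρ ≠ 1) (he0 : e ≠ 0)
    (he : B e e = 0) : ∃ m ∈ Ee hB ρ ψ e, m ≠ 0 := by
  by_contra n
  push Not at n
  have z : ∀ u, u ≠ 0 → B u u = 0 → Ee hB ρ ψ u ≤ ⊥ := fun u u0 hu m hm => by
    obtain ⟨g, hg, e1⟩ := hB.exists_SUG_vec (by omega) u0 he0 (hu.trans he.symm)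
    have := n _ (e1 ▸ Ee_map hB ρ ψ ⟨g, hg⟩ hm)
    rw [Submodule.mem_bot, ← End.one_apply (R := ℂ) m, ← map_one ρ, ← inv_mul_cancel ⟨g, hg⟩, map_mul, End.mul_apply, this,
      map_zero]
  have k : TG B ≤ ρ.ker.map (SUG B).subtype := TG_le fun u c hu hc => ⟨tv hB u c, by
    by_cases u0 : u = 0
    · rw [show tv hB u c = 1 from Subtype.ext (LinearEquiv.ext fun v => by rw [tv_apply hB hu hc]; simp [u0])]
      exact one_mem _
    exact LinearMap.ext fun y => sub_eq_zero.1 (nt_ind hB ρ hσ hψ hu (Y := ⊤) (P := ⊥) (fun _ _ _ _ => trivial)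
      (fun t t0 => inf_le_right.trans (z _ (smul_ne_zero t0 u0) (by simp [hu]))) hc y trivial), tv_eq hB hu hc⟩
  rw [hB.TG_eq_SUG hσ (by omega)] at k
  refine hρ (MonoidHom.ext fun g => ?_)
  obtain ⟨x, hx, e1⟩ := k g.2
  exact (Subtype.ext e1 : x = g) ▸ hx

end Cfsg.Lib.CW
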