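import Cfsg.Agent.Lib.CW.Irr
import Cfsg.Agent.Lib.CW.Proj

/-! # The centraliser of a transvection times an irreducible element -/

set_option autoImplicit false

namespace Cfsg.Lib.CW

open Module LinearMap Cfsg.Lib.Unitary Cfsg.Lib.US7

variable {F V : Type*} [Field F] [Fintype F] [AddCommGroup V] [Module F V] [FiniteDimensional F V]
  {σ : F →+* F} {B : V →ₛₗ[σ] V →ₗ[F] F} {q : ℕ}

/-- `H = ⟨e, f⟩`, `U = H^⊥` of odd dimension `≥ 3`, `t ∈ UG (B|U)` irreducible (`exists_irr`),
`g' = tv e δ * glue (1, t) ∈ UG B` (`δ ≠ 0` skew), `g' = c g` (`exists_scal`); `h` commutes with `g'`.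
`t - 1` is injective on `U` (`Irr.kf_eq`, `t ≠ 1` as `dim U > 1`), so `ker (g' - 1) = F e`: `h e = a e`,
`ker (g' - 1)² = H`, so `h` preserves `H` and `U = H^⊥` (`perp_mem_subStab`).  `h f = x e + y f`,
`σ a y = 1`, and `h g' f = g' h f` gives `a = y`.  If `σ a h v = v` then `h v = a v`, `h|U` commutes with `t`, so
`h = a` on `U` (`Irr.eq_smul`); then `h tv e (-x/a)` is the scalar `a` (`x/a` is skew as `B (h f) (h f) = 0`;
`hyp_decomp`), `eq_one_of_smul`. -/
theorem exists_cent (hσ : IsBar q σ) (hB : IsHerm σ B) (hn : 5 ≤ finrank F V)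
    (hc : (finrank F V).Coprime (2 * (q + 1))) {e f : V} (he : B e e = 0) (hf : B f f = 0)
    (hef : B e f = 1) : ∃ g : SUG B, ∀ h : SUG B, h * g = g * h → ∃ a : F, a * σ a = 1 ∧
      h.1 e = a • e ∧ (∀ w, B e w = 0 → B f w = 0 → B f (h.1 w) = 0) ∧
      ∀ v, v ≠ 0 → B e v = 0 → B f v = 0 → σ a • h.1 v = v → ∃ c, c + σ c = 0 ∧ h = tv hB e c := by
  have hfe : B f e = 1 := by rw [← hB.symm, hef, map_one]
  have hg : B e e * B f f - B e f * B f e ≠ 0 := by simp [he, hef, hfe]
  have hd := disjoint_perp_pair_of_gram hg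
  have hU : finrank F (perp B (Submodule.span F {e, f})) + 2 = finrank F V := by
    rw [← hB.finrank_add_finrank_perp (Submodule.span F {e, f}),
      finrank_span_pair_of_linearIndependent (linearIndependent_pair_of_gram hg), add_comm]
  have mU : ∀ {w}, w ∈ perp B (Submodule.span F {e, f}) ↔ B e w = 0 ∧ B f w = 0 := mem_perp_span.trans (by simp)
  obtain ⟨t, tU, ht⟩ := exists_irr hσ (hB.restrict_perp hd) (by
    have := Nat.coprime_two_right.1 (Nat.Coprime.coprime_mul_right_right hc)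
    rw [Nat.odd_iff] at this ⊢
    omega)
  have fx : ∀ w, t w = w → w = 0 := fun w hw => by
    by_contra n
    rcases ht (F ∙ w) (fun v hv => by
      obtain ⟨k, rfl⟩ := Submodule.mem_span_singleton.1 hv
      rwa [map_smul, hw]) with z | z
    · exact n (Submodule.span_singleton_eq_bot.1 z)
    · have := finrank_span_singleton (K := F) n
      rw [z, finrank_top] at this
      omega
  obtain ⟨δ, δ0, hδ⟩ := hB.exists_skew
  have hδ : δ + σ δ = 0 := by simp [hδ]
  have hc' := Nat.Coprime.coprime_mul_left_right hc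
  obtain ⟨G, GU, Ge, Gf, Gw⟩ : ∃ G ∈ UG B, G e = e ∧ G f = f + δ • e ∧
      ∀ w : perp B (Submodule.span F {e, f}), G w = t w := by
    have a := glue_apply_left (hB.isCompl_perp hd) (1, t)
    refine ⟨(tv hB e δ).1 * glue (hB.isCompl_perp hd) (1, t),
      mul_mem (tv hB e δ).2.1 ((glue_mem_UG_iff _ hB le_rfl _).2 ⟨one_mem _, tU⟩), ?_, ?_, fun w => ?_⟩
    · rw [LinearEquiv.mul_apply, a ⟨e, Submodule.subset_span (by simp)⟩, tv_apply hB he hδ]; simp [he]
    · rw [LinearEquiv.mul_apply, a ⟨f, Submodule.subset_span (by simp)⟩, tv_apply hB he hδ]; simp [hef]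
    · rw [LinearEquiv.mul_apply, glue_apply_right, tv_apply hB he hδ]; simp [(mU.1 (t w).2).1]
  have key : ∀ v b, G v = v + (δ * b) • e → ∃ x, v = x • e + b • f := fun v b hv => by
    obtain ⟨w, h1, h2, h3⟩ := hB.hyp_decomp he hf hef v
    generalize B f v = x, B e v = y at h3
    rw [h3, map_add, map_add, map_smul, map_smul, Ge, Gf, Gw ⟨w, mU.2 ⟨h1, h2⟩⟩] at hv
    have k := congrArg (B f) hv
    simp only [map_add, map_smul, hfe, hf, h2, (mU.1 (t _).2).2, smul_eq_mul] at k
    obtain rfl : y = b := mul_left_cancel₀ δ0 (by linear_combination k)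
    have := fx ⟨w, mU.2 ⟨h1, h2⟩⟩ (Subtype.ext (by linear_combination (norm := module) hv))
    exact ⟨x, by rw [h3, show w = 0 from congrArg Subtype.val this, zero_add]⟩
  obtain ⟨c, g, hG⟩ := exists_scal hσ hB hc' GU
  refine ⟨g, fun h hh => ?_⟩
  have cm : ∀ v, G (h.1 v) = h.1 (G v) := fun v => by
    have := congrArg (fun k : SUG B => k.1 v) hh
    simp only [Subgroup.coe_mul, LinearEquiv.mul_apply] at this
    simp [hG, this]
  obtain ⟨a, ha⟩ := key (h.1 e) 0 (by simp [cm, Ge])
  rw [zero_smul, add_zero] at ha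
  obtain ⟨x, hx⟩ := key (h.1 f) a (by rw [cm, Gf, map_add, map_smul, ha, smul_smul])
  have a1 : a * σ a = 1 := by simpa [ha, hx, he, hef, mul_comm] using h.2.1 e f
  have a0 := right_ne_zero_of_mul_eq_one a1
  refine ⟨a, a1, ha, fun w h1 h2 => ?_, fun v v0 h1 h2 hv => ?_⟩
  · have b : B e (h.1 w) = 0 := by simpa [ha, h1, a0] using h.2.1 e w
    simpa [hx, h2, a0, b] using h.2.1 f w
  have hs : σ a * x + σ (σ a * x) = 0 := by
    have := h.2.1 f f
    simp only [hx, map_add, map_smul, map_smulₛₗ, LinearMap.add_apply, LinearMap.smul_apply, he, hf, hef, hfe,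
      smul_eq_mul] at this
    rw [map_mul, hB.invol]
    linear_combination this
  have hW := (ht (LinearMap.ker ((h.1.toLinearMap - a • LinearMap.id) ∘ₗ Submodule.subtype _)) fun w hw => by
    simp only [LinearMap.mem_ker, LinearMap.comp_apply, LinearMap.sub_apply, sub_eq_zero, Submodule.subtype_apply,
      LinearEquiv.coe_coe, LinearMap.smul_apply, LinearMap.id_apply] at hw ⊢
    rw [← Gw, ← cm, hw, map_smul]).resolve_left fun z => v0 (congrArg Subtype.val
      ((Submodule.eq_bot_iff _).1 z ⟨v, mU.2 ⟨h1, h2⟩⟩ (by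
        simp only [LinearMap.mem_ker, LinearMap.comp_apply, LinearMap.sub_apply, sub_eq_zero, Submodule.subtype_apply,
          LinearEquiv.coe_coe, LinearMap.smul_apply, LinearMap.id_apply]
        conv_rhs => rw [← hv, smul_smul, a1, one_smul])))
  refine ⟨_, hs, (inv_mul_eq_one.1 (eq_one_of_smul hσ hB hc' (a := a) fun u => ?_)).symm⟩
  rw [Subgroup.coe_mul, LinearEquiv.mul_apply, Subgroup.coe_inv, LinearEquiv.coe_inv, LinearEquiv.symm_apply_eq, map_smul,
    tv_apply hB he hs]
  obtain ⟨w, h1, h2, h3⟩ := hB.hyp_decomp he hf hef u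
  have : h.1 w = a • w := by simpa [sub_eq_zero] using hW.ge (Submodule.mem_top (x := ⟨w, mU.2 ⟨h1, h2⟩⟩))
  generalize B f u = y, B e u = z at h3
  rw [h3, map_add, map_add, map_smul, map_smul, this, ha, hx]
  match_scalars
  · ring
  · linear_combination (-x * z) * a1
  · ring

end Cfsg.Lib.CW
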