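import Cfsg.Agent.Lib.CW.Def

/-! # Averages over subgroups -/

set_option autoImplicit false

namespace Cfsg.Lib.CW

open Module LinearMap Cfsg.Lib.Char Cfsg.Lib.US7

variable {G M : Type*} [Group G] [AddCommGroup M] [Module ℂ M] [FiniteDimensional ℂ M]

/-- the average over a subgroup -/
noncomputable def avg (ρ : G →* End ℂ M) (X : Subgroup G) : End ℂ M := (Nat.card X : ℂ)⁻¹ • ∑ᶠ x : X, ρ x

section

variable [Finite G] (ρ : G →* End ℂ M) {X Q : Subgroup G}

omit [FiniteDimensional ℂ M] in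
theorem mul_avg {g : G} (hg : g ∈ X) : ρ g * avg ρ X = avg ρ X ∧ avg ρ X * ρ g = avg ρ X := by
  cases nonempty_fintype X
  rw [avg, finsum_eq_sum_of_fintype]
  exact ⟨av_left (π := fun x : X => ρ x) (fun a b => map_mul ρ _ _) ⟨g, hg⟩,
    av_right (π := fun x : X => ρ x) (fun a b => map_mul ρ _ _) ⟨g, hg⟩⟩

omit [FiniteDimensional ℂ M] in
theorem avg_mul (h : X ≤ Q) : avg ρ X * avg ρ Q = avg ρ Q ∧ avg ρ Q * avg ρ X = avg ρ Q := by
  cases nonempty_fintype X
  rw [avg.eq_1 ρ X, finsum_eq_sum_of_fintype]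
  exact ⟨av_absl fun x => (mul_avg ρ (h x.2)).1, av_absr fun x => (mul_avg ρ (h x.2)).2⟩

theorem trace_avg : trace ℂ M (avg ρ X) = (Nat.card X : ℂ)⁻¹ * ∑ᶠ x : X, trace ℂ M (ρ x) := by
  cases nonempty_fintype X
  rw [avg, finsum_eq_sum_of_fintype, finsum_eq_sum_of_fintype, map_smul, map_sum, smul_eq_mul]

omit [FiniteDimensional ℂ M] in
theorem avg_apply {m : M} (hm : ∀ x ∈ X, ρ x m = m) : avg ρ X m = m := by
  cases nonempty_fintype X
  rw [avg, finsum_eq_sum_of_fintype, LinearMap.smul_apply, LinearMap.sum_apply, Finset.sum_congr rfl fun (x : X) _ => hm x x.2,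
    Finset.sum_const, Finset.card_univ, ← Nat.card_eq_fintype_card, ← Nat.cast_smul_eq_nsmul ℂ]
  exact inv_smul_smul₀ (card_ne_zero_complex X) m

end

/-- `∑_g χ g |C g| = ∑_g ∑_(h ∈ C g) χ g = ∑_h ∑_(g ∈ C h) χ g` (the class-size function is real, so
`conj` does nothing), and each inner sum is `|C h| ⟨χ|C h, 1⟩ = |C h| * (natural number)`
(`IsCharacter.restrict`, `exists_inner_eq_nat`); a sum of naturals vanishes iff all terms do. -/
theorem inner_iff_occ [Fintype G] {χ : G → ℂ} (hχ : IsCharacter G χ) :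
    classInner χ (fun g : G => (Nat.card (Subgroup.centralizer ({g} : Set G)) : ℂ)) ≠ 0 ↔ Occ χ := by
  classical
  have a : ∀ (f : G → ℂ) (h : G), ∑ᶠ x : Subgroup.centralizer ({h} : Set G), f x = ∑ g, if g * h = h * g then f g else 0 :=
    fun f h => by
      rw [finsum_eq_sum_of_fintype, ← Finset.sum_filter]
      exact (Finset.sum_subtype _ (fun x => by simp [Subgroup.mem_centralizer_singleton_iff]) f).symm
  have b : ∀ h : G, ∃ n : ℕ, ∑ᶠ x : Subgroup.centralizer ({h} : Set G), χ x = n := fun h => by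
    obtain ⟨n, hn⟩ := (hχ.comp (Subgroup.centralizer ({h} : Set G)).subtype).exists_inner_eq_nat isCharacter_one
    refine ⟨Nat.card (Subgroup.centralizer ({h} : Set G)) * n, ?_⟩
    rw [Nat.cast_mul, ← hn, classInner, mul_inv_cancel_left₀ (card_ne_zero_complex _), finsum_eq_sum_of_fintype]
    simp
  choose n hn using b
  have c : ∑ g, χ g * (starRingEnd ℂ) (Nat.card (Subgroup.centralizer ({g} : Set G)) : ℂ) = (∑ h, n h : ℕ) := by
    simp only [Nat.cast_sum, ← hn, a, map_natCast]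
    rw [Finset.sum_comm]
    refine Finset.sum_congr rfl fun g _ => ?_
    have := a (fun _ => χ g) g
    rw [finsum_eq_sum_of_fintype, Finset.sum_const, Finset.card_univ, ← Nat.card_eq_fintype_card, nsmul_eq_mul] at this
    rw [mul_comm, this]
    simp only [eq_comm]
  rw [classInner, c, mul_ne_zero_iff_left (inv_ne_zero (card_ne_zero_complex G)), Nat.cast_ne_zero, Ne,
    Finset.sum_eq_zero_iff, Occ]
  simp only [hn, Finset.mem_univ, true_imp_iff, not_forall, Nat.cast_ne_zero]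

/-- `E = |C|⁻¹ ∑_(h ∈ C) ρ h` is an idempotent (`US7.av_left` ...) fixing `m ≠ 0`, so `E ≠ 0` and its
trace is not zero (`US7.idem_zero`). -/
theorem occ_of_fx [Finite G] {ρ : G →* End ℂ M} (h : Fx ρ) : Occ fun g => trace ℂ M (ρ g) := by
  obtain ⟨g, m, h0, h⟩ := h
  refine ⟨g, fun e => h0 ?_⟩
  rw [← avg_apply ρ (X := Subgroup.centralizer {g}) fun x hx => h x (Subgroup.mem_centralizer_singleton_iff.1 hx),
    idem_zero (avg_mul ρ le_rfl).1 (by rw [trace_avg, e, mul_zero]), LinearMap.zero_apply]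

/-- the average over `D` is an idempotent of trace zero, so it is zero; the average over `C` absorbs
it (`av_absr`/`av_right`). -/
theorem sum_zero_of_le [Finite G] {χ : G → ℂ} (hχ : IsCharacter G χ) {D C : Subgroup G} (h : D ≤ C)
    (h0 : ∑ᶠ x : D, χ x = 0) : ∑ᶠ x : C, χ x = 0 := by
  obtain ⟨n, ρ, rfl⟩ := hχ
  have a := trace_avg ρ (X := C)
  rw [← (avg_mul ρ h).1, idem_zero (avg_mul ρ (X := D) le_rfl).1 ((trace_avg ρ).trans (mul_eq_zero_of_right _ h0)), zero_mul,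
    map_zero] at a
  exact (mul_eq_zero.1 a.symm).resolve_left (inv_ne_zero (card_ne_zero_complex C))

/-- the two averages are commuting idempotents `A_X`, `A_Q` with `A_X A_Q = A_Q = A_Q A_X` and the
same trace, so they are equal (`US7.idem_eq`); `m = A_X m = A_Q m`. -/
theorem fix_of_avg [Finite G] (ρ : G →* End ℂ M) {X Q : Subgroup G} (h : X ≤ Q)
    (e : (Nat.card X : ℂ)⁻¹ * ∑ᶠ x : X, trace ℂ M (ρ x) =
      (Nat.card Q : ℂ)⁻¹ * ∑ᶠ x : Q, trace ℂ M (ρ x))
    {m : M} (hm : ∀ x ∈ X, ρ x m = m) : ∀ g ∈ Q, ρ g m = m := fun g hg => by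
  have a := idem_eq (avg_mul ρ (X := X) le_rfl).1 (avg_mul ρ le_rfl).1 (avg_mul ρ h).1 (avg_mul ρ h).2
    (by rw [trace_avg, trace_avg, e])
  rw [← avg_apply ρ hm, a, ← End.mul_apply, (mul_avg ρ hg).1]

omit [FiniteDimensional ℂ M] in
/-- The `g` with `ρ g Y ⊆ Y` and `(ρ g - 1) Y ⊆ P` form a subgroup `H` (closed under products:
`(g h - 1) y = (g - 1) (h y) + (h - 1) y`; inverses are powers since `G` is finite);
`y₀ = |H|⁻¹ ∑_(g ∈ H) ρ g y`. -/
theorem exists_avg [Finite G] (ρ : G →* End ℂ M) (Y P : Submodule ℂ M) {y : M} (hy : y ∈ Y) :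
    ∃ y₀ ∈ Y, y - y₀ ∈ P ∧ ∀ g, (∀ x ∈ Y, ρ g x ∈ Y ∧ ρ g x - x ∈ P) → ρ g y₀ = y₀ := by
  let H0 : Submonoid G :=
    { carrier := {g | ∀ x ∈ Y, ρ g x ∈ Y ∧ ρ g x - x ∈ P}
      one_mem' := fun x hx => by simpa using hx
      mul_mem' := fun {a b} ha hb x hx => by
        rw [map_mul, End.mul_apply, ← sub_add_sub_cancel _ (ρ b x)]
        exact ⟨(ha _ (hb x hx).1).1, add_mem (ha _ (hb x hx).1).2 (hb x hx).2⟩ }
  let H : Subgroup G := { H0 with
    inv_mem' := fun {a} ha => by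
      rw [← mul_inv_eq_one.1 (show a ^ (orderOf a - 1) * a⁻¹⁻¹ = 1 by
        rw [inv_inv, ← pow_succ, Nat.sub_add_cancel (orderOf_pos a), pow_orderOf_eq_one])]
      exact H0.pow_mem ha _ }
  cases nonempty_fintype H
  refine ⟨avg ρ H y, ?_, ?_, fun g hg => by rw [← End.mul_apply, (mul_avg ρ (X := H) hg).1]⟩
  · rw [avg, finsum_eq_sum_of_fintype, LinearMap.smul_apply, LinearMap.sum_apply]
    exact Y.smul_mem _ (Y.sum_mem fun x _ => (x.2 y hy).1)
  · have : y - avg ρ H y = -((Nat.card H : ℂ)⁻¹ • ∑ x : H, (ρ x y - y)) := by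
      rw [avg, finsum_eq_sum_of_fintype, LinearMap.smul_apply, LinearMap.sum_apply, Finset.sum_sub_distrib, smul_sub, neg_sub,
        Finset.sum_const, Finset.card_univ, ← Nat.card_eq_fintype_card, ← Nat.cast_smul_eq_nsmul ℂ,
        inv_smul_smul₀ (card_ne_zero_complex H)]
    exact this ▸ neg_mem (P.smul_mem _ (P.sum_mem fun x _ => (x.2 y hy).2))

end Cfsg.Lib.CW
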