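import Cfsg.Agent.Lib.CW.Key
import Cfsg.Agent.Lib.CW.Gp

/-! # Rigidity of equivariant families -/

set_option autoImplicit false
set_option linter.unusedSectionVars false

namespace Cfsg.Lib.CW

open Module LinearMap Cfsg.Lib.Unitary

variable {F V : Type*} [Field F] [Fintype F] [AddCommGroup V] [Module F V] [FiniteDimensional F V]
  {σ : F →+* F} {B : V →ₛₗ[σ] V →ₗ[F] F} {q : ℕ} {M : Type*} [AddCommGroup M] [Module ℂ M]
  [FiniteDimensional ℂ M] (hB : IsHerm σ B) {ρ : SUG B →* End ℂ M} {ψ : AddChar F ℂ}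
  {Y : V → Submodule ℂ M} {e e' : V} (hσ : IsBar q σ) (hψ : NT σ ψ) (W : PW hB ρ)
  (hY : Fam hB ρ ψ Y) (he0 : e ≠ 0) (he : B e e = 0) (he' : B e' e' = 0)
include hσ hψ W hY he0 he he'

/-- `z_ind` on `Y e' ⊓ Ee e` (invariant: `z x` fixes `e` and `e'`; `hY.eqv`, `Ee_map`).  For an eigenvector
`w ≠ 0`, `b = -σ β`: `Q_(e' + b e)` fixes `w` (`key`); `tv_mul_mem` and `w ∈ Ee e ⊓ Ee e'` give
`ψ c ψ (-c N b) = 1`, so `N b = 1` (`eq_of_s`); with `k` from `exists_k`: `w = ρ k w ∈ Y (-b e) ≤ Y e`. -/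
theorem rig_perp (hee : B e e' = 0) (hi : e' ∉ F ∙ e) : Y e' ⊓ Ee hB ρ ψ e ≤ Y e := by
  have he'e : B e' e = 0 := hB.eq_zero_comm.1 hee
  refine z_ind hB (ρ := ρ) he he' hee hσ hψ (fun x y hy => ?_) fun β w hw hz => ?_
  · have a1 : B e' (x • e) = 0 := by simp [he'e]
    have a2 : (0 : F) + σ 0 + B (x • e) (x • e) = 0 := by simp [he]
    have h1 : (ei hB e' (x • e) 0).1 e = e := by rw [ei_apply hB he' a1 a2]; simp [he, he'e]
    have h2 : (ei hB e' (x • e) 0).1 e' = e' := by rw [ei_apply hB he' a1 a2]; simp [he', hee]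
    have h3 := hY.eqv (ei hB e' (x • e) 0) e' y hy.1
    have h4 := Ee_map hB ρ ψ (ei hB e' (x • e) 0) hy.2
    rw [h2] at h3
    rw [h1] at h4
    exact ⟨h3, h4⟩
  · by_cases hw0 : w = 0
    · rw [hw0]; exact zero_mem _
    have hk := key hB he he' hee hσ hψ W hi hw.2 hz
    generalize -σ β = b at hk
    have hs : σ (b * σ b) = b * σ b := by rw [map_mul, hB.invol, mul_comm]
    have hb : b * σ b = 1 := by
      refine eq_of_s hσ hψ hs (map_one σ) fun c hc => ?_
      have h1 := hk _ (tv_mul_mem hB he he' hee b hc)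
      have hc' : -(c * (b * σ b)) + σ (-(c * (b * σ b))) = 0 := by
        rw [map_neg, map_mul, hs]; linear_combination (-(b * σ b)) * hc
      rw [map_mul, End.mul_apply, hw.2 _ hc', map_smul, hY.le e' hw.1 c hc, smul_smul,
        ← AddChar.map_add_eq_mul] at h1
      have h2 : ψ (-(c * (b * σ b)) + c) = 1 := by
        by_contra h
        exact hw0 ((smul_eq_zero.1 (show (ψ (-(c * (b * σ b)) + c) - 1) • w = 0 by
          rw [sub_smul, h1, one_smul, sub_self])).resolve_left (sub_ne_zero.2 h))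
      rw [mul_one, ← mul_one (ψ (c * _)), ← h2, ← AddChar.map_add_eq_mul, add_neg_cancel_left]
    obtain ⟨k, hk1, hk2⟩ := exists_k hB he he' hee he0 hi (left_ne_zero_of_mul_eq_one hb)
    have h3 := hY.eqv k e' w hw.1
    rw [hk k hk1, hk2] at h3
    exact hY.mu _ _ (by rw [map_neg, neg_mul_neg, hb]) h3

theorem rig_perp' (hee : B e e' = 0) (hi : e' ∉ F ∙ e) : ∀ y ∈ Y e', pe hB ρ ψ e y ∈ Y e := by
  intro y hy
  refine rig_perp hB hσ hψ W hY he0 he he' hee hi ⟨pe_mem_of hB ρ ψ (fun c hc z hz => ?_) y hy,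
    pe_mem hB ρ ψ he y⟩
  have := hY.eqv (tv hB e c) e' z hz
  rwa [tv_apply hB he hc, hee, mul_zero, zero_smul, add_zero] at this

/-- `e' = t e`: `hY.mu`, `pe_of_mem` or `pe_eq_zero`.  `B e e' = 0`, independent: `pe y ∈ Y e' ⊓ Ee e`
(`pe_mem_of`, `pe_mem`), `rig_perp`.  `B e e' ≠ 0`: take a hyperbolic pair `a, b` in the non-degenerate
space `⟨e, e'⟩^⊥` of dimension `≥ 2` (`disjoint_perp_pair_of_gram`, `restrict_perp`, `exists_isotropic`,
`exists_hyperbolic`); `P = comap (pe e) (Y e)`.  For `t ≠ 0`: `Y e' ⊓ Ee (t a) ≤ Y (t a)` (`rig_perp`;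
`e' ∉ F t a` as `B e e' ≠ 0`), and `Y (t a) ≤ P` by the previous case (`t a ∉ F e` as `B a b ≠ 0`).  So
`nt_ind` and `exists_avg` (`finite_linearEquiv`) give for `y ∈ Y e'` a `y₀ ∈ Y e'` with `y - y₀ ∈ P` fixed by
`X_a`, `X_b`, so by `Q_a`, `Q_b` (`W`), so by `SUG B` (`SUG_le_of_QE_QE` for the image of the stabiliser of
`y₀`, `QE_le_SUG`), so `y₀ = 0` (`eq_zero_of_fix`). -/
theorem rig (hn : 4 ≤ finrank F V) : ∀ y ∈ Y e', pe hB ρ ψ e y ∈ Y e := by
  intro y hy
  by_cases hee : B e e' = 0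
  · by_cases hi : e' ∈ F ∙ e
    · obtain ⟨t, rfl⟩ := Submodule.mem_span_singleton.1 hi
      by_cases ht : t * σ t = 1
      · have h1 := hY.mu t e ht hy
        rwa [pe_of_mem hB ρ ψ (hY.le e h1)]
      · rw [pe_eq_zero hB ρ hσ hψ he ht (hY.le _ hy)]; exact zero_mem _
    · exact rig_perp' hB hσ hψ W hY he0 he he' hee hi y hy
  have he'e : B e' e ≠ 0 := fun h => hee (hB.eq_zero_comm.1 h)
  have hd := disjoint_perp_pair_of_gram (B := B) (u := e) (v := e') (by simp [he, hee, he'e])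
  have hU := hB.restrict_perp hd
  have hr : 2 ≤ finrank F (perp B (Submodule.span F {e, e'})) := by
    classical
    have h1 := finrank_span_le_card (R := F) ({e, e'} : Set V)
    have h2 : ({e, e'} : Set V).toFinset.card ≤ 2 := by
      rw [Set.toFinset_insert, Set.toFinset_singleton]; exact Finset.card_le_two
    rw [hB.finrank_perp]; omega
  obtain ⟨a, ha0, ha⟩ := hU.exists_isotropic hr
  obtain ⟨b, hb, hab⟩ := hU.exists_hyperbolic ha0 ha
  have main : ∀ a b : V, a ∈ perp B (Submodule.span F {e, e'}) →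
      b ∈ perp B (Submodule.span F {e, e'}) → B a a = 0 → B a b ≠ 0 → ∀ c, c + σ c = 0 → ∀ x ∈ Y e',
      ρ (tv hB a c) x ∈ Y e' ∧ ρ (tv hB a c) x - x ∈ (Y e).comap (pe hB ρ ψ e) := by
    intro a b ha1 hb1 ha hab
    rw [mem_perp_span] at ha1 hb1
    have e1 : B e a = 0 := ha1 e (by simp)
    have e2 : B a e' = 0 := hB.eq_zero_comm.1 (ha1 e' (by simp))
    have e3 : B e b = 0 := hb1 e (by simp)
    have ha0 : a ≠ 0 := by rintro rfl; simp at hab
    have inv : ∀ c, c + σ c = 0 → ∀ x ∈ Y e', ρ (tv hB a c) x ∈ Y e' := fun c hc x hx => by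
      have := hY.eqv (tv hB a c) e' x hx
      rwa [tv_apply hB ha hc, e2, mul_zero, zero_smul, add_zero] at this
    refine fun c hc x hx => ⟨inv c hc x hx, nt_ind hB ρ hσ hψ ha inv (fun t ht => ?_) hc x hx⟩
    have f1 : B (t • a) (t • a) = 0 := by simp [ha]
    refine (rig_perp hB hσ hψ W hY (smul_ne_zero ht ha0) f1 he' (by simp [e2]) fun h => ?_).trans
      fun z hz => rig_perp' hB hσ hψ W hY he0 he f1 (by simp [e1]) (fun h => ?_) z hz
    · obtain ⟨s, hs⟩ := Submodule.mem_span_singleton.1 h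
      exact hee (by rw [← hs]; simp [e1])
    · obtain ⟨s, hs⟩ := Submodule.mem_span_singleton.1 h
      have := congrArg (fun v => B v b) hs
      simp only [map_smulₛₗ, LinearMap.smul_apply, e3, smul_eq_mul, mul_zero] at this
      exact mul_ne_zero ((_root_.map_ne_zero σ).2 ht) hab this.symm
  have hab' : B a.1 b.1 = 1 := hab
  have hba : B b.1 a.1 = 1 := by rw [← hB.symm, hab', map_one]
  have := finite_linearEquiv (F := F) (V := V)
  obtain ⟨y₀, h0, h1, h2⟩ := exists_avg ρ (Y e') ((Y e).comap (pe hB ρ ψ e)) hy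
  let K : Subgroup (SUG B) :=
    { carrier := {g | ρ g y₀ = y₀}
      mul_mem' := fun {g h} hg hh => by
        simp only [Set.mem_ofPred_eq, map_mul, End.mul_apply] at *
        rw [hh, hg]
      one_mem' := by simp
      inv_mem' := fun {g} hg => by
        simp only [Set.mem_ofPred_eq] at *
        conv_lhs => rw [← hg]
        rw [← End.mul_apply, ← map_mul, inv_mul_cancel, map_one, End.one_apply] }
  have hQ : ∀ a b : V, a ∈ perp B (Submodule.span F {e, e'}) →
      b ∈ perp B (Submodule.span F {e, e'}) → B a a = 0 → B a b = 1 →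
      QE B a ≤ K.map (SUG B).subtype := fun a b ha1 hb1 ha hab g hg => by
    have ha0 : a ≠ 0 := by rintro rfl; simp at hab
    exact ⟨⟨g, hB.QE_le_SUG ha0 ha hg⟩, W a ha0 ha y₀
      (fun c hc => h2 _ (main a b ha1 hb1 ha (by simp [hab]) c hc)) _ hg, rfl⟩
  have hS := hB.SUG_le_of_QE_QE (K := K.map (SUG B).subtype) (e := a.1) ha hσ hn
    ((Subgroup.map_subtype_le _).trans SUG_le_UG) (f := b.1) hb (by simp [hab'])
    (hQ _ _ a.2 b.2 ha hab') (hQ _ _ b.2 a.2 hb hba)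
  have h3 : y₀ = 0 := eq_zero_of_fix hB ρ hψ (hY.le e' h0) fun c _ => by
    obtain ⟨g, hg, hg'⟩ := hS (tv hB e' c).2
    rw [← Subtype.ext hg']; exact hg
  rw [h3, sub_zero] at h1
  exact h1

end Cfsg.Lib.CW
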