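import Cfsg.Agent.Lib.CW.Proj
import Cfsg.Agent.Lib.CW.Gp

/-! # The Weil representation on the stabiliser of an isotropic point -/

set_option autoImplicit false
set_option linter.unusedSectionVars false

namespace Cfsg.Lib.CW

open Module LinearMap Cfsg.Lib.Unitary

variable {F V : Type*} [Field F] [Fintype F] [AddCommGroup V] [Module F V] [FiniteDimensional F V]
  {σ : F →+* F} {B : V →ₛₗ[σ] V →ₗ[F] F} {q : ℕ} {M : Type*} [AddCommGroup M] [Module ℂ M]
  [FiniteDimensional ℂ M] (hB : IsHerm σ B) {ψ : AddChar F ℂ} {e : V}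

theorem kf_one : kf (1 : V ≃ₗ[F] V) = finrank F V := by
  rw [kf, show dev (1 : V ≃ₗ[F] V) = 0 from sub_self _, ker_zero, finrank_top]

/-- `rank_transv`, rank-nullity -/
theorem kf_tv (he0 : e ≠ 0) (he : B e e = 0) {c : F} (hc : c + σ c = 0) (hc0 : c ≠ 0) :
    kf (tv hB e c).1 + 1 = finrank F V := by
  rw [tv_eq hB he hc, kf, ← hB.rank_transv he hc he0 hc0, add_comm, finrank_range_add_finrank_ker]

/-- the fixed space is `⟨e, w⟩^⊥` (apply `B f` and use `w ≠ 0`, `B f w = 0`); `finrank_add_finrank_perp` -/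
theorem kf_ei {f w : V} {γ : F} (he : B e e = 0) (hef : B e f = 1) (hw : B e w = 0) (hfw : B f w = 0)
    (hγ : γ + σ γ + B w w = 0) (hw0 : w ≠ 0) : kf (ei hB e w γ).1 + 2 = finrank F V := by
  have hfe : B f e = 1 := by rw [← hB.symm, hef, map_one]
  have li : LinearIndependent F ![e, w] := LinearIndependent.pair_iff.2 fun s t h => by
    have h1 : s = 0 := by simpa [hfe, hfw] using congrArg (B f) h
    exact ⟨h1, by simpa [h1, hw0] using h⟩
  have e1 : ker (dev (ei hB e w γ).1) = perp B (Submodule.span F (Set.range ![e, w])) := by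
    ext v
    rw [mem_ker, dev_apply, ei_apply hB he hw hγ, mem_perp_span, Set.forall_mem_range, Fin.forall_fin_two]
    refine ⟨fun h => ?_, fun h => ?_⟩
    · have := LinearIndependent.pair_iff.1 li (γ * B e v - B w v) (B e v) (by rw [← h]; module)
      exact ⟨this.2, by simpa [this.2] using this.1⟩
    · simp [show B e v = 0 from h.1, show B w v = 0 from h.2]
  rw [kf, e1, ← hB.finrank_add_finrank_perp (Submodule.span F (Set.range ![e, w])), finrank_span_eq_card li, add_comm]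
  simp

theorem avg_eq_of {G : Type*} [Group G] [Finite G] {X Q : Subgroup G} (h : X ≤ Q) {f : G → ℂ} {a : ℂ}
    (h1 : ∑ᶠ x : X, f x = Nat.card X * a) (h2 : ∀ g ∈ Q, g ∉ X → f g = a) :
    (Nat.card X : ℂ)⁻¹ * ∑ᶠ x : X, f x = (Nat.card Q : ℂ)⁻¹ * ∑ᶠ x : Q, f x := by
  classical
  have := Fintype.ofFinite G
  have k : ∀ Y : Subgroup G, ∑ᶠ x : Y, f x = (∑ g ∈ Finset.univ.filter (· ∈ Y), (f g - a)) + Nat.card Y * a := fun Y => by
    cases nonempty_fintype Y
    rw [finsum_eq_sum_of_fintype, Finset.sum_subtype (p := (· ∈ Y)) (F := ‹_›) (Finset.univ.filter (· ∈ Y)) (by simp),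
      Finset.sum_sub_distrib]
    simp
  have e : ∑ g ∈ Finset.univ.filter (· ∈ X), (f g - a) = ∑ g ∈ Finset.univ.filter (· ∈ Q), (f g - a) :=
    Finset.sum_subset (fun g hg => by simpa using h (by simpa using hg)) fun g hg g' => by
      rw [h2 g (by simpa using hg) (by simpa using g'), sub_self]
  rw [k Q, ← e, add_eq_right.1 ((k X).symm.trans h1), h1, zero_add, inv_mul_cancel_left₀ (Char.card_ne_zero_complex X),
    inv_mul_cancel_left₀ (Char.card_ne_zero_complex Q)]

theorem sum_psi (hψ : NT σ ψ) : ∑ᶠ c : Sk σ, ψ (-c) = 0 := by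
  have := Fintype.ofFinite (Sk σ)
  obtain ⟨c, hc, h⟩ := hψ
  rw [finsum_eq_sum_of_fintype]
  exact AddChar.sum_eq_zero_of_ne_one (ψ := ψ.compAddMonoidHom (-(Sk σ).subtype)) fun e =>
    h (by simpa using DFunLike.congr_fun e (-⟨c, hc⟩))

theorem sum_tv (he0 : e ≠ 0) (he : B e e = 0) {k : ℕ} (hk : finrank F V = k + 1) (χ : F → ℂ) (h0 : χ 0 = 1) :
    ∑ᶠ c : Sk σ, χ c * wf q (tv hB e c).1 = q ^ (k + 1) + q ^ k - q ^ k * ∑ᶠ c : Sk σ, χ c := by
  classical
  have := Fintype.ofFinite (Sk σ)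
  rw [finsum_eq_sum_of_fintype, finsum_eq_sum_of_fintype, Finset.mul_sum,
    ← Fintype.sum_ite_eq' (0 : Sk σ) fun _ => (q : ℂ) ^ (k + 1) + q ^ k, ← Finset.sum_sub_distrib]
  refine Finset.sum_congr rfl fun c _ => ?_
  split_ifs with h
  · rw [h, ZeroMemClass.coe_zero, tv_zero, h0, wf, OneMemClass.coe_one, kf_one, hk, ← mul_pow]
    simp
  · have := kf_tv hB he0 he c.2 fun e => h (Subtype.ext e)
    rw [wf, show kf (tv hB e c).1 = k by omega, hk, pow_succ, mul_right_comm, ← mul_pow]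
    simp [mul_comm]

variable (hσ : IsBar q σ) {ω : SUG B →* End ℂ M} (hω : ∀ g, trace ℂ M (ω g) = wf q g.1)
include hσ hω

/-- `fix_of_avg` for `X = {tv e c} ≤ Q = (QE B e).subgroupOf (SUG B)`; `n ≥ 2`.  `|X| = q`,
`∑_X = q^n - (q - 1) q^(n-1) = q^(n-1)` (`kf_one`, `kf_tv`, `tv_injective`).  `Q` is in bijection with the
pairs `(w, γ)`, `w ∈ U = ⟨e, f⟩^⊥`, `|U| = q^(2(n-2))`, `q` values of `γ` each (`exists_ei`, `card_trace_eq`),
and `wf = q^(n-2)` for `w ≠ 0` (`kf_ei`): both averages are `q^(n-2)`.  (Equivalently: every element of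
`Q - X` has the value `q^(n-2)`, which is the average over `X`.) -/
theorem pw_weil : PW hB ω := by
  intro e he0 he m hm g hg
  have : Finite V := Module.finite_of_finite F
  have : Finite (V ≃ₗ[F] V) := DFunLike.finite _
  obtain ⟨f, hf, hef⟩ := hB.exists_hyperbolic he0 he
  obtain ⟨c, c0, hc⟩ := hσ.exists_skew
  let T : Multiplicative (Sk σ) →* SUG B := MonoidHom.mk' (fun c => tv hB e c.toAdd) fun a b => tv_add hB he a.toAdd.2 b.toAdd.2
  have inj : Function.Injective T := fun a b h => Subtype.ext (tv_injective hB he0 he a.toAdd.2 b.toAdd.2 h)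
  have hk : ∃ k, finrank F V = k + 2 := by
    have hfe : B f e = 1 := by rw [← hB.symm, hef, map_one]
    have li : LinearIndependent F ![e, f] := LinearIndependent.pair_iff.2 fun s t h =>
      ⟨by simpa [hfe, hf] using congrArg (B f) h, by simpa [hef, he] using congrArg (B e) h⟩
    exact ⟨finrank F V - 2, (Nat.sub_add_cancel (by simpa using li.fintype_card_le_finrank)).symm⟩
  obtain ⟨k, hk⟩ := hk
  refine fix_of_avg ω (X := T.range) (Q := (QE B e).subgroupOf (SUG B)) ?_ (avg_eq_of (f := fun g => trace ℂ M (ω g))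
    (a := q ^ k) ?_ ?_ fun g hg g' => ?_) ?_ g hg
  · rintro _ ⟨c, rfl⟩
    exact tv_mem_QE hB he c.toAdd.2
  · rintro _ ⟨c, rfl⟩
    exact tv_mem_QE hB he c.toAdd.2
  · have := sum_tv hB (q := q) he0 he hk (fun _ => 1) rfl
    cases nonempty_fintype (Sk σ)
    rw [finsum_eq_sum_of_fintype (fun _ => (1 : ℂ)), Finset.sum_const, Finset.card_univ, ← Nat.card_eq_fintype_card,
      card_Sk hσ] at this
    rw [← finsum_comp_equiv (Multiplicative.ofAdd.trans (MonoidHom.ofInjective inj).toEquiv),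
      ← Nat.card_congr (Multiplicative.ofAdd.trans (MonoidHom.ofInjective inj).toEquiv), card_Sk hσ]
    simp only [one_mul, hω] at this ⊢
    refine this.trans ?_
    rw [nsmul_eq_mul]
    ring
  · obtain ⟨w, γ, h1, h2, h3, rfl⟩ := exists_ei hB he hf hef hg
    have := kf_ei hB he hef h1 h2 h3 fun q => g' ⟨.ofAdd ⟨γ, by simpa [q] using h3⟩, by subst q; exact (ei_zero hB e γ).symm⟩
    rw [hω, wf, show kf (ei hB e w γ).1 = k by omega, hk, pow_add, mul_right_comm, ← mul_pow]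
    simp
  · rintro _ ⟨c, rfl⟩
    exact hm _ c.toAdd.2

/-- `trace_pe` with `g = 1`: `q tr pe = q^n - q^(n-1) ∑_(c ≠ 0) ψ (-c) = q^n + q^(n-1) ≠ 0`
(`AddChar.sum_eq_zero_of_ne_one` on `Sk σ`); `pe_mem` -/
theorem ee_weil (hψ : NT σ ψ) (he0 : e ≠ 0) (he : B e e = 0) : ∃ m ∈ Ee hB ω ψ e, m ≠ 0 := by
  by_contra! h
  obtain ⟨c, hc, c1⟩ := id hψ
  have q0 : (q : ℂ) ≠ 0 := Nat.cast_ne_zero.2 (by have := hσ.two_le; omega)
  have := trace_pe hB ω ψ hσ 1 e
  simp only [one_mul, hω] at this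
  rw [show pe hB ω ψ e = 0 from LinearMap.ext fun m => h _ (pe_mem hB ω ψ he m), mul_zero, map_zero,
    sum_tv hB he0 he (kf_tv hB he0 he hc fun q => c1 (by rw [q, AddChar.map_zero_eq_one])).symm (fun c => ψ (-c)) (by simp),
    sum_psi hψ, mul_zero, sub_zero, pow_succ, ← mul_add_one] at this
  exact mul_ne_zero (inv_ne_zero q0) (mul_ne_zero (pow_ne_zero _ q0) (Nat.cast_add_one_ne_zero q)) this.symm

/-- `trace_pe`; a vector `v` fixed by `g` or by `g tv e x` (both map `e` to `c e`) has `B e v = σ c B e v`, so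
`B e v = 0` and `tv e x` fixes it: `kf (g tv e x) = kf g`, and `∑_x ψ (-x) = 0`. -/
theorem tr_weil (hψ : NT σ ψ) (he : B e e = 0) {g : SUG B} {c : F} (hg : g.1 e = c • e)
    (hc : c ≠ 1) : trace ℂ M (ω g * pe hB ω ψ e) = 0 := by
  have k : ∀ x : SUG B, x.1 e = c • e → ∀ v, x.1 v = v → B e v = 0 := fun x hx v hv => by
    have := SUG_le_UG x.2 e v
    rw [hx, hv, map_smulₛₗ, LinearMap.smul_apply, smul_eq_mul] at this
    exact (mul_left_eq_self₀.1 this).resolve_left fun q => hc (σ.injective (q.trans (map_one σ).symm))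
  have e1 : ∀ x : Sk σ, trace ℂ M (ω (g * tv hB e x)) = wf q g.1 := fun x => by
    have t : ∀ v, B e v = 0 → (g * tv hB e x).1 v = g.1 v := fun v hv => by
      change g.1 ((tv hB e x).1 v) = _
      rw [tv_apply hB he x.2, hv, mul_zero, zero_smul, add_zero]
    rw [hω, wf, wf, kf, kf, show ker (dev (g * tv hB e x).1) = ker (dev g.1) from ?_]
    ext v
    rw [mem_ker, mem_ker, dev_apply, dev_apply, sub_eq_zero, sub_eq_zero]
    exact ⟨fun h => t v (k _ ((t e he).trans hg) v h) ▸ h, fun h => (t v (k g hg v h)).trans h⟩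
  rw [trace_pe hB ω ψ hσ]
  simp only [e1]
  rw [← finsum_mul' _ _ (Set.toFinite _), sum_psi hψ, zero_mul, mul_zero]

end Cfsg.Lib.CW
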