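import Cfsg.Agent.Lib.CW.H2
import Cfsg.Agent.Lib.CW.Rig
import Cfsg.Agent.Lib.CW.WPW

/-! # Irreducible representations with property (W) are Weil representations -/

set_option autoImplicit false
set_option linter.unusedSectionVars false

namespace Cfsg.Lib.CW

open Module LinearMap Cfsg.Lib.Unitary

variable {F V : Type*} [Field F] [Fintype F] [AddCommGroup V] [Module F V] [FiniteDimensional F V]
  {σ : F →+* F} {B : V →ₛₗ[σ] V →ₗ[F] F} {q : ℕ} {M : Type*} [AddCommGroup M] [Module ℂ M]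
  [FiniteDimensional ℂ M] {N : Type*} [AddCommGroup N] [Module ℂ N] [FiniteDimensional ℂ N]
  (hB : IsHerm σ B) (hσ : IsBar q σ) (hn : 5 ≤ finrank F V) {ω : SUG B →* End ℂ M}
  (hω : ∀ g, trace ℂ M (ω g) = wf q g.1) {ρ : SUG B →* End ℂ N} (h1 : ρ ≠ 1) (W : PW hB ρ)
include hσ hn hω h1 W

/-- `exists_Qhom` (`ee_weil`, `exists_Ee`) and `hom_stab` (`pw_weil`) give a non-zero intertwiner for the
stabiliser `S_e` of `e`, so the sum of `hom_iff` over `S_e` is not zero.  The sum over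
`P = {g | g e = c e, c σ c = 1}` is the same (`tr_weil` for `g⁻¹`), and the projections commute with `P`
(`pe_conj`, `pe_smul`); `hom_iff` again. -/
theorem exists_Phom {ψ : AddChar F ℂ} (hψ : NT σ ψ) {e : V} (he0 : e ≠ 0) (he : B e e = 0) :
    ∃ φ : M →ₗ[ℂ] N, φ ≠ 0 ∧ φ ∘ₗ pe hB ω ψ e = φ ∧ pe hB ρ ψ e ∘ₗ φ = φ ∧
      ∀ (g : SUG B) (c : F), c * σ c = 1 → g.1 e = c • e → φ ∘ₗ ω g = ρ g ∘ₗ φ := by
  haveI : Finite (V ≃ₗ[F] V) := finite_linearEquiv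
  let S : Subgroup (SUG B) :=
    { carrier := {g | g.1 e = e}
      one_mem' := rfl
      mul_mem' := fun {a b} ha hb => show a.1 (b.1 e) = e by rw [show b.1 e = e from hb]; exact ha
      inv_mem' := fun {a} ha => a.1.injective ((a.1.apply_symm_apply e).trans (show a.1 e = e from ha).symm) }
  let P : Subgroup (SUG B) :=
    { carrier := {g | ∃ c, c * σ c = 1 ∧ g.1 e = c • e}
      one_mem' := ⟨1, by simp, (one_smul F e).symm⟩
      mul_mem' := fun {a b} ⟨c, hc, ha⟩ ⟨d, hd, hb⟩ => ⟨d * c, by rw [map_mul]; linear_combination d * σ d * hc + hd,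
        show a.1 (b.1 e) = _ by rw [hb, map_smul, ha, smul_smul]⟩
      inv_mem' := fun {a} ⟨c, hc, ha⟩ => ⟨σ c, by rw [hB.invol, mul_comm, hc], a.1.injective ((a.1.apply_symm_apply e).trans (by
        rw [map_smul, ha, smul_smul, mul_comm, hc, one_smul]))⟩ }
  have l : S ≤ P := fun g hg => ⟨1, by simp, (show g.1 e = e from hg).trans (one_smul F e).symm⟩
  have cω : ∀ g ∈ P, ω g * pe hB ω ψ e = pe hB ω ψ e * ω g := fun g ⟨c, hc, hg⟩ => by rw [pe_conj, hg, pe_smul hB ω ψ hc]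
  have cρ : ∀ g ∈ P, ρ g * pe hB ρ ψ e = pe hB ρ ψ e * ρ g := fun g ⟨c, hc, hg⟩ => by rw [pe_conj, hg, pe_smul hB ρ ψ hc]
  obtain ⟨φ, φ0, a1, a2, a3⟩ := exists_Qhom hB hσ hψ he0 he ω ρ (ee_weil hB hσ hω hψ he0 he)
    (exists_Ee hB ρ hσ hψ (by omega) h1 he0 he)
  have k := (hom_iff ω ρ S (pe_idem hB ω ψ he) (pe_idem hB ρ ψ he) (fun g hg => cω g (l hg)) fun g hg => cρ g (l hg)).2
    ⟨φ, φ0, a1, a2, fun g hg => hom_stab hB hσ hψ he0 he hn (pw_weil hB hσ hω) W a1 a2 a3 hg⟩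
  have eq : ∑ᶠ g : S, trace ℂ N (ρ g * pe hB ρ ψ e) * trace ℂ M (ω (g : SUG B)⁻¹ * pe hB ω ψ e) =
      ∑ᶠ g : P, trace ℂ N (ρ g * pe hB ρ ψ e) * trace ℂ M (ω (g : SUG B)⁻¹ * pe hB ω ψ e) := by
    refine (finsum_set_coe_eq_finsum_mem (f := fun g : SUG B => trace ℂ N (ρ g * pe hB ρ ψ e) *
      trace ℂ M (ω g⁻¹ * pe hB ω ψ e)) (S : Set (SUG B))).trans (Eq.trans (finsum_mem_inter_support_eq' _ _ _ fun g hg => ⟨fun m => l m, fun m => ?_⟩)
      (finsum_set_coe_eq_finsum_mem (f := fun g : SUG B => trace ℂ N (ρ g * pe hB ρ ψ e) *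
      trace ℂ M (ω g⁻¹ * pe hB ω ψ e)) (P : Set (SUG B))).symm)
    obtain ⟨c, -, hc⟩ := P.inv_mem m
    by_cases c1 : c = 1
    · rw [c1, one_smul] at hc
      exact S.inv_mem_iff.1 hc
    · exact absurd (mul_eq_zero_of_right _ (tr_weil hB hσ hω hψ he hc c1)) hg
  obtain ⟨φ, φ0, a1, a2, a3⟩ := (hom_iff ω ρ P (pe_idem hB ω ψ he) (pe_idem hB ρ ψ he) cω cρ).1 (eq ▸ k)
  exact ⟨φ, φ0, a1, a2, fun g c hc hg => a3 g ⟨c, hc, hg⟩⟩

/-- `exists_NT`, `exists_isotropic`, `φ` from `exists_Phom`; `π = Representation.prod ω ρ` has `PW`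
(componentwise; `Ee` and `pe` are componentwise too).  `Y₀ = {(w, φ w) | w ∈ Ee ω e}` is invariant under
`P`.  `Y e' = ⨆_(g e = e') map (π g) Y₀` is a `Fam`: for `mu` take `k ∈ SUG B` with `k e = c e`
(`exists_SUG_vec`), if `g e = c e'` then `g k⁻¹ e = e'`; `le` by `Ee_map`; `Y e ≤ Y₀`.  `Ñ = ⨆_g map (π g) Y₀`
is invariant and `pe e Ñ ≤ Y₀` (`rig`).  For `0 ≠ m ∈ Ee ρ e`: `(0, m) ∈ Ñ` gives
`(0, m) = pe (0, m) ∈ Y₀`, `m = φ 0 = 0`.  `inner_ne_of_sub`. -/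
theorem cls [Fintype (SUG B)] (hρ : Representation.IsIrreducible (k := ℂ) ρ) :
    classInner (fun g : SUG B => wf q g.1) (fun g => trace ℂ N (ρ g)) ≠ 0 := by
  obtain ⟨ψ, hψ⟩ := exists_NT hσ
  obtain ⟨e, he0, he⟩ := hB.exists_isotropic (by omega)
  obtain ⟨φ, φ0, a1, a2, a3⟩ := exists_Phom hB hσ hn hω h1 W hψ he0 he
  let π : SUG B →* End ℂ (M × N) := Representation.prod (k := ℂ) ω ρ
  have hπ : ∀ g x, π g x = (ω g x.1, ρ g x.2) := fun _ _ => rfl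
  have hE : ∀ e' x, x ∈ Ee hB π ψ e' ↔ x.1 ∈ Ee hB ω ψ e' ∧ x.2 ∈ Ee hB ρ ψ e' := fun e' x =>
    ⟨fun h => ⟨fun c hc => congrArg Prod.fst (h c hc), fun c hc => congrArg Prod.snd (h c hc)⟩,
      fun h c hc => Prod.ext (h.1 c hc) (h.2 c hc)⟩
  have Wπ : PW hB π := fun e' h0 h' m hm g hg => Prod.ext
    (pw_weil hB hσ hω e' h0 h' m.1 (fun c hc => congrArg Prod.fst (hm c hc)) g hg)
    (W e' h0 h' m.2 (fun c hc => congrArg Prod.snd (hm c hc)) g hg)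
  let Y₀ : Submodule ℂ (M × N) := (Ee hB ω ψ e).map (LinearMap.id.prod φ)
  have y1 : Y₀ ≤ Ee hB π ψ e := by
    rintro _ ⟨w, hw, rfl⟩
    refine (hE _ _).2 ⟨hw, ?_⟩
    change φ w ∈ _
    rw [← a2]
    exact pe_mem hB ρ ψ he _
  have y2 : ∀ (g : SUG B) (c : F), c * σ c = 1 → g.1 e = c • e → Y₀.map (π g) ≤ Y₀ := fun g c hc hg => by
    rintro _ ⟨_, ⟨w, hw, rfl⟩, rfl⟩
    have := Ee_map hB ω ψ g hw
    rw [hg, Ee_smul hB ω ψ hc] at this
    exact ⟨_, this, Prod.ext rfl (LinearMap.congr_fun (a3 g c hc hg) w)⟩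
  have mm : ∀ g h : SUG B, (Y₀.map (π h)).map (π g) = Y₀.map (π (g * h)) := fun g h => by
    rw [map_mul, ← Submodule.map_comp]; rfl
  let Y : V → Submodule ℂ (M × N) := fun e' => ⨆ (g : SUG B) (_ : g.1 e = e'), Y₀.map (π g)
  have yl : ∀ (g : SUG B) e', g.1 e = e' → Y₀.map (π g) ≤ Y e' := fun g e' hg =>
    le_iSup₂ (f := fun (g : SUG B) (_ : g.1 e = e') => Y₀.map (π g)) g hg
  have hY : Fam hB π ψ Y := by
    refine ⟨fun g e' => ?_, fun c e' hc => iSup₂_le fun g hg => ?_, fun e' => iSup₂_le fun g hg => ?_⟩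
    · change Y e' ≤ (Y (g.1 e')).comap (π g)
      refine iSup₂_le fun h hh => Submodule.map_le_iff_le_comap.1 ?_
      rw [mm]
      exact yl _ _ (hh ▸ rfl)
    · have c0 : c ≠ 0 := fun z => by simp [z] at hc
      obtain ⟨k, hk, ke⟩ := hB.exists_SUG_vec (by omega) he0 (smul_ne_zero c0 he0) (u' := c • e) (by simp [he])
      have : g = g * (⟨k, hk⟩ : SUG B)⁻¹ * ⟨k, hk⟩ := (inv_mul_cancel_right _ _).symm
      rw [this, ← mm]
      refine (Submodule.map_mono (y2 ⟨k, hk⟩ c hc ke)).trans (yl _ _ (smul_right_injective V c0 ?_))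
      change c • g.1 (k.symm e) = c • e'
      rw [← map_smul, ← map_smul, ← ke, LinearEquiv.symm_apply_apply, hg]
    · rintro _ ⟨y, hy, rfl⟩
      exact hg ▸ Ee_map hB π ψ g (y1 hy)
  have y3 : Y e ≤ Y₀ := iSup₂_le fun g hg => y2 g 1 (by simp) (hg.trans (one_smul F e).symm)
  let Z : Submodule ℂ (M × N) := ⨆ g : SUG B, Y₀.map (π g)
  have zl : ∀ g : SUG B, Y₀.map (π g) ≤ Z := le_iSup (fun g : SUG B => Y₀.map (π g))
  have z1 : Z ≤ Y₀.comap (pe hB π ψ e) := iSup_le fun g y hy =>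
    y3 (rig hB hσ hψ Wπ hY he0 he ((g.2.1 e e).trans he) (by omega) y (yl g _ rfl hy))
  have := inner_ne_of_sub ω ρ hρ Z (fun g => ?_) ?_ ?_
  · simpa only [hω] using this
  · change Z ≤ Z.comap (π g)
    refine iSup_le fun h => Submodule.map_le_iff_le_comap.1 ?_
    rw [mm]
    exact zl _
  · obtain ⟨m, hm, m0⟩ := exists_Ee hB ρ hσ hψ (by omega) h1 he0 he
    refine ⟨m, fun h => m0 ?_⟩
    obtain ⟨w, -, hw⟩ := z1 h
    rw [pe_of_mem hB π ψ ((hE e (0, m)).2 ⟨zero_mem _, hm⟩)] at hw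
    have e1 : w = 0 := congrArg Prod.fst hw
    have e2 : φ w = m := congrArg Prod.snd hw
    rw [← e2, e1, map_zero]
  · obtain ⟨m, hm⟩ := DFunLike.ne_iff.1 φ0
    refine ⟨(pe hB ω ψ e m, φ (pe hB ω ψ e m)), zl 1 ⟨_, ⟨_, pe_mem hB ω ψ he m, rfl⟩, by rw [map_one]; rfl⟩, ?_⟩
    rwa [← a1] at hm

end Cfsg.Lib.CW
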