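import Cfsg.Agent.Lib.CW.CompB
import Cfsg.Agent.Lib.CharDeg.PermChar

/-! # The Weil characters are irreducible -/

set_option autoImplicit false

namespace Cfsg.Lib.CW

open Module LinearMap Cfsg.Lib.Unitary Cfsg.Lib.US7 Cfsg.Lib.Char

variable {F V : Type*} [Field F] [Fintype F] [AddCommGroup V] [Module F V] [FiniteDimensional F V]
  {σ : F →+* F} {B : V →ₛₗ[σ] V →ₗ[F] F} {q : ℕ}
  (hσ : IsBar q σ) (hB : IsHerm σ B)
include hσ hB

/-- `‖wf g‖² = q^(2 kf g)` is the number of fixed vectors, so the inner product is the number of orbits of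
`UG B` on `V` (`PermChar.inner_pc_one` or `MulAction.sum_card_fixedBy_eq_card_orbits_mul_card_group`):
`{0}` and the `q` sets `{v ≠ 0 | B v v = c}`, `σ c = c` (`witt_vec`, `card_fixed`, `exists_isotropic`,
`card_norm_eq`). -/
theorem inner_wf [Fintype (UG B)] (hn : 2 ≤ finrank F V) :
    classInner (fun x : UG B => wf q x.1) (fun x => wf q x.1) = q + 1 := by
  classical
  have : Finite V := Module.finite_of_finite F
  have := Fintype.ofFinite V
  have e1 : classInner (fun x : UG B => wf q x.1) (fun x => wf q x.1) =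
      classInner (PermChar.pc (UG B) V) fun _ => 1 := by
    rw [classInner_def, classInner_def]
    congr 1
    refine Finset.sum_congr rfl fun g _ => ?_
    have e : Nat.card (MulAction.fixedBy V g) = Nat.card (ker (dev g.1)) :=
      Nat.card_congr (Equiv.subtypeEquivRight fun v => by
        rw [MulAction.mem_fixedBy, mem_ker, dev_apply, sub_eq_zero]; rfl)
    rw [PermChar.pc, e, Module.natCard_eq_pow_finrank (K := F), hσ.card, map_one, mul_one, wf, ← kf]
    simp only [map_mul, map_pow, map_neg, map_one, Complex.conj_natCast]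
    rw [mul_mul_mul_comm, ← mul_pow, ← mul_pow]
    simp [sq]
  let f : V → Option {c : F // σ c = c} := fun v => if v = 0 then none else some ⟨B v v, hB.symm v v⟩
  have hf : Function.Surjective f := by
    rintro (_ | ⟨c, hc⟩)
    · exact ⟨0, if_pos rfl⟩
    obtain ⟨v, v0, e⟩ : ∃ v, v ≠ 0 ∧ B v v = c := by
      by_cases c0 : c = 0
      · exact c0 ▸ hB.exists_isotropic hn
      obtain ⟨x, hx⟩ := hB.exists_orthonormal 1 (by omega)
      obtain ⟨a, ha⟩ := hσ.exists_norm_eq hc
      have e : B (a • x 0) (a • x 0) = c := by simp [LinearMap.map_smulₛₗ, hx, ha]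
      exact ⟨_, fun z => c0 (by rw [← e, z]; simp), e⟩
    exact ⟨v, (if_neg v0).trans (congrArg some (Subtype.ext e))⟩
  have e2 : MulAction.orbitRel (UG B) V = Setoid.ker f := by
    ext u v
    rw [MulAction.orbitRel_apply, Setoid.ker_def]
    constructor
    · rintro ⟨g, rfl⟩
      change f (g.1 v) = f v
      simp only [f, EmbeddingLike.map_eq_zero_iff, g.2 v v]
    · intro e
      by_cases u0 : u = 0 <;> by_cases v0 : v = 0 <;> simp only [f, u0, v0, if_true, if_false] at e
      · rw [u0, v0]; exact MulAction.mem_orbit_self _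
      · cases e
      · cases e
      · obtain ⟨g, hg, e⟩ := hB.witt_vec v0 u0 (congrArg Subtype.val (Option.some.inj e)).symm
        exact ⟨⟨g, hg⟩, e⟩
  rw [e1, PermChar.inner_pc_one, MulAction.orbitRel.Quotient, e2,
    Nat.card_congr (Setoid.quotientKerEquivOfSurjective f hf), Finite.card_option, hσ.card_fixed, Nat.cast_succ]

variable (hw : IsCharacter (UG B) fun x => wf q x.1) (h3 : 3 ≤ finrank F V)
  (hc : (finrank F V).Coprime (2 * (q + 1)))
include hw h3 hc

/-- The `q + 1` components `θ_ω = cp (zi ..) wf ω` (`vr_card`, `card_Mu`) are characters of `UG B` (`cp_char`,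
`sclG_cen`), non-zero (`om_one`, `om_one'`, `one_lt_dg`), with norms adding up to `q + 1` (`inner_sum_cp`,
`inner_wf`): all norms are `1`.  `(c, s) ↦ c s` is a bijection `Mu × SUG B → UG B` (`sum_UG`) and
`‖θ_ω (c s)‖ = ‖θ_ω s‖` (`cp_cen`), so the restriction has norm one; `isIrrCharacter_of_inner_self`. -/
theorem om_irr (ω : IrrCharacter (Mu q F)) : IsIrrCharacter (SUG B) (om hσ B ω.1) := by
  classical
  have := finite_linearEquiv (F := F) (V := V)
  have := Fintype.ofFinite (UG B)
  have := Fintype.ofFinite (SUG B)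
  have : Finite V := Module.finite_of_finite F
  have := Fintype.ofFinite V
  have hι : ∀ c, zi hσ B c ∈ Subgroup.center (UG B) := sclG_cen _
  have ch : ∀ ω : IrrCharacter (Mu q F), IsCharacter (SUG B) (om hσ B ω.1) := fun ω =>
    (cp_char hι hw ω).comp (Subgroup.inclusion SUG_le_UG)
  have cG : (Nat.card (UG B) : ℂ) = Nat.card (Mu q F) * Nat.card (SUG B) := by
    have := sum_UG hσ hB hc fun _ => (1 : ℂ)
    simpa [mul_comm] using this
  have e1 : ∀ ω : IrrCharacter (Mu q F), classInner (cp (zi hσ B) (fun x : UG B => wf q x.1) ω.1)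
      (cp (zi hσ B) (fun x : UG B => wf q x.1) ω.1) = classInner (om hσ B ω.1) (om hσ B ω.1) := fun ω => by
    have m := ω.2.isCharacter.map_mul_of_apply_one (vr_lin mul_comm ω)
    have u : ∀ c, ω.1 c * (starRingEnd ℂ) (ω.1 c) = 1 := fun c => by
      rw [← ω.2.apply_inv, ← m, mul_inv_cancel, vr_lin mul_comm ω]
    rw [classInner_def, classInner_def, sum_UG hσ hB hc, cG, mul_inv, mul_comm _ (Nat.card (SUG B) : ℂ)⁻¹, mul_assoc,
      Finset.mul_sum]
    congr 1
    refine Finset.sum_congr rfl fun s _ => ?_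
    rw [Finset.sum_congr rfl fun c _ => by rw [cp_cen hι, map_mul, mul_mul_mul_comm, u, one_mul], Finset.sum_const,
      Finset.card_univ, ← Nat.card_eq_fintype_card, nsmul_eq_mul, inv_mul_cancel_left₀ (card_ne_zero_complex _)]
    rfl
  choose n hn using fun ω => (ch ω).exists_inner_eq_nat (ch ω)
  have p : ∀ ω, 1 ≤ n ω := fun ω => Nat.pos_of_ne_zero fun e => by
    have z : om hσ B ω.1 1 = 0 := by rw [classInner_self_eq_zero_iff.1 ((hn ω).trans (by rw [e, Nat.cast_zero]))]; rfl
    have l := one_lt_dg hσ.two_le h3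
    by_cases o : ω = irrOne _
    · rw [o] at z
      have := (om_one hσ hB hc).symm.trans z
      norm_cast at this
      omega
    · rw [om_one' hσ hB hc o] at z
      norm_cast at z
  have s : ∑ _ : IrrCharacter (Mu q F), 1 = ∑ ω, n ω := by
    have := inner_sum_cp hι hw.isClassFunction
    rw [inner_wf hσ hB (by omega)] at this
    simp only [e1, hn] at this
    rw [Finset.sum_const, Finset.card_univ, vr_card mul_comm, card_Mu hσ, smul_eq_mul, mul_one]
    exact_mod_cast this
  exact (ch ω).isIrrCharacter_of_inner_self (by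
    rw [hn, ← (Finset.sum_eq_sum_iff_of_le fun ω _ => p ω).1 s ω (Finset.mem_univ _), Nat.cast_one])

/-- `wf = ∑_ω om ω` (`sum_cp`), orthogonality of different irreducible characters -/
theorem om_constit [Fintype (SUG B)] {χ : SUG B → ℂ} (hχ : IsIrrCharacter (SUG B) χ)
    (h : classInner (fun g : SUG B => wf q g.1) χ ≠ 0) :
    ∃ ω : IrrCharacter (Mu q F), χ = om hσ B ω.1 := by
  by_contra! k
  have := finite_linearEquiv (F := F) (V := V)
  have := Fintype.ofFinite (UG B)
  have e : (fun g : SUG B => wf q g.1) = ∑ ω : IrrCharacter (Mu q F), om hσ B ω.1 := funext fun g => by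
    rw [Finset.sum_apply]
    exact (sum_cp (ι := zi hσ B) (θ := fun x : UG B => wf q x.1) (Subgroup.inclusion SUG_le_UG g)).symm
  rw [e, classInner_sum_left] at h
  exact h (Finset.sum_eq_zero fun ω _ => (om_irr hσ hB hw h3 hc ω).inner_eq_zero_of_ne hχ (k ω).symm)

end Cfsg.Lib.CW
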