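import Cfsg.Agent.Lib.CW.Irr

/-! # Values of the Weil characters -/

set_option autoImplicit false
set_option linter.unusedSectionVars false

namespace Cfsg.Lib.CW

open Module LinearMap Cfsg.Lib.Unitary Cfsg.Lib.US7 Cfsg.Lib.Char ComplexConjugate

theorem dg_mul {q n : ℕ} (hq : 1 ≤ q) (hn : Odd n) : (q + 1) * dg q n + q = q ^ n := by
  have h1 : q ≤ q ^ n := Nat.le_self_pow (by rintro rfl; simp at hn) q
  have h2 : q + 1 ∣ q ^ n - q := by
    have := hn.nat_add_dvd_pow_add_pow q 1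
    rw [one_pow] at this
    have h3 : q ^ n - q = q ^ n + 1 - (q + 1) := by omega
    rw [h3]
    exact Nat.dvd_sub this dvd_rfl
  rw [dg, Nat.mul_div_cancel' h2]
  omega

theorem dg_lt {q n : ℕ} (hq : 2 ≤ q) (hn : 1 ≤ n) : dg q n < q ^ (n - 1) := by
  obtain ⟨m, rfl⟩ : ∃ m, n = m + 1 := ⟨n - 1, by omega⟩
  rw [dg, Nat.div_lt_iff_lt_mul (by omega), Nat.add_sub_cancel, pow_succ, mul_add]
  have : 0 < q ^ m := by positivity
  omega

theorem one_lt_dg {q n : ℕ} (hq : 2 ≤ q) (hn : 3 ≤ n) : 1 < dg q n := by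
  have h1 : q ^ 3 ≤ q ^ n := Nat.pow_le_pow_right (by omega) hn
  have h2 : 3 * q + 2 ≤ q ^ 3 := by nlinarith [Nat.mul_le_mul hq hq]
  rw [dg, Nat.lt_iff_add_one_le, Nat.le_div_iff_mul_le (by omega)]
  omega

variable {F V : Type*} [Field F] [Fintype F] [AddCommGroup V] [Module F V] [FiniteDimensional F V]
  {σ : F →+* F} {B : V →ₛₗ[σ] V →ₗ[F] F} {q : ℕ}
  (hσ : IsBar q σ) (hB : IsHerm σ B) (hc : (finrank F V).Coprime (2 * (q + 1)))
include hσ hB hc

/-- `(c, s) ↦ c s` is a bijection (`exists_scal`, `eq_one_of_smul`) -/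
theorem sum_UG [Fintype (UG B)] [Fintype (SUG B)] (φ : UG B → ℂ) : ∑ g, φ g =
    ∑ s : SUG B, ∑ c : Mu q F, φ (zi hσ B c * Subgroup.inclusion SUG_le_UG s) := by
  have hc' : (finrank F V).Coprime (q + 1) := hc.coprime_dvd_right (dvd_mul_left _ _)
  rw [← Fintype.sum_prod_type']
  refine (Function.Bijective.sum_comp (e := fun p : SUG B × Mu q F =>
    zi hσ B p.2 * Subgroup.inclusion SUG_le_UG p.1) ⟨fun p p' h => ?_, fun g => ?_⟩ φ).symm
  · have h1 : ∀ v, ((p.2 : Fˣ) : F) • p.1.1 v = ((p'.2 : Fˣ) : F) • p'.1.1 v := fun v =>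
      congrArg (fun g : UG B => g.1 v) h
    have h2 : p'.1⁻¹ * p.1 = 1 := eq_one_of_smul hσ hB hc' (a := (((p.2⁻¹ * p'.2 : Mu q F) : Fˣ) : F))
      fun v => by
        apply p'.1.1.injective
        have := congrArg (fun w => (((p.2⁻¹ : Mu q F) : Fˣ) : F) • w) (h1 v)
        simpa [smul_smul] using this
    have h3 : p'.1 = p.1 := inv_mul_eq_one.1 h2
    refine Prod.ext h3.symm ?_
    simp only [h3, mul_left_inj] at h
    have : Nontrivial V := nontrivial_of_finrank_pos (R := F) (Nat.pos_of_ne_zero fun h0 => by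
      rw [h0] at hc'; have := hσ.two_le; simp at hc'; omega)
    exact Subtype.ext (scal_injective (congrArg Subtype.val h))
  · obtain ⟨c, s, e⟩ := exists_scal hσ hB hc' g.2
    exact ⟨(s, c), Subtype.ext e.symm⟩

omit hB in
theorem wf_scl (c : Mu q F) [Decidable (c = 1)] :
    wf q (scl q F V c) = if c = 1 then (q : ℂ) ^ finrank F V else -1 := by
  have hodd : Odd (finrank F V) := Nat.coprime_two_right.1 (hc.coprime_dvd_right (dvd_mul_right _ _))
  split_ifs with h
  · have : ker (dev (1 : V ≃ₗ[F] V)) = ⊤ := eq_top_iff.2 fun v _ => by simp [dev_apply]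
    rw [h, map_one, wf, kf, this, finrank_top, ← mul_pow]
    simp
  · have : ker (dev (scl q F V c)) = ⊥ := eq_bot_iff.2 fun v hv => by
      rw [mem_ker, dev_apply, scl_apply, sub_eq_zero] at hv
      by_contra h0
      exact h (Subtype.ext (Units.ext (smul_left_injective F h0 (hv.trans (one_smul F v).symm))))
    rw [wf, kf, this, finrank_bot, hodd.neg_one_pow]
    simp

omit hB in
theorem om_at_one (ω : Mu q F → ℂ) : ((q : ℂ) + 1) * om hσ B ω 1 =
    conj (ω 1) * ((q : ℂ) ^ finrank F V + 1) - conj (∑ c, ω c) := by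
  classical
  have h : ∀ c : Mu q F, conj (ω c) * wf q (zi hσ B c * Subgroup.inclusion SUG_le_UG (1 : SUG B)).1 =
      (if c = 1 then conj (ω 1) * ((q : ℂ) ^ finrank F V + 1) else 0) - conj (ω c) := fun c => by
    rw [map_one, mul_one]
    change _ * wf q (scl q F V c) = _
    rw [wf_scl hσ hc]
    split_ifs with h
    · rw [h]; ring
    · ring
  rw [om, cp, card_Mu hσ, Finset.sum_congr rfl fun c _ => h c, Finset.sum_sub_distrib,
    Finset.sum_ite_eq', if_pos (Finset.mem_univ _), map_sum, Nat.cast_add, Nat.cast_one,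
    mul_inv_cancel_left₀ (by exact_mod_cast Nat.succ_ne_zero q)]

omit hB in
theorem dg_cast : ((q : ℂ) + 1) * dg q (finrank F V) + q = (q : ℂ) ^ finrank F V := by
  have := hσ.two_le
  exact_mod_cast dg_mul (by omega) (Nat.coprime_two_right.1 (hc.coprime_dvd_right (dvd_mul_right _ _)))

/-- `wf (scl c) = q^n` for `c = 1` and `-1` otherwise (`n` is odd); `card_Mu`, `dg_mul` -/
theorem om_one : om hσ B (fun _ => 1) 1 = dg q (finrank F V) := by
  refine mul_left_cancel₀ (a := (q : ℂ) + 1) (by exact_mod_cast Nat.succ_ne_zero q) ?_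
  rw [om_at_one hσ hc, ← dg_cast hσ hc, Finset.sum_const, Finset.card_univ,
    ← Nat.card_eq_fintype_card, card_Mu hσ]
  simp only [nsmul_eq_mul, mul_one, map_one, map_natCast]
  push_cast
  ring

/-- `∑_c conj (ω c) = 0`, `ω 1 = 1` (`vr_lin`) -/
theorem om_one' {ω : IrrCharacter (Mu q F)} (hω : ω ≠ irrOne _) :
    om hσ B ω.1 1 = dg q (finrank F V) + 1 := by
  refine mul_left_cancel₀ (a := (q : ℂ) + 1) (by exact_mod_cast Nat.succ_ne_zero q) ?_
  rw [om_at_one hσ hc, ← dg_cast hσ hc, ω.2.sum_eq_zero fun h => hω (Subtype.ext h),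
    vr_lin mul_comm]
  simp only [map_one, map_zero]
  ring

/-- `c h ≠ 1` (`eq_one_of_smul`) commutes with `t`, so `kf (c h) = 0` (`Irr.kf_eq`) -/
theorem wf_irr {t h : SUG B} (ht : Irr t.1) (hh : h * t = t * h) (h1 : h ≠ 1) (c : Mu q F) :
    wf q (scl q F V c * h.1) = -1 := by
  have hodd : Odd (finrank F V) := Nat.coprime_two_right.1 (hc.coprime_dvd_right (dvd_mul_right _ _))
  have h2 : h.1 * t.1 = t.1 * h.1 := congrArg Subtype.val hh
  rw [wf, ht.kf_eq (LinearEquiv.ext fun v => by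
    have := congrArg (fun g : V ≃ₗ[F] V => g v) h2
    simp only [LinearEquiv.mul_apply] at this
    simp [this]) fun e => h1 (eq_one_of_smul hσ hB (hc.coprime_dvd_right (dvd_mul_left _ _))
      (a := (((c⁻¹ : Mu q F) : Fˣ) : F)) fun v => by
        have := congrArg (fun g : V ≃ₗ[F] V => (((c⁻¹ : Mu q F) : Fˣ) : F) • g v) e
        simpa [smul_smul] using this), hodd.neg_one_pow]
  simp

theorem om_irr' {t h : SUG B} (ht : Irr t.1) (hh : h * t = t * h) (h1 : h ≠ 1) (ω : Mu q F → ℂ) :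
    om hσ B ω h = -((q : ℂ) + 1)⁻¹ * conj (∑ c, ω c) := by
  have e : ∀ c : Mu q F, wf q (zi hσ B c * Subgroup.inclusion SUG_le_UG h).1 = -1 :=
    wf_irr hσ hB hc ht hh h1
  rw [om, cp, card_Mu hσ]
  simp only [e]
  simp

theorem om_irr_val {t h : SUG B} (ht : Irr t.1) (hh : h * t = t * h) (h1 : h ≠ 1) :
    om hσ B (fun _ => 1) h = -1 := by
  rw [om_irr' hσ hB hc ht hh h1]
  have : (q : ℂ) + 1 ≠ 0 := by exact_mod_cast Nat.succ_ne_zero q
  rw [Finset.sum_const, Finset.card_univ, ← Nat.card_eq_fintype_card, card_Mu hσ]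
  simp [this]

/-- `t` from `exists_irr_S`; `om ω` vanishes on `C t - 1` (`wf_irr`), `om_one'` -/
theorem om_occ {ω : IrrCharacter (Mu q F)} (hω : ω ≠ irrOne _) : Occ (om hσ B ω.1) := by
  obtain ⟨t, ht⟩ := exists_irr_S hσ hB hc
  refine ⟨t, ?_⟩
  rw [finsum_eq_single _ 1 fun h h1 => by
    rw [om_irr' hσ hB hc ht (Subgroup.mem_centralizer_singleton_iff.1 h.2) (by simpa using h1),
      ω.2.sum_eq_zero fun h => hω (Subtype.ext h), map_zero, mul_zero], Subgroup.coe_one,
    om_one' hσ hB hc hω]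
  exact_mod_cast Nat.succ_ne_zero (dg q (finrank F V))

/-- `sum_UG` for `wf` times the indicator function of the centraliser in `UG B` -/
theorem om_not_occ
    (h0 : ∀ g : UG B, ∑ᶠ h : Subgroup.centralizer ({g} : Set (UG B)), wf q h.1.1 = 0) :
    ¬ Occ (om hσ B fun _ => 1) := by
  classical
  have := finite_linearEquiv (F := F) (V := V)
  have := Fintype.ofFinite (SUG B)
  have := Fintype.ofFinite (UG B)
  rintro ⟨g, hg⟩
  refine hg ?_
  have h1 := h0 (Subgroup.inclusion SUG_le_UG g)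
  rw [finsum_eq_sum_of_fintype, ← Finset.sum_subtype (Finset.univ.filter
    (· ∈ Subgroup.centralizer ({Subgroup.inclusion SUG_le_UG g} : Set (UG B)))) (by simp)
    fun h : UG B => wf q h.1, Finset.sum_filter, sum_UG hσ hB hc] at h1
  rw [finsum_eq_sum_of_fintype, ← Finset.sum_subtype (Finset.univ.filter
    (· ∈ Subgroup.centralizer ({g} : Set (SUG B)))) (by simp) (om hσ B fun _ => 1), Finset.sum_filter]
  refine Eq.trans ?_ (mul_eq_zero_of_right (Nat.card (Mu q F) : ℂ)⁻¹ h1)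
  rw [Finset.mul_sum]
  refine Finset.sum_congr rfl fun s _ => ?_
  have e : ∀ c : Mu q F, zi hσ B c * Subgroup.inclusion SUG_le_UG s ∈
      Subgroup.centralizer ({Subgroup.inclusion SUG_le_UG g} : Set (UG B)) ↔
      s ∈ Subgroup.centralizer ({g} : Set (SUG B)) := fun c => by
    have : Subgroup.inclusion SUG_le_UG g * zi hσ B c = zi hσ B c * Subgroup.inclusion SUG_le_UG g :=
      Subtype.ext (LinearEquiv.ext fun v => map_smul g.1 _ v)
    rw [Subgroup.mem_centralizer_singleton_iff, Subgroup.mem_centralizer_singleton_iff, ← mul_assoc,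
      this, mul_assoc, mul_assoc, mul_right_inj, ← map_mul, ← map_mul,
      (Subgroup.inclusion_injective _).eq_iff]
  simp only [e]
  split_ifs
  · simp [om, cp]
  · simp

end Cfsg.Lib.CW
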