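import Cfsg.Agent.Lib.Unitary.MaxCore
import Cfsg.Agent.Lib.US7.L1
import Cfsg.Agent.Lib.US7.Var

/-!
# The conjugation character of `SU_n(q)`, `gcd (n, 2 (q+1)) = 1`: definitions

`S = SUG B`, `Γ = UG B`; `wf` is the character of the total Weil representation of `Γ`,
`om` are its components for the scalars.  `X_e = {tv e c}` is the transvection group with centre
`e`, `Q_e = QE B e` the unipotent radical of the stabiliser of the point `e`.
-/

set_option autoImplicit false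

namespace Cfsg.Lib.CW

open Module Cfsg.Lib.Unitary Cfsg.Lib.US7

section grp

variable {G M : Type*} [Group G] [AddCommGroup M] [Module ℂ M]

/-- some centraliser has a non-zero character sum -/
def Occ (χ : G → ℂ) : Prop := ∃ g : G, ∑ᶠ h : Subgroup.centralizer ({g} : Set G), χ h ≠ 0

/-- some centraliser has a non-zero fixed vector -/
def Fx (ρ : G →* End ℂ M) : Prop := ∃ (g : G) (m : M), m ≠ 0 ∧ ∀ h, h * g = g * h → ρ h m = m

end grp

variable {F V : Type*} [Field F] [AddCommGroup V] [Module F V] {σ : F →+* F}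
  {B : V →ₛₗ[σ] V →ₗ[F] F}

/-- the dimension of the fixed space -/
noncomputable def kf (g : V ≃ₗ[F] V) : ℕ := finrank F (LinearMap.ker (dev g))

/-- the values of the Weil character -/
noncomputable def wf (q : ℕ) (g : V ≃ₗ[F] V) : ℂ := (-1) ^ finrank F V * (-(q : ℂ)) ^ kf g

/-- `t` has no proper invariant subspace -/
def Irr (t : V ≃ₗ[F] V) : Prop := ∀ W : Submodule F V, (∀ v ∈ W, t v ∈ W) → W = ⊥ ∨ W = ⊤

/-- the smallest Weil degree -/
def dg (q n : ℕ) : ℕ := (q ^ n - q) / (q + 1)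

/-- the scalars in `UG B` -/
def zi {q : ℕ} (hσ : IsBar q σ) (B : V →ₛₗ[σ] V →ₗ[F] F) : Mu q F →* UG B :=
  sclG (scl_mem_UG hσ B)

/-- the component of the Weil character with central character `ω`, restricted to `SUG B` -/
noncomputable def om [Finite F] {q : ℕ} (hσ : IsBar q σ) (B : V →ₛₗ[σ] V →ₗ[F] F) (ω : Mu q F → ℂ)
    (g : SUG B) : ℂ :=
  cp (zi hσ B) (fun x : UG B => wf q x.1) ω (Subgroup.inclusion SUG_le_UG g)

/-- skew elements -/
def Sk (σ : F →+* F) : AddSubgroup F where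
  carrier := {c | c + σ c = 0}
  add_mem' {a b} ha hb := by
    simp only [Set.mem_ofPred_eq, map_add] at *; linear_combination ha + hb
  zero_mem' := by simp
  neg_mem' {a} ha := by
    simp only [Set.mem_ofPred_eq, map_neg] at *; linear_combination -ha

@[simp] theorem mem_Sk {c : F} : c ∈ Sk σ ↔ c + σ c = 0 := Iff.rfl

/-- `ψ` is non-trivial on the skew elements -/
def NT (σ : F →+* F) (ψ : AddChar F ℂ) : Prop := ∃ c, c + σ c = 0 ∧ ψ c ≠ 1

variable [FiniteDimensional F V] (hB : IsHerm σ B)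

open Classical in
/-- the transvection `v ↦ v + c B(e,v) e` (junk value `1`) -/
noncomputable def tv (e : V) (c : F) : SUG B :=
  if h : B e e = 0 ∧ c + σ c = 0 then ⟨transv B e c h.1 h.2, hB.transv_mem_SUG _ _ _ _⟩ else 1

theorem tv_eq {e : V} {c : F} (he : B e e = 0) (hc : c + σ c = 0) :
    (tv hB e c).1 = transv B e c he hc := by rw [tv, dif_pos ⟨he, hc⟩]

theorem tv_apply {e : V} {c : F} (he : B e e = 0) (hc : c + σ c = 0) (v : V) :
    (tv hB e c).1 v = v + (c * B e v) • e := by rw [tv_eq hB he hc]; rfl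

open Classical in
/-- the Eichler map `v ↦ v + B(e,v) w - B(w,v) e + γ B(e,v) e` (junk value `1`) -/
noncomputable def ei (e w : V) (γ : F) : SUG B :=
  if h : B e e = 0 ∧ B e w = 0 ∧ γ + σ γ + B w w = 0 then
    ⟨eichler B e w γ h.1 h.2.1 (hB.eq_zero_comm.1 h.2.1), hB.eichler_mem_SUG _ _ _ h.2.2⟩ else 1

theorem ei_eq {e w : V} {γ : F} (he : B e e = 0) (hw : B e w = 0) (hγ : γ + σ γ + B w w = 0) :
    (ei hB e w γ).1 = eichler B e w γ he hw (hB.eq_zero_comm.1 hw) := by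
  rw [ei, dif_pos ⟨he, hw, hγ⟩]

theorem ei_apply {e w : V} {γ : F} (he : B e e = 0) (hw : B e w = 0) (hγ : γ + σ γ + B w w = 0)
    (v : V) : (ei hB e w γ).1 v = v + B e v • w - B w v • e + (γ * B e v) • e := by
  rw [ei_eq hB he hw hγ, eichler_apply]

theorem ei_mem_QE {e w : V} {γ : F} (he : B e e = 0) (hw : B e w = 0)
    (hγ : γ + σ γ + B w w = 0) : (ei hB e w γ).1 ∈ QE B e := by
  rw [ei_eq hB he hw hγ]; exact hB.eichler_mem_QE hγ

theorem tv_mem_QE {e : V} {c : F} (he : B e e = 0) (hc : c + σ c = 0) :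
    (tv hB e c).1 ∈ QE B e := by
  rw [tv_eq hB he hc]; exact hB.transv_mem_QE c he hc

variable {M : Type*} [AddCommGroup M] [Module ℂ M] (ρ : SUG B →* End ℂ M) (ψ : AddChar F ℂ)

/-- vectors fixed by `X_e` are fixed by `Q_e` -/
def PW : Prop := ∀ e, e ≠ 0 → B e e = 0 → ∀ m, (∀ c, c + σ c = 0 → ρ (tv hB e c) m = m) →
  ∀ g : SUG B, g.1 ∈ QE B e → ρ g m = m

/-- the `ψ`-eigenspace of `X_e` -/
def Ee (e : V) : Submodule ℂ M where
  carrier := {m | ∀ c, c + σ c = 0 → ρ (tv hB e c) m = ψ c • m}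
  add_mem' {a b} ha hb c hc := by rw [map_add, ha c hc, hb c hc, smul_add]
  zero_mem' c _ := by simp
  smul_mem' a m hm c hc := by rw [map_smul, hm c hc, smul_comm]

theorem mem_Ee {e : V} {m : M} :
    m ∈ Ee hB ρ ψ e ↔ ∀ c, c + σ c = 0 → ρ (tv hB e c) m = ψ c • m := Iff.rfl

/-- the projection onto `Ee hB ρ ψ e` -/
noncomputable def pe (e : V) : End ℂ M :=
  (Nat.card (Sk σ) : ℂ)⁻¹ • ∑ᶠ c : Sk σ, ψ (-c) • ρ (tv hB e c)

/-- the vectors on which `Q_e` acts by the linear character given by `v ∈ ⟨e, f⟩^⊥` -/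
def Lc (e f v : V) : Submodule ℂ M where
  carrier := {m | ∀ w γ, B e w = 0 → B f w = 0 → γ + σ γ + B w w = 0 →
    ρ (ei hB e w γ) m = ψ (B v w) • m}
  add_mem' {a b} ha hb w γ h1 h2 h3 := by rw [map_add, ha w γ h1 h2 h3, hb w γ h1 h2 h3, smul_add]
  zero_mem' w γ _ _ _ := by simp
  smul_mem' a m hm w γ h1 h2 h3 := by rw [map_smul, hm w γ h1 h2 h3, smul_comm]

theorem mem_Lc {e f v : V} {m : M} : m ∈ Lc hB ρ ψ e f v ↔ ∀ w γ, B e w = 0 → B f w = 0 →
    γ + σ γ + B w w = 0 → ρ (ei hB e w γ) m = ψ (B v w) • m := Iff.rfl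

/-- an equivariant family of subspaces of the eigenspaces -/
structure Fam (Y : V → Submodule ℂ M) : Prop where
  eqv : ∀ (g : SUG B) e, ∀ y ∈ Y e, ρ g y ∈ Y (g.1 e)
  mu : ∀ c e, c * σ c = 1 → Y (c • e) ≤ Y e
  le : ∀ e, Y e ≤ Ee hB ρ ψ e

end Cfsg.Lib.CW
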