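import Cfsg.Agent.Lib.CW.Def

/-! # Additive characters and simultaneous eigenvectors -/

set_option autoImplicit false

namespace Cfsg.Lib.CW

open Module Cfsg.Lib.Unitary

/-- `y = ∑_χ y_χ`, `y_χ = |A|⁻¹ ∑_x χ (-x) T x y ∈ Y` is a `χ`-eigenvector
(`AddChar.sum_apply_eq_ite` / `AddChar.expect_apply_eq_ite`, `AddChar.card_eq`). -/
theorem eig_ind {A M : Type*} [AddCommGroup A] [Finite A] [AddCommGroup M] [Module ℂ M]
    (T : A → End ℂ M) (h0 : T 0 = 1) (hT : ∀ x y, T (x + y) = T x * T y) {Y P : Submodule ℂ M}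
    (hY : ∀ x, ∀ y ∈ Y, T x y ∈ Y)
    (h : ∀ χ : AddChar A ℂ, ∀ y ∈ Y, (∀ x, T x y = χ x • y) → y ∈ P) : Y ≤ P := by
  classical
  cases nonempty_fintype A
  intro y hy
  have h1 : ∀ χ : AddChar A ℂ, ∑ x, χ (-x) • T x y ∈ P := fun χ => by
    refine h χ _ (Y.sum_mem fun x _ => Y.smul_mem _ (hY x y hy)) fun z => ?_
    rw [map_sum, Finset.smul_sum, ← Equiv.sum_comp (Equiv.addLeft z) fun x => χ z • χ (-x) • T x y]
    refine Finset.sum_congr rfl fun x _ => ?_
    rw [map_smul, ← End.mul_apply, ← hT, Equiv.coe_addLeft, smul_smul, ← AddChar.map_add_eq_mul]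
    rw [neg_add, add_neg_cancel_left]
  have h2 := P.sum_mem (t := Finset.univ) fun χ _ => h1 χ
  rw [Finset.sum_comm] at h2
  simp only [← Finset.sum_smul, AddChar.sum_apply_eq_ite, neg_eq_zero, ite_smul, zero_smul,
    Finset.sum_ite_eq', Finset.mem_univ, if_true, h0, End.one_apply] at h2
  exact (P.smul_mem_iff (Nat.cast_ne_zero.2 Fintype.card_ne_zero)).1 h2

variable {F V : Type*} [Field F] [Fintype F] [AddCommGroup V] [Module F V] {σ : F →+* F}
  {B : V →ₛₗ[σ] V →ₗ[F] F} {q : ℕ} {ψ : AddChar F ℂ}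

/-- characters of a finite abelian group separate points (`AddChar.exists_apply_ne_zero`,
`AddChar.forall_apply_eq_zero`), `IsBar.exists_skew` -/
theorem exists_NT (hσ : IsBar q σ) : ∃ ψ : AddChar F ℂ, NT σ ψ := by
  obtain ⟨δ, h1, h2⟩ := hσ.exists_skew
  obtain ⟨ψ, h⟩ := AddChar.exists_apply_ne_zero.2 h1
  exact ⟨ψ, δ, by rw [h2, add_neg_cancel], h⟩

omit [Fintype F] in
theorem NT.ne_one (hψ : NT σ ψ) : ψ ≠ 1 := by
  obtain ⟨c, -, hc⟩ := hψ
  rintro rfl
  exact hc rfl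

omit [Fintype F] in
theorem sub_eq_one_of {a b : F} (h : ψ a = ψ b) : ψ (a - b) = 1 := by
  rw [sub_eq_add_neg, AddChar.map_add_eq_mul, h, ← AddChar.map_add_eq_mul, add_neg_cancel,
    AddChar.map_zero_eq_one]

/-- an injective family of `|A|` characters is everything -/
theorem surj_char {A I : Type*} [AddCommGroup A] [Finite A] [Finite I] (f : I → AddChar A ℂ)
    (hf : Function.Injective f) (hc : Nat.card I = Nat.card A) : Function.Surjective f := by
  cases nonempty_fintype A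
  refine ((Nat.bijective_iff_injective_and_card f).2 ⟨hf, ?_⟩).2
  rw [hc, Nat.card_eq_fintype_card, Nat.card_eq_fintype_card, AddChar.card_eq]

omit [Fintype F] in
/-- the skew elements are `c₀ * (fixed elements)`: if `s ≠ t` take `c = c₀ / (s - t)` -/
theorem eq_of_s' (hψ : NT σ ψ) {s t : F} (hs : σ s = s) (ht : σ t = t)
    (h : ∀ c, c + σ c = 0 → ψ (c * s) = ψ (c * t)) : s = t := by
  by_contra e
  obtain ⟨c, h1, h2⟩ := hψ
  have h3 := sub_eq_one_of (h (c / (s - t)) (by rw [map_div₀, map_sub, hs, ht, ← add_div, h1, zero_div]))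
  rw [← mul_sub, div_mul_cancel₀ _ (sub_ne_zero.2 e)] at h3
  exact h2 h3

/-- the skew elements are `c₀ * (fixed elements)`: if `s ≠ t` take `c = c₀ / (s - t)` -/
theorem eq_of_s (hσ : IsBar q σ) (hψ : NT σ ψ) {s t : F} (hs : σ s = s) (ht : σ t = t)
    (h : ∀ c, c + σ c = 0 → ψ (c * s) = ψ (c * t)) : s = t :=
  (fun _ => eq_of_s' hψ hs ht h) hσ

/-- `s ↦ (c ↦ ψ (c s))` is injective from the `q` fixed elements (`card_fixed`) to the `q` characters
of `Sk σ` (`card_trace_zero`, `AddChar.card_eq`) -/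
theorem exists_s (hσ : IsBar q σ) (hψ : NT σ ψ) (χ : AddChar (Sk σ) ℂ) :
    ∃ s, σ s = s ∧ ∀ c : Sk σ, χ c = ψ (c * s) := by
  obtain ⟨s, hs⟩ := surj_char (A := Sk σ) (I := {s : F // σ s = s})
    (fun s => ⟨fun c => ψ (c * s), by simp, fun a b => by
      rw [AddSubgroup.coe_add, add_mul, AddChar.map_add_eq_mul]⟩)
    (fun s t e => Subtype.ext (eq_of_s' hψ s.2 t.2 fun c hc => DFunLike.congr_fun e ⟨c, hc⟩))
    (hσ.card_fixed.trans hσ.card_trace_zero.symm) χ
  exact ⟨s, s.2, fun c => by rw [← hs]; rfl⟩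

/-- every skew `c` is `y - σ y` (`y = c θ`, `θ + σ θ = 1`: `exists_trace_eq`); take `x = y / β` -/
theorem eq_zero_of_beta (hσ : IsBar q σ) (hψ : NT σ ψ) {β : F}
    (h : ∀ x, ψ (β * x - σ (β * x)) = 1) : β = 0 := by
  by_contra e
  obtain ⟨c, h1, h2⟩ := hψ
  obtain ⟨θ, h3⟩ := hσ.exists_trace_eq (map_one σ)
  have h4 := h (c * θ / β)
  rw [mul_div_cancel₀ _ e, map_mul] at h4
  exact h2 (by rw [← h4]; congr 1; linear_combination σ θ * h1 - c * h3)

/-- `β ↦ (x ↦ ψ (β x - σ (β x)))` is injective (`eq_zero_of_beta`), count -/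
theorem exists_beta (hσ : IsBar q σ) (hψ : NT σ ψ) (χ : AddChar F ℂ) :
    ∃ β, ∀ x, χ x = ψ (β * x - σ (β * x)) := by
  obtain ⟨s, hs⟩ := surj_char (A := F) (I := F)
    (fun β => ⟨fun x => ψ (β * x - σ (β * x)), by simp, fun a b => by
      rw [← AddChar.map_add_eq_mul, mul_add, map_add]; congr 1; ring⟩)
    (fun s t e => sub_eq_zero.1 (eq_zero_of_beta hσ hψ fun x => by
      rw [← sub_eq_one_of (ψ := ψ) (a := s * x - σ (s * x)) (b := t * x - σ (t * x))
        (DFunLike.congr_fun e x), sub_mul, map_sub σ]; congr 1; ring)) rfl χ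
  exact ⟨s, fun c => by rw [← hs]; rfl⟩

omit [Fintype F] in
theorem eq_of_vec' (hB : IsHerm σ B) (hψ : ψ ≠ 1) {v v' : V} (h : ∀ w, ψ (B v w) = ψ (B v' w)) :
    v = v' := by
  refine sub_eq_zero.1 (hB.nondeg _ fun w => ?_)
  by_contra e
  refine hψ (AddChar.ext _ _ fun c => ?_)
  have := sub_eq_one_of (h ((c / B (v - v') w) • w))
  rw [← LinearMap.sub_apply, ← map_sub, map_smul, smul_eq_mul, div_mul_cancel₀ _ e] at this
  exact this

theorem eq_of_vec (hB : IsHerm σ B) (hψ : ψ ≠ 1) {v v' : V} (h : ∀ w, ψ (B v w) = ψ (B v' w)) :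
    v = v' := eq_of_vec' hB hψ h

/-- `v ↦ (w ↦ ψ (B v w))` is injective (`eq_of_vec`), count -/
theorem exists_vec [FiniteDimensional F V] (hB : IsHerm σ B) (hψ : ψ ≠ 1) (χ : AddChar V ℂ) :
    ∃ v, ∀ w, χ w = ψ (B v w) := by
  haveI : Finite V := Module.finite_of_finite F
  obtain ⟨s, hs⟩ := surj_char (A := V) (I := V)
    (fun v => ⟨fun w => ψ (B v w), by simp, fun a b => by rw [map_add, AddChar.map_add_eq_mul]⟩)
    (fun s t e => eq_of_vec' hB hψ fun w => DFunLike.congr_fun e w) rfl χ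
  exact ⟨s, fun c => by rw [← hs]; rfl⟩

end Cfsg.Lib.CW
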