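import Cfsg.Agent.Lib.CW.Def
import Cfsg.Agent.Lib.Unitary.MaxGeo
import Cfsg.Agent.Lib.Unitary.U3

/-! # Generation by unipotent radicals -/

set_option autoImplicit false

namespace Cfsg.Lib.CW

open Module LinearMap Cfsg.Lib.Unitary

variable {F V : Type*} [Field F] [Fintype F] [AddCommGroup V] [Module F V] [FiniteDimensional F V]
  {σ : F →+* F} {B : V →ₛₗ[σ] V →ₗ[F] F} {q : ℕ} (hσ : IsBar q σ) (hB : IsHerm σ B)
include hσ hB

/-- in dimension three the groups `QE` move `f` to every multiple of `e` -/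
theorem gen_step (hn : finrank F V = 3) {K : Subgroup (V ≃ₗ[F] V)}
    (hK : ∀ e, e ≠ 0 → B e e = 0 → QE B e ≤ K) {e u : V} (he : B e e = 0) (hu : B u u = 0)
    (h : B e u ≠ 0) : ∃ k ∈ K ⊓ SUG B, k u = e := by
  have he0 : e ≠ 0 := by rintro rfl; simp at h
  obtain ⟨γ, hγ, hef⟩ : ∃ γ : F, γ ≠ 0 ∧ B e (γ • u) = 1 := ⟨_, inv_ne_zero h, by simp [h]⟩
  have hf : B (γ • u) (γ • u) = 0 := by simp [LinearMap.map_smulₛₗ, hu]
  have hf0 : γ • u ≠ 0 := by rintro e0; simp [e0] at hef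
  suffices H : ∃ k ∈ K ⊓ SUG B, k (γ • u) = γ • e by
    obtain ⟨k, h1, h2⟩ := H
    exact ⟨k, h1, smul_right_injective V hγ ((map_smul k γ u).symm.trans h2)⟩
  generalize γ • u = f at hef hf hf0
  have hfe : B f e = 1 := by rw [← hB.symm, hef, map_one]
  obtain ⟨w, hew, hfw, hw, -⟩ := hB.exists_frame_three hn he hf hef
  obtain ⟨x, hx⟩ := hσ.exists_norm_eq (μ := γ + σ γ) (by rw [map_add, hB.invol, add_comm])
  have h1 := hB.eichler_mem_QE (e := e) (w := x • w) (γ := γ) (he := he) (hew := by simp [hew])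
    (hwe := by simp [LinearMap.map_smulₛₗ, hB.eq_zero_comm.1 hew])
    (by simp only [LinearMap.map_smulₛₗ, map_smul, LinearMap.smul_apply, hw, smul_eq_mul]
        linear_combination -hx)
  set t := eichler B e (x • w) γ he _ _ with ht
  have h2 : B f (t f) = γ := by
    simp [ht, eichler_apply, hf, hfw, hef, hfe, LinearMap.map_smulₛₗ, hB.eq_zero_comm.1 hfw]
  obtain ⟨y, h3, h4⟩ := hB.exists_QE_apply hf (f := γ⁻¹ • t f) (u := e)
    (by simp [LinearMap.map_smulₛₗ, h1.1 f f, hf]) (by simp [h2, hγ]) he hfe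
  refine ⟨y * t, mul_mem ⟨hK f hf0 hf h3, hB.QE_le_SUG hf0 hf h3⟩ ⟨hK e he0 he h1, hB.QE_le_SUG he0 he h1⟩, ?_⟩
  rw [LinearEquiv.mul_apply, ← h4, map_smul, smul_inv_smul₀ hγ]

theorem gen_three (hn : finrank F V = 3) {K : Subgroup (V ≃ₗ[F] V)}
    (hK : ∀ e, e ≠ 0 → B e e = 0 → QE B e ≤ K) : SUG B ≤ K := fun g hg => by
  obtain ⟨e, he0, he⟩ := hB.exists_isotropic (by omega : 2 ≤ finrank F V)
  obtain ⟨f, hf, hef⟩ := hB.exists_hyperbolic he0 he
  have hge : B (g e) (g e) = 0 := (hg.1 e e).trans he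
  obtain ⟨k, hk, h1⟩ : ∃ k ∈ K ⊓ SUG B, k (g e) = e := by
    by_cases h : B e (g e) = 0
    · obtain ⟨w, hw, h1, h2⟩ := hB.exists_isotropic_not_orth he0 (v := g e) (by simpa using he0) he
        (hB.eq_zero_comm.1 h)
      obtain ⟨k, hk, e1⟩ := gen_step hσ hB hn hK he hw h1
      obtain ⟨k', hk', e2⟩ := gen_step hσ hB hn hK hw hge (mt hB.eq_zero_comm.1 h2)
      exact ⟨k * k', mul_mem hk hk', by rw [LinearEquiv.mul_apply, e2, e1]⟩
    · exact gen_step hσ hB hn hK he hge h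
  have h2 : k * g ∈ SUG B := mul_mem hk.2 hg
  obtain ⟨x, hx, h3⟩ := hB.exists_QE_apply he hf hef (u := (k * g) f) ((h2.1 f f).trans hf)
    (by rw [← h1]; exact (h2.1 e f).trans hef)
  have h4 : x⁻¹ * (k * g) ∈ SUG B := mul_mem (inv_mem (hB.QE_le_SUG he0 he hx)) h2
  suffices H : x⁻¹ * (k * g) = 1 by
    rw [inv_mul_eq_one, ← inv_mul_eq_iff_eq_mul] at H
    exact H ▸ mul_mem (inv_mem hk.1) (hK e he0 he hx)
  have h5 : (x⁻¹ * (k * g)) e = e := by
    rw [LinearEquiv.mul_apply, LinearEquiv.mul_apply, h1]; exact (inv_mem hx).2.1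
  have h6 : (x⁻¹ * (k * g)) f = f := by rw [LinearEquiv.mul_apply, ← h3]; simp
  generalize x⁻¹ * (k * g) = d at h4 h5 h6
  obtain ⟨w, hew, hfw, hw, hu⟩ := hB.exists_frame_three hn he hf hef
  have h7 := hu (d w) (by rw [← h5, h4.1, hew]) (by rw [← h6, h4.1, hfw])
  generalize -B w (d w) = b at h7
  have h8 : ∀ v, (d : V →ₗ[F] V) v = v + ((1 - b) * B w v) • w := fun v => by
    obtain ⟨u, a1, a2, a3⟩ := hB.hyp_decomp he hf hef v
    have a4 := hu u a1 a2
    generalize -B w u = c at a4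
    generalize B f v = s at a3
    generalize B e v = t at a3
    subst a4 a3
    simp only [LinearEquiv.coe_coe, map_add, map_smul, h5, h6, h7, hw, hB.eq_zero_comm.1 hew,
      hB.eq_zero_comm.1 hfw, smul_eq_mul]
    module
  have h9 := (mem_SUG'.1 h4).2
  rw [det_of_apply_eq h8, hw] at h9
  obtain rfl : b = 1 := by linear_combination h9
  ext v
  simpa using h8 v

/-- Unless `n = 3`, `q = 2`: `TG_eq_SUG`, `TG_le`, `transv_mem_QE`.  For `SU₃(2)` let `K₀` be the closure of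
all `QE B e`; it is normalised by `UG B` (`conj_mem_QE`).  Perpendicular isotropic points coincide
(`two_mul_finrank_le`), so `K₀` is transitive on hyperbolic pairs of points (`ptRel_QE`; go through a third
point) and `g ∈ SUG B` is `k d`, `k ∈ K₀`, `d e = a e`, `d f = (σ a)⁻¹ f`, `d w = b w` (`w ⊥ e, f`),
`a (σ a)⁻¹ b = 1`, `a^3 = 1`: `d` is a scalar.  So `SUG B = K₀ Z`, commutators lie in `K₀`, and for an
orthonormal basis the scalar `ζ` is the commutator of the cyclic shift and `diag (1, ζ, ζ²)` (or its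
inverse), both in `SUG B`. -/
theorem gen_QE (hn : 3 ≤ finrank F V) {K : Subgroup (V ≃ₗ[F] V)}
    (hK : ∀ e, e ≠ 0 → B e e = 0 → QE B e ≤ K) : SUG B ≤ K := by
  rcases hn.eq_or_lt with h | h
  · exact gen_three hσ hB h.symm hK
  rw [← hB.TG_eq_SUG hσ (by omega)]
  refine TG_le fun u c hu hc => ?_
  by_cases hu0 : u = 0
  · rw [show transv B u c hu hc = 1 by ext; simp [hu0]]
    exact one_mem _
  exact hK u hu0 hu (hB.transv_mem_QE c hu hc)

/-- Take `f` (`exists_hyperbolic`), `H = ⟨e, f⟩`, `U = H^⊥` of dimension `≥ 3`.  Some `k ∈ Q_e` has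
`k f = g f` (`exists_QE_apply`, `QE_le_SUG`), so we may assume that `g` fixes `e, f`:
`g = glue (1, g')`, `g' ∈ SUG (B|U)` (`fixEquiv`, `det_fixEquiv`, or `glue_restr`, `det_glue`).  `gen_QE` in `U`
for the subgroup of the `x` with `glue (1, x) ∈ K.map subtype`: for `x ∈ QE (B|U) e'` the map `glue (1, x)` lies in
`QE B e'` and fixes `e`. -/
theorem gen_stab (hn : 5 ≤ finrank F V) {e : V} (he0 : e ≠ 0) (he : B e e = 0) {K : Subgroup (SUG B)}
    (h1 : ∀ g : SUG B, g.1 ∈ QE B e → g ∈ K)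
    (h2 : ∀ e', B e' e' = 0 → B e e' = 0 → e' ∉ F ∙ e → ∀ g : SUG B, g.1 ∈ QE B e' → g.1 e = e → g ∈ K)
    {g : SUG B} (hg : g.1 e = e) : g ∈ K := by
  obtain ⟨f, hf, hef⟩ := hB.exists_hyperbolic he0 he
  have hfe : B f e = 1 := by rw [← hB.symm, hef, map_one]
  obtain ⟨k, hk, hkf⟩ := hB.exists_QE_apply he hf hef (u := g.1 f) ((g.2.1 f f).trans hf)
    (by rw [← hef, ← g.2.1 e f, hg])
  let k' : SUG B := ⟨k, hB.QE_le_SUG he0 he hk⟩
  suffices h : k'⁻¹ * g ∈ K by simpa using K.mul_mem (h1 k' hk) h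
  have hd := disjoint_perp_pair_of_gram (B := B) (u := e) (v := f) (by simp [he, hef, hfe])
  have hY := hB.disjoint_perp_perp hd
  have hr : 3 ≤ finrank F (perp B (Submodule.span F {e, f})) := by
    classical
    have h1 := finrank_span_le_card (R := F) ({e, f} : Set V)
    have h2 : ({e, f} : Set V).toFinset.card ≤ 2 := by
      rw [Set.toFinset_insert, Set.toFinset_singleton]; exact Finset.card_le_two
    rw [hB.finrank_perp]; omega
  have hfix : (k'⁻¹ * g).1 ∈ fixStab (perp B (perp B (Submodule.span F {e, f}))) := by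
    rw [hB.perp_perp]
    intro v hv
    obtain ⟨a, b, rfl⟩ := Submodule.mem_span_pair.mp hv
    have a1 : (k'⁻¹ * g).1 e = e := by
      show k.symm (g.1 e) = e
      rw [hg, LinearEquiv.symm_apply_eq, hk.2.1]
    have a2 : (k'⁻¹ * g).1 f = f := by
      show k.symm (g.1 f) = f
      rw [LinearEquiv.symm_apply_eq, hkf]
    rw [map_add, map_smul, map_smul, a1, a2]
  obtain ⟨g', hg', e1⟩ := hB.exists_extd_eq hY ⟨(k'⁻¹ * g).2, hfix⟩
  have := gen_QE hσ (hB.restrict hY) hr (K := (K.map (SUG B).subtype).comap (hB.extd hY))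
    (fun e' h0 h3 x hx => ?_) hg'
  · obtain ⟨z, hz, hz'⟩ := this
    rwa [← Subtype.ext (hz'.trans e1)]
  have h4 := hB.extd_mem_SUG hY ((hB.restrict hY).QE_le_SUG h0 h3 hx)
  have h5 := mem_perp_span.1 e'.2
  refine ⟨⟨_, h4.1⟩, h2 e' h3 (h5 e (by simp)) (fun h => ?_) _ ⟨h4.1.1, ?_, fun v hv => ?_⟩
    (h4.2 e (hB.le_perp_perp _ (Submodule.subset_span (by simp)))), rfl⟩
  · obtain ⟨s, hs⟩ := Submodule.mem_span_singleton.1 h
    have h6 := h5 f (by simp)
    rw [← hs, map_smul, hfe, smul_eq_mul, mul_one] at h6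
    exact h0 (Subtype.ext (by rw [← hs, h6, zero_smul]; rfl))
  · exact (hB.extd_coe hY x e').trans (congrArg Subtype.val hx.2.1)
  · obtain ⟨y, hy, w, hw, rfl⟩ := hB.exists_add_perp hY v
    rw [map_add, hw e' e'.2, add_zero] at hv
    obtain ⟨c, hc⟩ := hx.2.2 ⟨y, hy⟩ hv
    refine ⟨c, ?_⟩
    show hB.extd hY x (y + w) = _
    rw [map_add, h4.2 w hw, hB.extd_coe hY x ⟨y, hy⟩, hc, add_right_comm]
    rfl

end Cfsg.Lib.CW
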