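import Cfsg.Agent.Lib.CW.Def
import Cfsg.Agent.Lib.CharDeg.PermChar

/-! # Intertwiners between images of projections -/

set_option autoImplicit false

namespace Cfsg.Lib.CW

open Module LinearMap Cfsg.Lib.Char Cfsg.Lib.US7

variable {G M N : Type*} [Group G] [AddCommGroup M] [Module ℂ M] [FiniteDimensional ℂ M]
  [AddCommGroup N] [Module ℂ N] [FiniteDimensional ℂ N]

/-- the trace of `T ↦ A T C` on `Hom (M, N)` (as `US7.trace_lr`: `dualTensorHomEquiv`, or Mathlib's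
`LinearMap.trace_tensorProduct`/`Representation.char_linHom` proof, or matrices) -/
theorem trace_hom (A : End ℂ N) (C : End ℂ M) :
    trace ℂ (M →ₗ[ℂ] N) (llcomp ℂ M N N A ∘ₗ lcomp ℂ N C) = trace ℂ N A * trace ℂ M C := by
  rw [mul_comm, ← trace_transpose' C, ← trace_tensorProduct', ← trace_conj' _ (dualTensorHomEquiv ℂ M N)]
  congr 1
  rw [LinearEquiv.conj_apply, LinearEquiv.eq_comp_toLinearMap_symm]
  ext f x v
  simp [Dual.transpose_apply]

/-- `π g : T ↦ (τ g * r) ∘ T ∘ (ρ g⁻¹ * p)` is multiplicative on `P`, so `Φ = |P|⁻¹ ∑ π g` is an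
idempotent (`US7.av_left`) whose fixed points are exactly the `φ` on the right; its trace is
`|P|⁻¹` times the sum (`trace_hom`) and vanishes iff `Φ = 0` (`US7.idem_zero`). -/
theorem hom_iff [Finite G] (ρ : G →* End ℂ M) (τ : G →* End ℂ N) (P : Subgroup G) {p : End ℂ M}
    {r : End ℂ N} (hp : p * p = p) (hr : r * r = r) (cp : ∀ g ∈ P, ρ g * p = p * ρ g)
    (cr : ∀ g ∈ P, τ g * r = r * τ g) :
    ∑ᶠ g : P, trace ℂ N (τ g * r) * trace ℂ M (ρ (g : G)⁻¹ * p) ≠ 0 ↔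
      ∃ φ : M →ₗ[ℂ] N, φ ≠ 0 ∧ φ ∘ₗ p = φ ∧ r ∘ₗ φ = φ ∧ ∀ g ∈ P, φ ∘ₗ ρ g = τ g ∘ₗ φ := by
  cases nonempty_fintype P
  let π : P → End ℂ (M →ₗ[ℂ] N) := fun g => llcomp ℂ M N N (τ g * r) ∘ₗ lcomp ℂ N (ρ (g : G)⁻¹ * p)
  have a : ∀ g φ, π g φ = (τ g * r) ∘ₗ φ ∘ₗ (ρ (g : G)⁻¹ * p) := fun _ _ => rfl
  have hπ : ∀ g h, π (g * h) = π g * π h := fun g h => LinearMap.ext fun φ => by
    have e1 : τ (g * h : P) * r = τ g * r * (τ h * r) := by
      rw [cr h h.2, mul_assoc, ← mul_assoc r, hr, ← cr h h.2, ← mul_assoc, ← map_mul]; rfl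
    have e2 : ρ ((g * h : P) : G)⁻¹ * p = ρ (h : G)⁻¹ * p * (ρ (g : G)⁻¹ * p) := by
      rw [cp _ (inv_mem g.2), mul_assoc, ← mul_assoc p, hp, ← cp _ (inv_mem g.2), ← mul_assoc, ← map_mul, ← mul_inv_rev]; rfl
    rw [End.mul_apply, a, a, a, e1, e2]; rfl
  set Φ := (Nat.card P : ℂ)⁻¹ • ∑ g, π g with hΦ
  have l := av_left hπ
  have t : trace ℂ _ Φ = (Nat.card P : ℂ)⁻¹ * ∑ᶠ g : P, trace ℂ N (τ g * r) * trace ℂ M (ρ (g : G)⁻¹ * p) := by
    rw [hΦ, map_smul, map_sum, finsum_eq_sum_of_fintype, smul_eq_mul]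
    simp only [π, trace_hom]
  rw [← mul_ne_zero_iff_left (inv_ne_zero (card_ne_zero_complex P)), ← t]
  constructor
  · intro h
    obtain ⟨ψ, hψ⟩ := DFunLike.ne_iff.1 (mt (fun e : Φ = 0 => by rw [e, map_zero]) h)
    have k : ∀ g, π g (Φ ψ) = Φ ψ := fun g => LinearMap.congr_fun (l g) ψ
    have k1 := k 1
    rw [a, OneMemClass.coe_one, inv_one, map_one, map_one, one_mul, one_mul] at k1
    have k2 : Φ ψ ∘ₗ p = Φ ψ := by
      rw [← k1, comp_assoc, comp_assoc, ← End.mul_eq_comp p, hp]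
    have k3 : r ∘ₗ Φ ψ = Φ ψ := by
      rw [← k1, ← comp_assoc, ← End.mul_eq_comp r, hr]
    refine ⟨Φ ψ, hψ, k2, k3, fun g hg => ?_⟩
    have k4 := k ⟨g, hg⟩
    rw [a, cp _ (inv_mem hg), End.mul_eq_comp, End.mul_eq_comp, comp_assoc, ← comp_assoc _ p, k2, ← comp_assoc _ _ r, k3] at k4
    conv_lhs => rw [← k4]
    rw [comp_assoc, comp_assoc, ← End.mul_eq_comp (ρ _), ← map_mul, inv_mul_cancel, map_one]; rfl
  · rintro ⟨φ, h0, h1, h2, h3⟩ h
    have k : ∀ g, π g φ = φ := fun g => by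
      rw [a, cp _ (inv_mem g.2), End.mul_eq_comp, End.mul_eq_comp, comp_assoc, ← comp_assoc _ p, h1, ← comp_assoc _ _ r, h2,
        h3 _ (inv_mem g.2), ← comp_assoc, ← End.mul_eq_comp (τ _), ← map_mul, mul_inv_cancel, map_one]; rfl
    have e : Φ φ = φ := by
      rw [hΦ, LinearMap.smul_apply, LinearMap.sum_apply, Finset.sum_congr rfl fun g _ => k g, Finset.sum_const,
        Finset.card_univ, ← Nat.card_eq_fintype_card, ← Nat.cast_smul_eq_nsmul ℂ]
      exact inv_smul_smul₀ (card_ne_zero_complex P) φ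
    exact h0 (by rw [← e, idem_zero (E := Φ) (av_absl l) h, LinearMap.zero_apply])

/-- `Y' = {n | (0, n) ∈ Y}` is `τ`-invariant and not everything, so it is zero
(`isIrreducible_iff_submodule`).  Let `χ` be the character of `τ`.  `PermChar.eId τ χ = 1` (an
idempotent of trace `χ 1 ⟨χ, χ⟩ = dim N`: `trace_eId`, `idem_eq`).  If the inner product vanishes then
`eId ρ χ = 0` (`eId_eq_zero_iff`), and for `y ∈ Y` the same linear combination of the
`(ρ g y.1, τ g y.2)` is `(0, y.2) ∈ Y`, so `y.2 = 0`. -/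
theorem inner_ne_of_sub [Fintype G] (ρ : G →* End ℂ M) (τ : G →* End ℂ N)
    (hτ : Representation.IsIrreducible (k := ℂ) τ) (Y : Submodule ℂ (M × N))
    (hY : ∀ g, ∀ y ∈ Y, (ρ g y.1, τ g y.2) ∈ Y) (h1 : ∃ n, ((0 : M), n) ∉ Y) (h2 : ∃ y ∈ Y, y.2 ≠ 0) :
    classInner (fun g => trace ℂ M (ρ g)) (fun g => trace ℂ N (τ g)) ≠ 0 := fun h => by
  have hχ : IsIrrCharacter G (Representation.character (k := ℂ) τ) := isIrrCharacter_character τ
  have e0 := (PermChar.eId_eq_zero_iff ρ hχ).2 h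
  have e1 : PermChar.eId τ (Representation.character (k := ℂ) τ) = 1 :=
    (idem_eq (one_mul 1) (PermChar.eId_mul_self τ hχ) (one_mul _) (mul_one _) (by
      rw [PermChar.trace_eId τ hχ.isCharacter, hχ.inner_self, mul_one, Representation.char_one, trace_one])).symm
  obtain ⟨n, hn⟩ := h1
  obtain ⟨y, hy, y0⟩ := h2
  rcases ((isIrreducible_iff_submodule τ).1 hτ).2 (Y.comap (inr ℂ M N))
    (fun g v hv => by simpa using hY g _ hv) with e | e
  · refine y0 (e.le (show (0, y.2) ∈ Y from ?_))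
    have : ((0 : M), y.2) = (Representation.character (k := ℂ) τ 1 / Nat.card G) •
        ∑ g, Representation.character (k := ℂ) τ g⁻¹ • (ρ g y.1, τ g y.2) := by
      have a := LinearMap.congr_fun e0 y.1
      have b := LinearMap.congr_fun e1 y.2
      simp only [PermChar.eId, LinearMap.smul_apply, LinearMap.sum_apply] at a b
      ext <;> simp only [Prod.smul_fst, Prod.smul_snd, Prod.fst_sum, Prod.snd_sum]
      exacts [a.symm, b.symm]
    exact this ▸ Y.smul_mem _ (Y.sum_mem fun g _ => Y.smul_mem _ (hY g y hy))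
  · exact hn (e.ge (Submodule.mem_top (x := n)))

end Cfsg.Lib.CW
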