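import Cfsg.Agent.Lib.CW.Key
import Cfsg.Agent.Lib.CW.Gen
import Cfsg.Agent.Lib.CW.Hom

/-! # Intertwiners for the stabiliser of an isotropic vector -/

set_option autoImplicit false
set_option linter.unusedSectionVars false

namespace Cfsg.Lib.CW

open Module LinearMap Cfsg.Lib.Unitary

variable {F V : Type*} [Field F] [Fintype F] [AddCommGroup V] [Module F V] [FiniteDimensional F V]
  {σ : F →+* F} {B : V →ₛₗ[σ] V →ₗ[F] F} {q : ℕ} {M : Type*} [AddCommGroup M] [Module ℂ M]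
  [FiniteDimensional ℂ M] {N : Type*} [AddCommGroup N] [Module ℂ N] [FiniteDimensional ℂ N]
  (hB : IsHerm σ B) {ψ : AddChar F ℂ} {e : V} (hσ : IsBar q σ) (hψ : NT σ ψ) (he0 : e ≠ 0)
  (he : B e e = 0)
include hσ hψ he0 he

/-- `g = ei e w γ` with `w ∈ ⟨e, f⟩^⊥`, `w ≠ 0` (`exists_ei`, `ei_zero`).  For `k = ei e w' γ'`:
`k g = g k tv e (B w w' - B w' w)` (`ei_mul`), `k` and `tv` commute with `pe` (`pe_conj`), so
`tr (ρ g pe) = tr (ρ (k g k⁻¹) pe) = ψ (y - σ y) tr (ρ g pe)` (`tv_mul_pe`), `y = B w w'` arbitrary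
(`exists_apply_eq` for the independent `e, w`); `eq_zero_of_beta` with `β = 1`. -/
theorem tr_zero (ρ : SUG B →* End ℂ M) {g : SUG B} (hg : g.1 ∈ QE B e)
    (hx : ∀ c, c + σ c = 0 → g ≠ tv hB e c) : trace ℂ M (ρ g * pe hB ρ ψ e) = 0 := by
  obtain ⟨f, hf, hef⟩ := hB.exists_hyperbolic he0 he
  obtain ⟨w, γ, h1, h2, h3, rfl⟩ := exists_ei hB he hf hef hg
  have w0 : w ≠ 0 := fun q => by
    subst q
    exact hx γ (by simpa using h3) (ei_zero hB e γ)
  have hfe : B f e = 1 := by rw [← hB.symm, hef, map_one]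
  have li : LinearIndependent F ![e, w] := LinearIndependent.pair_iff.2 fun s t h => by
    have h1 : s = 0 := by simpa [hfe, h2] using congrArg (B f) h
    exact ⟨h1, by simpa [h1, w0] using h⟩
  by_contra n
  refine one_ne_zero (eq_zero_of_beta hσ hψ (β := 1) fun x => mul_right_cancel₀ n ?_)
  obtain ⟨w', hw⟩ := hB.exists_apply_eq li ![0, x]
  have k1 : B e w' = 0 := hw 0
  have k2 : B w w' = x := hw 1
  have k3 : B w' w = σ x := by rw [← hB.symm, k2]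
  obtain ⟨γ', hγ⟩ := hB.exists_eichler_param w'
  have hc : x - σ x + σ (x - σ x) = 0 := by rw [map_sub, hB.invol]; ring
  have e1 : ei hB e w' γ' * ei hB e w γ = ei hB e w γ * ei hB e w' γ' * tv hB e (x - σ x) := by
    rw [ei_mul hB he k1 hγ h1 h3, ei_mul hB he h1 h3 k1 hγ, ← ei_zero, ei_mul hB he (by rw [map_add, h1, k1, add_zero])
      (by simp only [map_add, map_sub, LinearMap.add_apply, k2, k3]; linear_combination h3 + hγ) (map_zero _) (by simpa using hc),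
      add_zero, add_comm w', k2, k3, map_zero]
    congr 1
    ring
  have e2 := pe_conj hB ρ ψ (ei hB e w' γ') e
  rw [(ei_mem_QE hB he k1 hγ).2.1] at e2
  generalize ei hB e w' γ' = k at e1 e2
  generalize ei hB e w γ = g at e1
  rw [one_mul, one_mul]
  calc _ = trace ℂ M (ρ g * ρ k * (ρ (tv hB e (x - σ x)) * pe hB ρ ψ e) * ρ k⁻¹) := by
        rw [tv_mul_pe hB ρ ψ he hc, mul_smul_comm, smul_mul_assoc, map_smul, smul_eq_mul, mul_assoc (ρ g), e2, mul_assoc,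
          mul_assoc, ← map_mul, mul_inv_cancel, map_one, mul_one]
    _ = _ := by
        rw [trace_mul_comm, ← mul_assoc, ← mul_assoc, ← map_mul, ← map_mul, ← map_mul, mul_assoc, ← e1, inv_mul_cancel_left]

/-- `hom_iff` for `P = (QE B e).subgroupOf (SUG B)` (`pe_idem`, `pe_conj`): only the `g = tv e c` contribute
(`tr_zero`), each `ψ c tr (pe τ) ψ (-c) tr (pe ρ) = tr (pe τ) tr (pe ρ) ≠ 0` (`tv_mul_pe`, `idem_zero`). -/
theorem exists_Qhom (ρ : SUG B →* End ℂ M) (τ : SUG B →* End ℂ N) (h1 : ∃ m ∈ Ee hB ρ ψ e, m ≠ 0)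
    (h2 : ∃ m ∈ Ee hB τ ψ e, m ≠ 0) : ∃ φ : M →ₗ[ℂ] N, φ ≠ 0 ∧ φ ∘ₗ pe hB ρ ψ e = φ ∧
      pe hB τ ψ e ∘ₗ φ = φ ∧ ∀ g : SUG B, g.1 ∈ QE B e → φ ∘ₗ ρ g = τ g ∘ₗ φ := by
  classical
  have : Finite V := Module.finite_of_finite F
  have : Finite (V ≃ₗ[F] V) := DFunLike.finite _
  obtain ⟨m, hm, m0⟩ := h1
  obtain ⟨n, hn, n0⟩ := h2
  have t1 : trace ℂ M (pe hB ρ ψ e) ≠ 0 := fun q =>
    m0 (by rw [← pe_of_mem hB ρ ψ hm, US7.idem_zero (pe_idem hB ρ ψ he) q, LinearMap.zero_apply])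
  have t2 : trace ℂ N (pe hB τ ψ e) ≠ 0 := fun q =>
    n0 (by rw [← pe_of_mem hB τ ψ hn, US7.idem_zero (pe_idem hB τ ψ he) q, LinearMap.zero_apply])
  refine (hom_iff ρ τ ((QE B e).subgroupOf (SUG B)) (pe_idem hB ρ ψ he) (pe_idem hB τ ψ he)
    (fun g hg => by rw [pe_conj, show g.1 e = e from hg.2.1]) fun g hg => by rw [pe_conj, show g.1 e = e from hg.2.1]).1 ?_
  cases nonempty_fintype ((QE B e).subgroupOf (SUG B))
  rw [finsum_eq_sum_of_fintype, Finset.sum_congr rfl (g := fun g => (if ∃ c, c + σ c = 0 ∧ g.1 = tv hB e c then 1 else 0) *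
    (trace ℂ N (pe hB τ ψ e) * trace ℂ M (pe hB ρ ψ e))) fun g _ => ?_, ← Finset.sum_mul, Finset.sum_boole]
  · exact mul_ne_zero (Nat.cast_ne_zero.2 (Finset.card_ne_zero.2 ⟨1, by
      simpa using ⟨0, by simp, (tv_zero hB e).symm⟩⟩)) (mul_ne_zero t2 t1)
  split_ifs with q
  · obtain ⟨c, hc, q⟩ := q
    have hc' : -c + σ (-c) = 0 := by rw [map_neg, ← neg_add, hc, neg_zero]
    rw [q, inv_eq_of_mul_eq_one_right (show _ * tv hB e (-c) = 1 by rw [← tv_add hB he hc hc', add_neg_cancel, tv_zero]),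
      tv_mul_pe hB τ ψ he hc, tv_mul_pe hB ρ ψ he hc', map_smul, map_smul, smul_eq_mul, smul_eq_mul, mul_mul_mul_comm,
      ← AddChar.map_add_eq_mul, add_neg_cancel, AddChar.map_zero_eq_one]
  · rw [tr_zero hB hσ hψ he0 he τ g.2 fun c hc r => q ⟨c, hc, r⟩, zero_mul, zero_mul]

/-- `gen_stab` for the subgroup of the `g` with `φ ρ g = τ g φ`.  Let `h ∈ Q_e'` fix `e`.  As `h` commutes with
`pe` it suffices to show `Ee ρ e ≤ eqLocus (φ ρ h) (τ h φ)`; `z_ind`: for a `β`-eigenvector `w ∈ Ee ρ e` the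
image `φ w ∈ Ee τ e` is a `β`-eigenvector (`z_mem_QE`); `h = k τ'` (`exists_tau`, `b = -σ β`), `τ'` fixes `w`
and `φ w` (`key`), and `k ∈ Q_e` commutes with `φ`. -/
theorem hom_stab (hn : 5 ≤ finrank F V) {ρ : SUG B →* End ℂ M} {τ : SUG B →* End ℂ N} (W : PW hB ρ)
    (W' : PW hB τ) {φ : M →ₗ[ℂ] N} (h1 : φ ∘ₗ pe hB ρ ψ e = φ) (h2 : pe hB τ ψ e ∘ₗ φ = φ)
    (h3 : ∀ g : SUG B, g.1 ∈ QE B e → φ ∘ₗ ρ g = τ g ∘ₗ φ) {g : SUG B} (hg : g.1 e = e) :
    φ ∘ₗ ρ g = τ g ∘ₗ φ := by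
  let K : Subgroup (SUG B) :=
    { carrier := {g | φ ∘ₗ ρ g = τ g ∘ₗ φ}
      one_mem' := by simp [End.one_eq_id]
      mul_mem' := fun {a b} (ha : _ = _) (hb : _ = _) => by
        change φ ∘ₗ ρ (a * b) = τ (a * b) ∘ₗ φ
        rw [map_mul, map_mul, End.mul_eq_comp, End.mul_eq_comp, ← comp_assoc, ha, comp_assoc, hb, comp_assoc]
      inv_mem' := fun {a} (ha : _ = _) => LinearMap.ext fun m => by
        have := LinearMap.congr_fun ha (ρ a⁻¹ m)
        rw [comp_apply, comp_apply, ← End.mul_apply, ← map_mul, mul_inv_cancel, map_one, End.one_apply] at this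
        rw [comp_apply, comp_apply, this, ← End.mul_apply, ← map_mul, inv_mul_cancel, map_one, End.one_apply] }
  refine gen_stab hσ hB hn he0 he (K := K) h3 (fun e' he' hee hi h q1 q2 => LinearMap.ext fun m => ?_) hg
  have c : ∀ {g : SUG B}, g.1 ∈ QE B e → ∀ w, φ (ρ g w) = τ g (φ w) := fun hg w => LinearMap.congr_fun (h3 _ hg) w
  have p : ∀ w, φ (pe hB ρ ψ e w) = φ w := LinearMap.congr_fun h1
  have := z_ind hB he he' hee hσ hψ (ρ := ρ) (Y := Ee hB ρ ψ e) (P := eqLocus (φ ∘ₗ ρ h) (τ h ∘ₗ φ))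
    (fun x y hy => by simpa only [(z_mem_QE hB he he' hee x).2.1] using Ee_map hB ρ ψ (ei hB e' (x • e) 0) hy)
    (fun β w hw hz => by
      obtain ⟨t, t1, t2⟩ : ∃ t : SUG B, t.1 ∈ QE B (e' + (-σ β) • e) ∧ (h * t⁻¹).1 ∈ QE B e := by
        first | exact exists_tau hB he he' hee hi q1 q2 _ | exact exists_tau he he' hee hi q1 q2 _
      have a1 := key hB he he' hee hσ hψ W hi hw hz t t1
      have a2 := key hB he he' hee hσ hψ W' hi (w := φ w) (LinearMap.congr_fun h2 w ▸ pe_mem hB τ ψ he _)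
        (fun x => by rw [← c (z_mem_QE hB he he' hee x), hz, map_smul]) t t1
      change φ (ρ h w) = τ h (φ w)
      rw [← inv_mul_cancel_right h t, map_mul ρ, map_mul τ, End.mul_apply, End.mul_apply, a1, a2, c t2]) (pe_mem hB ρ ψ he m)
  have e1 := LinearMap.congr_fun (pe_conj hB ρ ψ h e) m
  rw [q2, End.mul_apply, End.mul_apply] at e1
  rw [comp_apply, comp_apply, ← p, ← e1, ← p m]
  exact this

end Cfsg.Lib.CW
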