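import Cfsg.Agent.Lib.CW.Def
import Cfsg.Agent.Lib.Unitary.Wall5

/-! # Irreducible elements and scalars -/

set_option autoImplicit false
set_option linter.unusedSectionVars false

namespace Cfsg.Lib.CW

open Module LinearMap Cfsg.Lib.Unitary Cfsg.Lib.US7

variable {F V : Type*} [Field F] [Fintype F] [AddCommGroup V] [Module F V] [FiniteDimensional F V]
  {σ : F →+* F} {B : V →ₛₗ[σ] V →ₗ[F] F} {q : ℕ}

/-- the fixed space of `h` is `t`-invariant -/
theorem Irr.kf_eq {t h : V ≃ₗ[F] V} (ht : Irr t) (hc : h * t = t * h) (h1 : h ≠ 1) : kf h = 0 := by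
  rcases ht (ker (dev h)) (fun v hv => by
    rw [mem_ker, dev_apply, sub_eq_zero] at hv ⊢
    rw [← LinearEquiv.mul_apply, hc, LinearEquiv.mul_apply, hv]) with h0 | h0
  · rw [kf, h0, finrank_bot]
  · refine absurd (LinearEquiv.ext fun v => ?_) h1
    have : v ∈ ker (dev h) := h0 ▸ Submodule.mem_top
    rwa [mem_ker, dev_apply, sub_eq_zero] at this

theorem Irr.eq_smul {t h : V ≃ₗ[F] V} (ht : Irr t) (hc : h * t = t * h) {v : V} (hv : v ≠ 0) {a : F}
    (h1 : h v = a • v) (w : V) : h w = a • w := by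
  have key : ∀ x, x ∈ ker ((h : End F V) - a • 1) ↔ h x = a • x := fun x => by
    simp [sub_eq_zero]
  rcases ht (ker ((h : End F V) - a • 1)) (fun x hx => by
    rw [key] at hx ⊢
    rw [← LinearEquiv.mul_apply, hc, LinearEquiv.mul_apply, hx, map_smul]) with h0 | h0
  · exact absurd ((Submodule.mem_bot F).1 (h0 ▸ (key v).2 h1)) hv
  · exact (key w).1 (h0 ▸ Submodule.mem_top)

theorem card_Mu (hσ : IsBar q σ) : Nat.card (Mu q F) = q + 1 := by
  rw [← hσ.card_normOne]
  congr 2
  ext x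
  rw [mem_rootsOfUnity, mem_normOne, hσ.norm_eq, ← Units.val_pow_eq_pow_val, Units.val_eq_one]

/-- `K` of degree `n` (`IsBar.exists_ext`), `a ∈ K` of order `q^n + 1`; `sd_lmul`, `exists_UG_sim`.  A subspace
invariant under `a` is invariant under the subfield `L = F[a]`; `[K : L]` divides `n`, so it is odd, and
`|L| ≥ q^n + 1 > q^(2n/3)` gives `L = K` (or `natDegree_minpoly_dvd_iff`, or: the minimal polynomial has degree
`n`, the characteristic polynomial is irreducible). -/
theorem exists_irr (hσ : IsBar q σ) (hB : IsHerm σ B) (hn : Odd (finrank F V)) : ∃ t ∈ UG B, Irr t := by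
  obtain ⟨K, _, _, _, hK, hc⟩ := hσ.exists_ext hn.pos.ne'
  have h2 := hσ.two_le
  set n := finrank F V with hnd
  obtain ⟨a, ha0, ha⟩ := GLC.exists_orderOf_eq (K := K) (m := q ^ n + 1) (by
    rw [hc, two_mul, pow_add, ← sq, ← one_pow 2 (M := ℕ), Nat.sq_sub_sq, one_pow]
    exact dvd_mul_right _ _)
  obtain ⟨g, hg, e, he⟩ := hB.exists_UG_sim hσ
    (hσ.sd_lmul (a := a) hn (by rw [← ha, pow_orderOf_eq_one])) hK
  have hi := Algebra.IsIntegral.isIntegral (R := F) a
  have hd : (minpoly F a).natDegree = n := by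
    obtain ⟨k, hk⟩ : (minpoly F a).natDegree ∣ n := hK ▸ minpoly.degree_dvd hi
    have h1 := (hσ.natDegree_minpoly_dvd_iff (a := a)).1 dvd_rfl
    have hp := minpoly.natDegree_pos hi
    set d := (minpoly F a).natDegree
    obtain ⟨l, rfl⟩ := (Nat.odd_mul.1 (hk ▸ hn)).2
    rcases l with _ | l
    · simpa using hk.symm
    have h3 : 1 < q ^ (2 * d) := Nat.one_lt_pow (by omega) h2
    have h4 : q ^ n + 1 ∣ q ^ (2 * d) - 1 := by
      rw [← ha, orderOf_dvd_iff_pow_eq_one]
      apply mul_right_cancel₀ ha0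
      rw [← pow_succ, Nat.sub_add_cancel h3.le, h1, one_mul]
    have h5 := Nat.le_of_dvd (by omega) h4
    have h6 : q ^ (2 * d) ≤ q ^ n := Nat.pow_le_pow_right (by omega) (by rw [hk]; nlinarith)
    omega
  have hT : IntermediateField.adjoin F {a} = ⊤ := by
    apply IntermediateField.eq_of_le_of_finrank_eq le_top
    rw [IntermediateField.adjoin.finrank hi, hd, IntermediateField.finrank_top', hK]
  have hp : ∀ x : K, ∃ p : Polynomial F, Polynomial.aeval a p = x := fun x => by
    have : x ∈ (IntermediateField.adjoin F {a}).toSubalgebra := hT ▸ IntermediateField.mem_top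
    rwa [IntermediateField.adjoin_simple_toSubalgebra_of_isAlgebraic hi.isAlgebraic,
      Algebra.adjoin_singleton_eq_range_aeval] at this
  refine ⟨g, hg, fun W hW => or_iff_not_imp_left.2 fun h0 => ?_⟩
  obtain ⟨w, hw, hw0⟩ := Submodule.exists_mem_ne_zero_of_ne_bot h0
  have h7 : ∀ p : Polynomial F, e.symm (Polynomial.aeval a p * e w) ∈ W := fun p => by
    induction p using Polynomial.induction_on with
    | C c => simpa [← Algebra.smul_def] using W.smul_mem c hw
    | add p r hp hr => simpa [add_mul] using W.add_mem hp hr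
    | monomial k c ih =>
      have := hW _ ih
      convert this using 1
      apply e.injective
      have h8 := he (e.symm (Polynomial.aeval a (Polynomial.C c * Polynomial.X ^ k) * e w))
      simp only [LinearEquiv.coe_coe, LinearEquiv.apply_symm_apply] at h8 ⊢
      rw [h8]
      simp only [Algebra.coe_lmul_eq_mul, LinearMap.mul_apply', map_mul, map_pow, Polynomial.aeval_X]
      ring
  refine eq_top_iff.2 fun v _ => ?_
  obtain ⟨p, hp⟩ := hp (e v / e w)
  have := h7 p
  rwa [hp, div_mul_cancel₀ _ (by simpa using hw0), LinearEquiv.symm_apply_apply] at this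

/-- `det g ∈ normOne σ` (`map_det_UG`), and `c ↦ c^n` is onto on this group of order `q + 1` -/
theorem exists_scal (hσ : IsBar q σ) (hB : IsHerm σ B) (hc : (finrank F V).Coprime (q + 1))
    {g : V ≃ₗ[F] V} (hg : g ∈ UG B) : ∃ (c : Mu q F) (s : SUG B), g = scl q F V c * s.1 := by
  have hd : LinearEquiv.det g ∈ Mu q F := by
    rw [mem_rootsOfUnity, ← Units.val_eq_one, Units.val_pow_eq_pow_val, ← hσ.norm_eq,
      LinearEquiv.coe_det]
    exact hB.det_mul_conj hg
  obtain ⟨c, hc'⟩ := (powCoprime (G := Mu q F) (n := finrank F V)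
    (by rw [card_Mu hσ]; exact hc.symm)).surjective ⟨_, hd⟩
  refine ⟨c, ⟨(scl q F V c)⁻¹ * g,
    mem_SUG.2 ⟨mul_mem (inv_mem (scl_mem_UG hσ B c)) hg, ?_⟩⟩, by simp⟩
  rw [map_mul, map_inv, inv_mul_eq_one, ← Units.val_inj,
    LinearEquiv.coe_det, show ((scl q F V c : V ≃ₗ[F] V) : End F V) = ((c : Fˣ) : F) • LinearMap.id from rfl,
    LinearMap.det_smul, LinearMap.det_id, mul_one]
  simpa using congrArg (fun x : Mu q F => ((x : Fˣ) : F)) hc'

/-- `a^n = det = 1`, `a^(q+1) = 1` (`norm_one_of_smul`); `n ≠ 0` since `q + 1 ≠ 1` -/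
theorem eq_one_of_smul (hσ : IsBar q σ) (hB : IsHerm σ B) (hc : (finrank F V).Coprime (q + 1))
    {g : SUG B} {a : F} (h : ∀ v, g.1 v = a • v) : g = 1 := by
  have h2 := hσ.two_le
  have : Nontrivial V := Module.finrank_pos_iff.1 (Nat.pos_of_ne_zero fun h0 => by
    rw [h0, Nat.coprime_zero_left] at hc; omega)
  have h1 := hB.norm_one_of_smul g.2.1 h
  have h3 := (mem_SUG'.1 g.2).2
  rw [show (g.1 : V →ₗ[F] V) = a • LinearMap.id from LinearMap.ext h, LinearMap.det_smul,
    LinearMap.det_id, mul_one] at h3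
  rw [hσ.norm_eq] at h1
  have h4 : a = 1 := by
    have := Nat.dvd_gcd (orderOf_dvd_of_pow_eq_one h3) (orderOf_dvd_of_pow_eq_one h1)
    rwa [hc, Nat.dvd_one, orderOf_eq_one_iff] at this
  exact Subtype.ext (LinearEquiv.ext fun v => by rw [h, h4, one_smul]; rfl)

theorem exists_irr_S (hσ : IsBar q σ) (hB : IsHerm σ B) (hc : (finrank F V).Coprime (2 * (q + 1))) :
    ∃ t : SUG B, Irr t.1 := by
  obtain ⟨g, hg, h⟩ := exists_irr hσ hB
    (Nat.coprime_two_right.1 (hc.coprime_dvd_right (dvd_mul_right _ _)))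
  obtain ⟨c, s, rfl⟩ := exists_scal hσ hB (hc.coprime_dvd_right (dvd_mul_left _ _)) hg
  exact ⟨s, fun W hW => h W fun v hv => W.smul_mem _ (hW v hv)⟩

end Cfsg.Lib.CW
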