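import Cfsg.Agent.Lib.CW.Proj

/-! # Two perpendicular points -/

set_option autoImplicit false
set_option linter.unusedSectionVars false

namespace Cfsg.Lib.CW

open Module LinearMap Cfsg.Lib.Unitary

variable {F V : Type*} [Field F] [Fintype F] [AddCommGroup V] [Module F V] [FiniteDimensional F V]
  {σ : F →+* F} {B : V →ₛₗ[σ] V →ₗ[F] F} {q : ℕ} {M : Type*} [AddCommGroup M] [Module ℂ M]
  (hB : IsHerm σ B) {ρ : SUG B →* End ℂ M} {ψ : AddChar F ℂ} {e e' : V}
  (he : B e e = 0) (he' : B e' e' = 0) (hee : B e e' = 0)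
include he he' hee

theorem z_apply (x : F) (v : V) : (ei hB e' (x • e) 0).1 v = v + (x * B e' v) • e - (σ x * B e v) • e' := by
  rw [ei_apply hB he' (by simp [hB.eq_zero_comm.1 hee]) (by simp [he]), map_smulₛₗ, LinearMap.smul_apply, smul_eq_mul]
  module

include hB in
theorem iso_add (b : F) : B (e' + b • e) (e' + b • e) = 0 := by simp [he, he', hee, hB.eq_zero_comm.1 hee]

omit he he' hee in include hB in
theorem sk_nrm (b : F) {c : F} (hc : c + σ c = 0) : c * (b * σ b) + σ (c * (b * σ b)) = 0 := by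
  simp only [map_mul, hB.invol]; linear_combination b * σ b * hc

omit he he' hee in include hB in
theorem sk_sub (y : F) : y - σ y + σ (y - σ y) = 0 := by rw [map_sub, hB.invol]; ring

/-- `z x = ei e' (x e) 0 : v ↦ v + x B(e',v) e - σ x B(e,v) e'` -/
theorem z_mem_QE (x : F) : (ei hB e' (x • e) 0).1 ∈ QE B e :=
  ⟨(ei hB e' (x • e) 0).2.1, by simp [z_apply hB he he' hee, he, hB.eq_zero_comm.1 hee],
    fun v hv => ⟨x * B e' v, by simp [z_apply hB he he' hee, hv]⟩⟩

/-- `eig_ind` (`ei_mul`, `ei_zero`, `tv_zero`), `exists_beta` -/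
theorem z_ind (hσ : IsBar q σ) (hψ : NT σ ψ) {Y P : Submodule ℂ M}
    (hY : ∀ x : F, ∀ y ∈ Y, ρ (ei hB e' (x • e) 0) y ∈ Y)
    (h : ∀ β : F, ∀ y ∈ Y, (∀ x : F, ρ (ei hB e' (x • e) 0) y = ψ (β * x - σ (β * x)) • y) → y ∈ P) :
    Y ≤ P := by
  have a : ∀ x : F, B e' (x • e) = 0 := fun x => by simp [hB.eq_zero_comm.1 hee]
  have b : ∀ x : F, 0 + σ 0 + B (x • e) (x • e) = 0 := fun x => by simp [he]
  refine eig_ind (fun x : F => ρ (ei hB e' (x • e) 0)) (by rw [zero_smul, ei_zero, tv_zero, map_one])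
    (fun x y => by rw [← map_mul, ei_mul hB he' (a x) (b x) (a y) (b y), add_smul]; simp [he]) hY fun χ y hy k => ?_
  obtain ⟨β, hβ⟩ := exists_beta hσ hψ χ
  exact h β y hy fun x => hβ x ▸ k x

/-- both sides are `v ↦ v + c B(a,v) a`, `a = e' + b e` (`σ c = -c`) -/
theorem tv_add_smul (b : F) {c : F} (hc : c + σ c = 0) : tv hB (e' + b • e) c =
    tv hB e' c * tv hB e (c * (b * σ b)) * ei hB e' ((c * b) • e) 0 := by
  refine Subtype.ext (LinearEquiv.ext fun v => ?_)
  have : σ c = -c := by linear_combination hc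
  simp only [Subgroup.coe_mul, LinearEquiv.mul_apply, tv_apply hB (iso_add hB he he' hee b) hc, tv_apply hB he' hc,
    tv_apply hB he (sk_nrm hB b hc), z_apply hB he he' hee, map_add, map_sub, map_smul, map_smulₛₗ B, LinearMap.add_apply,
    LinearMap.smul_apply, smul_eq_mul, he, he', hee, hB.eq_zero_comm.1 hee, map_mul, this]
  module

/-- fixes `a = e' + b e`; for `v ⊥ a` we have `B e' v = -σ b B e v` -/
theorem z_mul_mem (b x : F) :
    (tv hB e (x * σ b - σ (x * σ b)) * ei hB e' (x • e) 0).1 ∈ QE B (e' + b • e) := by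
  refine ⟨(Subtype.property _ : _ ∈ SUG B).1, ?_, fun v hv => ⟨-(σ x * B e v), ?_⟩⟩
  · simp only [Subgroup.coe_mul, LinearEquiv.mul_apply, tv_apply hB he (sk_sub hB _), z_apply hB he he' hee]
    simp [he, he', hee, hB.eq_zero_comm.1 hee]
  · have : B e' v = -(σ b * B e v) := by
      simp only [map_add, map_smulₛₗ B, LinearMap.add_apply, LinearMap.smul_apply, smul_eq_mul] at hv
      linear_combination hv
    simp only [Subgroup.coe_mul, LinearEquiv.mul_apply, tv_apply hB he (sk_sub hB _), z_apply hB he he' hee, map_add, map_sub,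
      map_smul, smul_eq_mul, he, hee, this]
    simp only [map_mul, hB.invol]
    module

theorem tv_mul_mem (b : F) {c : F} (hc : c + σ c = 0) :
    (tv hB e' c * tv hB e (-(c * (b * σ b)))).1 ∈ QE B (e' + b • e) := by
  have hd : -(c * (b * σ b)) + σ (-(c * (b * σ b))) = 0 := by rw [map_neg]; linear_combination -sk_nrm hB b hc
  refine ⟨(Subtype.property _ : _ ∈ SUG B).1, ?_, fun v hv => ⟨-(c * σ b * B e v), ?_⟩⟩
  · simp only [Subgroup.coe_mul, LinearEquiv.mul_apply, tv_apply hB he hd, tv_apply hB he' hc]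
    simp [he, he', hee, hB.eq_zero_comm.1 hee]
  · have : B e' v = -(σ b * B e v) := by
      simp only [map_add, map_smulₛₗ B, LinearMap.add_apply, LinearMap.smul_apply, smul_eq_mul] at hv
      linear_combination hv
    simp only [Subgroup.coe_mul, LinearEquiv.mul_apply, tv_apply hB he hd, tv_apply hB he' hc, map_add,
      map_smul, smul_eq_mul, hB.eq_zero_comm.1 hee, this]
    module

/-- `eig_ind` for `T c = ρ (tv e' c)` (`c : Sk σ`) on `Y = {w ∈ Ee e with the eigenvalues hz}` (invariant: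
`tv e' c` fixes `e, e'`, `conj_tv`, `conj_ei`), target the fixed space of `Q_(e' - σ β e)`.  Let `w ≠ 0` have
the `X_e'`-character `ψ (c s)` (`exists_s`).  Choose `b` with `N (b + σ β) = N β - s` (`exists_norm_eq`).
By `tv_add_smul` the eigenvalue of `tv (e' + b e) c` is
`ψ (c (s + N b + β b + σ (β b))) = ψ (c (s + N (b + σ β) - N β)) = 1`; by `PW`, `Q_(e' + b e)` fixes `w`;
`z_mul_mem` gives `ψ (y - σ y) = 1` for `y = (β + σ b) x`, so `b = -σ β` (`eq_zero_of_beta`). -/
theorem key (hσ : IsBar q σ) (hψ : NT σ ψ) (W : PW hB ρ) (hi : e' ∉ F ∙ e) {β : F} {w : M}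
    (hw : w ∈ Ee hB ρ ψ e)
    (hz : ∀ x : F, ρ (ei hB e' (x • e) 0) w = ψ (β * x - σ (β * x)) • w) (g : SUG B)
    (hg : g.1 ∈ QE B (e' + (-σ β) • e)) : ρ g w = w := by
  let Y : Submodule ℂ M := Ee hB ρ ψ e ⊓ ⨅ x : F, ker (ρ (ei hB e' (x • e) 0) - ψ (β * x - σ (β * x)) • 1)
  have mY : ∀ y, y ∈ Y ↔ y ∈ Ee hB ρ ψ e ∧ ∀ x : F, ρ (ei hB e' (x • e) 0) y = ψ (β * x - σ (β * x)) • y := fun y => by
    simp [Y, sub_eq_zero]
  suffices Y ≤ ker (ρ g - 1) by simpa [sub_eq_zero] using this ((mY w).2 ⟨hw, hz⟩)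
  refine eig_ind (fun c : Sk σ => ρ (tv hB e' c)) (by rw [ZeroMemClass.coe_zero, tv_zero, map_one])
    (fun x y => by rw [← map_mul, ← tv_add hB he' x.2 y.2, AddMemClass.coe_add]) (fun c y hy => ?_) fun χ y hy k => ?_
  · have t1 : (tv hB e' c).1 e = e := by simp [tv_apply hB he' c.2, hB.eq_zero_comm.1 hee]
    have t2 : (tv hB e' c).1 e' = e' := by simp [tv_apply hB he' c.2, he']
    obtain ⟨y1, y2⟩ := (mY y).1 hy
    refine (mY _).2 ⟨t1 ▸ Ee_map hB ρ ψ _ y1, fun x => ?_⟩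
    have := conj_ei hB (tv hB e' c) e' (x • e) 0
    rw [map_smul, t1, t2, mul_inv_eq_iff_eq_mul] at this
    rw [← End.mul_apply, ← map_mul, ← this, map_mul, End.mul_apply, y2, map_smul]
  obtain ⟨y1, y2⟩ := (mY y).1 hy
  rw [mem_ker, LinearMap.sub_apply, End.one_apply, sub_eq_zero]
  by_cases y0 : y = 0
  · rw [y0, map_zero]
  obtain ⟨s, s1, s2⟩ := exists_s hσ hψ χ
  obtain ⟨n, hn⟩ := hσ.exists_norm_eq (μ := β * σ β - s) (by rw [map_sub, map_mul, hB.invol, s1, mul_comm])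
  obtain ⟨b, rfl⟩ : ∃ b, n = b + σ β := ⟨n - σ β, by ring⟩
  rw [map_add, hB.invol] at hn
  have fx := W (e' + b • e) (fun q => hi (Submodule.mem_span_singleton.2 ⟨-b, by
    rw [neg_smul]; exact (eq_neg_of_add_eq_zero_left q).symm⟩)) (iso_add hB he he' hee b) y fun c hc => by
      have : σ c = -c := by linear_combination hc
      rw [tv_add_smul hB he he' hee b hc, map_mul, map_mul, End.mul_apply, End.mul_apply, y2, map_smul, y1 _ (sk_nrm hB b hc),
        map_smul, map_smul, k ⟨c, hc⟩, s2, smul_smul, smul_smul, ← AddChar.map_add_eq_mul, ← AddChar.map_add_eq_mul,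
        show β * (c * b) - σ (β * (c * b)) + c * (b * σ b) + c * s = 0 by
          simp only [map_mul, this]; linear_combination c * hn, AddChar.map_zero_eq_one, one_smul]
  have hb : β + σ b = 0 := eq_zero_of_beta hσ hψ fun x => by
    have := fx _ (z_mul_mem hB he he' hee b x)
    rw [map_mul, End.mul_apply, y2, map_smul, y1 _ (sk_sub hB _), smul_smul, ← AddChar.map_add_eq_mul] at this
    rw [← smul_left_injective ℂ y0 (this.trans (one_smul ℂ y).symm)]
    simp only [map_mul, map_add]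
    congr 1; ring
  obtain rfl : b = -σ β := by
    have := congrArg σ hb
    rw [map_add, hB.invol, map_zero] at this
    linear_combination this
  exact fx g hg

include hB in
/-- `h = ei e' u γ` (`exists_hyperbolic`, `exists_ei`) with `B u e = 0` since `h e = e`;
`τ = ei (e' + b e) u γ` fixes `e` and agrees with `h` on `e^⊥` modulo `e` -/
theorem exists_tau (hi : e' ∉ F ∙ e) {h : SUG B} (h1 : h.1 ∈ QE B e') (h2 : h.1 e = e)
    (b : F) : ∃ τ : SUG B, τ.1 ∈ QE B (e' + b • e) ∧ (h * τ⁻¹).1 ∈ QE B e := by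
  have e0 : e' ≠ 0 := fun q => hi (q ▸ zero_mem _)
  have hee' := hB.eq_zero_comm.1 hee
  obtain ⟨f, hf, ef⟩ := hB.exists_hyperbolic e0 he'
  obtain ⟨u, γ, u1, -, u2, rfl⟩ := exists_ei hB he' hf ef h1
  have ue : B u e = 0 := by simpa [ei_apply hB he' u1 u2, hee', e0] using h2
  have au : B (e' + b • e) u = 0 := by simp [u1, hB.eq_zero_comm.1 ue]
  have ia := iso_add hB he he' hee b
  have t1 : (ei hB (e' + b • e) u γ).1 e = e := by simp [ei_apply hB ia au u2, hee', he, ue]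
  refine ⟨_, ei_mem_QE hB ia au u2, (Subtype.property _ : _ ∈ SUG B).1, ?_, fun v hv => ?_⟩
  · refine (congrArg _ t1.symm).trans ?_
    rw [← LinearEquiv.mul_apply, ← Subgroup.coe_mul, inv_mul_cancel_right, h2]
  obtain ⟨v, rfl⟩ := (ei hB (e' + b • e) u γ).1.surjective v
  have ev : B e v = 0 := by rw [← (ei hB (e' + b • e) u γ).2.1 e v, t1, hv]
  refine ⟨b * (B u v - γ * B e' v), ?_⟩
  rw [← LinearEquiv.mul_apply, ← Subgroup.coe_mul, inv_mul_cancel_right, ei_apply hB ia au u2, ei_apply hB he' u1 u2]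
  simp only [map_add, map_smulₛₗ B, LinearMap.add_apply, LinearMap.smul_apply, smul_eq_mul, ev]
  module

include hB in
/-- `k = ei a u γ`, `a = e' + b e`, with `B a u = 0`, `B e' u = 1` (`exists_apply_eq`,
`exists_eichler_param`) maps `e'` to `e' - a` -/
theorem exists_k (he0 : e ≠ 0) (hi : e' ∉ F ∙ e) {b : F} (hb : b ≠ 0) :
    ∃ k : SUG B, k.1 ∈ QE B (e' + b • e) ∧ k.1 e' = (-b) • e := by
  obtain ⟨u, hu⟩ := hB.exists_apply_eq (x := ![e', e])
    (linearIndependent_fin2.2 ⟨he0, fun a q => hi (Submodule.mem_span_singleton.2 ⟨a, q⟩)⟩) ![1, -(σ b)⁻¹]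
  have u1 : B e' u = 1 := hu 0
  have u2 : B e u = -(σ b)⁻¹ := hu 1
  obtain ⟨γ, hγ⟩ := hB.exists_eichler_param u
  have au : B (e' + b • e) u = 0 := by simp [u1, u2, hb]
  have ia := iso_add hB he he' hee b
  refine ⟨_, ei_mem_QE hB ia au hγ, ?_⟩
  simp [ei_apply hB ia au hγ, he', hee, ← hB.symm e' u, u1]

end Cfsg.Lib.CW
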