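import Cfsg.Agent.Lib.CW.Proj

/-! # Linear characters of the unipotent radical -/

set_option autoImplicit false
set_option linter.unusedSectionVars false

namespace Cfsg.Lib.CW

open Module LinearMap Cfsg.Lib.Unitary

variable {F V : Type*} [Field F] [Fintype F] [AddCommGroup V] [Module F V] [FiniteDimensional F V]
  {σ : F →+* F} {B : V →ₛₗ[σ] V →ₗ[F] F} {q : ℕ} {M : Type*} [AddCommGroup M] [Module ℂ M]
  (hB : IsHerm σ B) {ρ : SUG B →* End ℂ M} {ψ : AddChar F ℂ} {e f : V}

theorem lin_mem {w : V} : w ∈ perp B (Submodule.span F {e, f}) ↔ B e w = 0 ∧ B f w = 0 := by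
  rw [mem_perp_span]; simp

include hB in
theorem lin_gram (he : B e e = 0) (hef : B e f = 1) : B e e * B f f - B e f * B f e ≠ 0 := by
  rw [he, ← hB.symm e f, hef]; simp

include hB in
theorem lin_herm (he : B e e = 0) (hef : B e f = 1) :
    IsHerm σ (B.domRestrict₁₂ (perp B (Submodule.span F {e, f})) (perp B (Submodule.span F {e, f}))) :=
  hB.restrict_perp (disjoint_perp_pair_of_gram (lin_gram hB he hef))

/-- on the fixed space of `X_e` the parameter `γ` does not matter -/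
theorem lin_par (he : B e e = 0) {w : V} {γ γ' : F} (hw : B e w = 0) (hγ : γ + σ γ + B w w = 0) (hγ' : γ' + σ γ' + B w w = 0)
    {m : M} (hm : ∀ c, c + σ c = 0 → ρ (tv hB e c) m = m) : ρ (ei hB e w γ) m = ρ (ei hB e w γ') m := by
  have c : γ - γ' + σ (γ - γ') = 0 := by rw [map_sub]; linear_combination hγ - hγ'
  have := ei_mul hB he hw hγ' (w' := 0) (γ' := γ - γ') (map_zero _) (by simpa using c)
  rw [add_zero, map_zero, sub_zero, add_sub_cancel, ei_zero] at this
  rw [← this, map_mul, End.mul_apply, hm _ c]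

/-- Let `m` be fixed by `X_e` but not by `g ∈ Q_e`; `f` from `exists_hyperbolic`, `U = ⟨e, f⟩^⊥`
(hermitian: `disjoint_perp_pair_of_gram`, `restrict_perp`), `Y` the fixed space of `X_e` (invariant under
`Q_e`: `conj_tv`).  Choose `γ_w` (`exists_eichler_param`); on `Y` the operator `ρ (ei e w γ)` does not depend
on `γ` (`ei_mul`, `ei_zero`), so `T w = ρ (ei e w γ_w)` restricted to `Y` is additive in `w ∈ U`.  `eig_ind`
in `Y` with target the fixed space of `g` (`exists_ei`) gives an eigenvector `m ≠ 0` with a non-trivial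
character, which is `w ↦ ψ (B v w)` (`exists_vec` in `U`). -/
theorem exists_lin (hψ : ψ ≠ 1) (W : ¬ PW hB ρ) : ∃ (e f v : V) (m : M), B e e = 0 ∧ B f f = 0 ∧
    B e f = 1 ∧ B e v = 0 ∧ B f v = 0 ∧ v ≠ 0 ∧ m ≠ 0 ∧ m ∈ Lc hB ρ ψ e f v := by
  simp only [PW, not_forall] at W
  obtain ⟨e, e0, he, m, hm, g, hg, ne⟩ := W
  obtain ⟨f, hf, hef⟩ := hB.exists_hyperbolic e0 he
  have := Module.finite_of_finite F (M := V)
  let Y : Submodule ℂ M := Ee hB ρ 1 e
  have mY : ∀ y, y ∈ Y ↔ ∀ c, c + σ c = 0 → ρ (tv hB e c) y = y := fun y => by simp [Y, mem_Ee]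
  choose γ hγ using hB.exists_eichler_param
  have inv : ∀ w : perp B (Submodule.span F {e, f}), ∀ y ∈ Y, ρ (ei hB e w (γ w)) y ∈ Y := fun w y hy => by
    have := Ee_map hB ρ 1 (ei hB e w (γ w)) hy
    rwa [(ei_mem_QE hB he (lin_mem.1 w.2).1 (hγ w)).2.1] at this
  let T : perp B (Submodule.span F {e, f}) → End ℂ Y := fun w => (ρ (ei hB e w (γ w))).restrict (inv w)
  have hT : ∀ w (y : Y), (T w y : M) = ρ (ei hB e w (γ w)) y := fun _ _ => rfl
  obtain ⟨w₀, γ₀, a1, a2, a3, rfl⟩ := exists_ei hB he hf hef hg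
  by_contra H
  refine ne (sub_eq_zero.1 ?_)
  refine eig_ind T (LinearMap.ext fun y => Subtype.ext ?_) (fun a b => LinearMap.ext fun y => Subtype.ext ?_) (Y := ⊤)
    (P := ker ((ρ (ei hB e w₀ γ₀) - 1) ∘ₗ Y.subtype)) (fun _ _ _ => trivial) (fun χ y _ h => ?_) (Submodule.mem_top (x := ⟨m, (mY m).2 hm⟩))
  · rw [hT, ZeroMemClass.coe_zero, ei_zero, (mY _).1 y.2 _ (by simpa using hγ 0)]; rfl
  · rw [End.mul_apply, hT, hT, hT, ← End.mul_apply, ← map_mul, ei_mul hB he (lin_mem.1 a.2).1 (hγ _) (lin_mem.1 b.2).1 (hγ _)]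
    refine lin_par hB he (lin_mem.1 (a + b).2).1 (hγ _) ?_ ((mY _).1 y.2)
    simp only [Submodule.coe_add, map_add, map_sub, LinearMap.add_apply, hB.symm]
    linear_combination hγ a + hγ b
  · obtain ⟨v, hv⟩ := exists_vec (lin_herm hB he hef) hψ χ
    have L : (y : M) ∈ Lc hB ρ ψ e f v := fun w c h1 h2 h3 => by
      have := congrArg Subtype.val (h ⟨w, lin_mem.2 ⟨h1, h2⟩⟩)
      rw [hT, hv] at this
      exact (lin_par hB he h1 h3 (hγ w) ((mY _).1 y.2)).trans this
    by_contra n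
    refine H ⟨e, f, v, y, he, hf, hef, (lin_mem.1 v.2).1, (lin_mem.1 v.2).2, fun z => n ?_, fun z => n ?_, L⟩
    · have := L w₀ γ₀ a1 a2 a3
      rw [z] at this
      simpa [sub_eq_zero] using this
    · simp [z]

/-- simultaneous eigenspaces of the `ρ (ei e w γ_w)` for different eigenvalue functions (`eq_of_vec` in `U`);
`Module.End.independent_iInf_maxGenEigenspace_of_forall_mapsTo`, or directly: the operator
`|U|⁻¹ ∑_w ψ (-B v w) ρ (ei e w γ_w)` is `1` on `Lc v` and `0` on `Lc v'`, `v' ≠ v`. -/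
theorem Lc_indep (hψ : ψ ≠ 1) (he : B e e = 0) (hf : B f f = 0) (hef : B e f = 1) :
    iSupIndep fun v : {v : V // B e v = 0 ∧ B f v = 0} => Lc hB ρ ψ e f v := by
  choose γ hγ using hB.exists_eichler_param
  have := Module.finite_of_finite F (M := V)
  have := Fintype.ofFinite (perp B (Submodule.span F {e, f}))
  intro v
  let A : End ℂ M := ∑ w : perp B (Submodule.span F {e, f}), ψ (-B v w) • ρ (ei hB e w (γ w))
  have hA : ∀ v' : V, ∀ m ∈ Lc hB ρ ψ e f v', A m = (∑ w : perp B (Submodule.span F {e, f}), ψ (B (v' - v) w)) • m := fun v' m hm => by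
    simp only [A, LinearMap.sum_apply, LinearMap.smul_apply, Finset.sum_smul]
    refine Finset.sum_congr rfl fun w _ => ?_
    rw [hm _ _ (lin_mem.1 w.2).1 (lin_mem.1 w.2).2 (hγ w), smul_smul, ← AddChar.map_add_eq_mul, map_sub, LinearMap.sub_apply,
      neg_add_eq_sub]
  refine Disjoint.mono_right (c := ker A) (iSup₂_le fun v' ne m hm => ?_) (Submodule.disjoint_def.2 fun m hm z => ?_)
  · rw [mem_ker, hA v' m hm]
    refine smul_eq_zero_of_left ((AddChar.sum_eq_zero_iff_ne_zero (ψ := ψ.compAddMonoidHom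
      ((B (v' - v)).comp (perp B (Submodule.span F {e, f})).subtype).toAddMonoidHom)).2 fun z => ne ?_) m
    have := eq_of_vec (lin_herm hB he hef) hψ (v := ⟨v', lin_mem.2 v'.2⟩ - ⟨v, lin_mem.2 v.2⟩) (v' := 0) fun w => by
      simpa [domRestrict₁₂_apply] using DFunLike.congr_fun z w
    exact Subtype.ext (by simpa using congrArg Subtype.val (sub_eq_zero.1 this))
  · rw [mem_ker, hA v m hm] at z
    simpa using z

/-- `g` maps `U = {B e w = 0, B f w = 0}` into, so onto itself; `g⁻¹ ei e w γ g = ei (σ a e) (g⁻¹ w) γ =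
ei e (a g⁻¹ w) γ` (`conj_ei`, `eichler_smul`), and `B v (a g⁻¹ w) = B (σ a g v) w`. -/
theorem Lc_map (he : B e e = 0) {g : SUG B} {a : F} (ha : a * σ a = 1) (hg : g.1 e = a • e)
    (hU : ∀ w, B e w = 0 → B f w = 0 → B f (g.1 w) = 0) {v : V} {m : M} (hm : m ∈ Lc hB ρ ψ e f v) :
    ρ g m ∈ Lc hB ρ ψ e f (σ a • g.1 v) := by
  intro w γ h1 h2 h3
  have := Module.finite_of_finite F (M := V)
  have a0 : a ≠ 0 := by rintro rfl; simp at ha
  obtain ⟨u, hu, rfl⟩ : ∃ u ∈ perp B (Submodule.span F {e, f}), g.1 u = w := by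
    refine (Set.Finite.injOn_iff_bijOn_of_mapsTo (Set.toFinite _) fun u hu => lin_mem.2 ⟨?_, hU u (lin_mem.1 hu).1 (lin_mem.1 hu).2⟩).1
      g.1.injective.injOn |>.surjOn (lin_mem.2 ⟨h1, h2⟩)
    have := g.2.1 e u
    rw [hg, (lin_mem.1 hu).1, LinearMap.map_smulₛₗ₂, smul_eq_mul] at this
    exact (mul_eq_zero.1 this).resolve_left ((map_ne_zero σ).2 a0)
  obtain ⟨u1, u2⟩ := lin_mem.1 hu
  rw [g.2.1] at h3
  have s : B (a • u) (a • u) = B u u := by
    rw [LinearMap.map_smulₛₗ₂, map_smul, smul_eq_mul, smul_eq_mul, ← mul_assoc, mul_comm (σ a), ha, one_mul]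
  have k : ei hB e (a • u) γ = ei hB (σ a • e) u γ := by
    refine Subtype.ext ?_
    rw [ei_eq hB he (by simp [u1]) (by rwa [s]), ei_eq hB (by simp [he]) (by simp [u1]) h3]
    ext x
    simp only [eichler_apply, map_smul, LinearMap.map_smulₛₗ₂, hB.invol, smul_eq_mul, smul_smul]
    match_scalars <;> first | ring1 | linear_combination (-γ * B e x) * ha
  have c := conj_ei hB g (σ a • e) u γ
  rw [map_smul, hg, smul_smul, mul_comm (σ a), ha, one_smul, mul_inv_eq_iff_eq_mul] at c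
  rw [← End.mul_apply, ← map_mul, ← c, ← k, map_mul, End.mul_apply, hm _ _ (by simp [u1]) (by simp [u2]) (by rwa [s]), map_smul,
    LinearMap.map_smulₛₗ₂, hB.invol, g.2.1, map_smul]

/-- `exists_NT`, `exists_lin`.  For every `v' ≠ 0` in `U` with `B v' v' = B v v` some `g ∈ SUG B` fixes `e, f`
and maps `v` to `v'` (`witt_family_SUG` for `![e, f, v]`, `exists_nonisotropic_orth` in `U`), so
`Lc v' ≠ ⊥` (`Lc_map`, `a = 1`).  With `m = n - 2 ≥ 3` there are `uf q (m-1) uf q (m-2)` resp.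
`q^(m-1) uf q (m-1)` such `v'` (`card_isotropic`, `card_norm_eq`), at least `q^(m+1)`;
`Lc_indep`, `iSupIndep.subtype_ne_bot_le_finrank`. -/
theorem deg [FiniteDimensional ℂ M] (hσ : IsBar q σ) (hn : 5 ≤ finrank F V) (W : ¬ PW hB ρ) :
    q ^ (finrank F V - 1) ≤ finrank ℂ M := by
  obtain ⟨ψ, hψ⟩ := exists_NT hσ
  obtain ⟨e, f, v, m, he, hf, hef, ev, fv, v0, m0, hm⟩ := exists_lin hB hψ.ne_one W
  have := Module.finite_of_finite F (M := V)
  have hU := lin_herm hB he hef
  have fe : B f e = 1 := by rw [← hB.symm, hef, map_one]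
  have rk : finrank F (perp B (Submodule.span F {e, f})) = finrank F V - 2 := by
    rw [hB.finrank_perp, finrank_span_pair_of_linearIndependent (linearIndependent_pair_of_gram (lin_gram hB he hef))]
  have li : ∀ x, B e x = 0 → B f x = 0 → x ≠ 0 → LinearIndependent F ![e, f, x] := fun x h1 h2 x0 => by
    refine Fintype.linearIndependent_iff.2 fun c hc => ?_
    simp only [Fin.sum_univ_three, Matrix.cons_val] at hc
    have a := congrArg (B e) hc; have b := congrArg (B f) hc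
    simp only [map_add, map_smul, he, hf, hef, fe, h1, h2, smul_eq_mul, mul_zero, mul_one, add_zero, zero_add, map_zero] at a b
    rw [a, b, zero_smul, zero_smul, zero_add, zero_add, smul_eq_zero] at hc
    intro i; fin_cases i
    exacts [b, a, hc.resolve_right x0]
  have nb : ∀ x : perp B (Submodule.span F {e, f}), x ≠ 0 → B x x = B v v → Lc hB ρ ψ e f x ≠ ⊥ := fun x x0 hx => by
    obtain ⟨x1, x2⟩ := lin_mem.1 x.2
    obtain ⟨z, z0, hz⟩ := hU.exists_nonisotropic_orth (by omega) x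
    obtain ⟨z1, z2⟩ := lin_mem.1 z.2
    obtain ⟨g, hg, k⟩ := hB.witt_family_SUG (li v ev fv v0) (li x x1 x2 fun z => x0 (Subtype.ext z)) (fun i j => by
      fin_cases i <;> fin_cases j <;> simp [ev, fv, x1, x2, hx, hB.eq_zero_comm.1 ev, hB.eq_zero_comm.1 fv, hB.eq_zero_comm.1 x1,
        hB.eq_zero_comm.1 x2]) (z := z) z0 fun i => by
      fin_cases i
      exacts [hB.eq_zero_comm.1 z1, hB.eq_zero_comm.1 z2, hB.eq_zero_comm.1 hz]
    have k0 : g e = e := k 0
    have k1 : g f = f := k 1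
    have k2 : g v = x := k 2
    have := Lc_map hB he (g := ⟨g, hg⟩) (a := 1) (by simp) (by simpa using k0)
      (fun w _ h => by rw [← h, ← hg.1 f w, k1]) hm
    rw [map_one, one_smul] at this
    refine (Submodule.ne_bot_iff _).2 ⟨_, k2 ▸ this, fun z => m0 ?_⟩
    have := congrArg (ρ (⟨g, hg⟩ : SUG B)⁻¹) z
    rwa [← End.mul_apply, ← map_mul, inv_mul_cancel, map_one, map_zero] at this
  have le : Nat.card {x : perp B (Submodule.span F {e, f}) // x ≠ 0 ∧ B x x = B v v} ≤ finrank ℂ M := by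
    classical
    have := Fintype.ofFinite {x : {v : V // B e v = 0 ∧ B f v = 0} // Lc hB ρ ψ e f x ≠ ⊥}
    refine le_trans ?_ (Lc_indep hB (ρ := ρ) hψ.ne_one he hf hef).subtype_ne_bot_le_finrank
    rw [← Nat.card_eq_fintype_card]
    exact Nat.card_le_card_of_injective (fun x => ⟨⟨x.1, lin_mem.1 x.1.2⟩, nb _ x.2.1 x.2.2⟩) fun x y h =>
      Subtype.ext (Subtype.ext (congrArg (fun z => z.1.1) h))
  refine le_trans ?_ le
  obtain ⟨n, hn'⟩ : ∃ n, finrank F V = n + 5 := ⟨finrank F V - 5, by omega⟩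
  have q2 := hσ.two_le
  have u1 : ∀ i, q ^ (i + 1) ≤ uf q i + 1 := fun i => by unfold uf; split_ifs <;> omega
  have p : 1 ≤ q ^ n := Nat.one_le_pow _ _ (by omega)
  rw [hn', show n + 5 - 1 = n + 4 by omega]
  by_cases z : B v v = 0
  · have c := hU.card_isotropic hσ (n := n + 1) (by omega)
    have c2 : Nat.card {x : perp B (Submodule.span F {e, f}) // x ≠ 0 ∧ B x x = B v v} + 1 =
        Nat.card {x : perp B (Submodule.span F {e, f}) // B x x = 0} := by
      rw [z]
      exact (congrArg (· + 1) (Nat.card_congr (Equiv.subtypeEquivRight fun x => and_comm))).trans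
        (Set.ncard_sdiff_singleton_add_one (s := {x : perp B (Submodule.span F {e, f}) | B x x = 0}) (a := 0) (by simp))
    rw [Nat.add_right_cancel (c2.trans c)]
    have a := u1 (n + 1 + 1); have b := u1 (n + 1)
    have t : q ^ 2 ≤ q ^ (n + 1 + 1) := Nat.pow_le_pow_right (by omega) (by omega)
    have t' : q ^ 2 ≤ q ^ (n + 1 + 1 + 1) := Nat.pow_le_pow_right (by omega) (by omega)
    have t2 : q + 2 ≤ q ^ 2 := by nlinarith
    have := Nat.mul_le_mul_left (uf q (n + 1 + 1)) (show q + 1 ≤ uf q (n + 1) by omega)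
    have := Nat.mul_le_mul_right q a
    rw [show n + 4 = n + 1 + 1 + 1 + 1 by omega, pow_succ]
    nlinarith
  · have c := hU.card_norm_eq hσ (n := n + 2) (by omega) z (hB.symm v v)
    rw [Nat.card_congr (Equiv.subtypeEquivRight (p := fun x : perp B (Submodule.span F {e, f}) => x ≠ 0 ∧ B x x = B v v)
      (q := fun x => B x x = B v v) fun x => and_iff_right_of_imp fun h x0 => z (by rw [← h, x0]; simp))]
    refine le_trans ?_ c.ge
    have := u1 (n + 2)
    have t : q ^ 2 + 1 ≤ q ^ (n + 2 + 1) := Nat.pow_lt_pow_right (by omega) (by omega)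
    rw [show n + 4 = n + 2 + 2 by omega, pow_add]
    exact Nat.mul_le_mul_left _ (by omega)

end Cfsg.Lib.CW
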