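import Cfsg.Agent.Lib.CW.Def
import Cfsg.Agent.Lib.Unitary.Wall4

/-! # The norm one group of `F[X] / φ^k` -/

set_option autoImplicit false

namespace Cfsg.Lib.CW

open Module Polynomial Cfsg.Lib.Unitary Cfsg.Lib.GLC

variable {F : Type*} [Field F] [Fintype F] {σ : F →+* F} {q : ℕ}

/-- counting with Hilbert's theorem 90 -/
theorem loc_hilb {R : Type*} [CommRing R] (τ : R →+* R) (P D : R → Prop) (hmul : ∀ a b, P a → P b → P (a * b))
    (hdiv : ∀ a b, P a → P (a * b) → P b) (hu : ∀ a, P a → IsUnit a) (hD : ∀ h, D h ↔ ∃ c, P c ∧ c = h * τ c) :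
    Nat.card {c // P c} = Nat.card {c // P c ∧ τ c = c} * Nat.card {h // D h} := by
  choose c0 h0 e0 using fun h : {h // D h} => (hD h.1).1 h.2
  rw [← Nat.card_prod]
  refine (Nat.card_eq_of_bijective (fun x : {c // P c ∧ τ c = c} × {h // D h} =>
    (⟨c0 x.2 * x.1.1, hmul _ _ (h0 _) x.1.2.1⟩ : {c // P c})) ⟨fun x y e => ?_, fun c => ?_⟩).symm
  · have k : ∀ x : {c // P c ∧ τ c = c} × {h // D h}, c0 x.2 * x.1.1 = x.2.1 * τ (c0 x.2 * x.1.1) := fun x => by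
      rw [map_mul, x.1.2.2, ← mul_assoc, ← e0]
    have e1 : c0 x.2 * x.1.1 = c0 y.2 * y.1.1 := congrArg Subtype.val e
    have e2 : x.2 = y.2 := Subtype.ext (((hu _ (hmul _ _ (h0 _) y.1.2.1)).map τ).mul_right_cancel
      (by rw [← k y, ← e1, ← k x]))
    rw [e2] at e1
    exact Prod.ext (Subtype.ext ((hu _ (h0 _)).mul_left_cancel e1)) e2
  · obtain ⟨v, hv⟩ := ((hu _ c.2).map τ).exists_left_inv
    have e4 : c.1 = c.1 * v * τ c.1 := by rw [mul_assoc, hv, mul_one]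
    let h : {h // D h} := ⟨c.1 * v, (hD _).2 ⟨c, c.2, e4⟩⟩
    obtain ⟨w, e1⟩ := (hu _ (h0 h)).exists_right_inv
    have e2 : τ (c0 h) * τ w = 1 := by rw [← map_mul, e1, map_one]
    have e3 : c0 h = c.1 * v * τ (c0 h) := e0 h
    have e5 : c0 h * (w * c.1) = c.1 := by rw [← mul_assoc, e1, one_mul]
    refine ⟨(⟨w * c.1, hdiv _ _ (h0 h) (e5.symm ▸ c.2), ?_⟩, h), Subtype.ext e5⟩
    rw [map_mul]
    linear_combination (-(τ w * τ c.1)) * e1 + (w * τ w * τ c.1) * e3 + (w * (c.1 * v) * τ c.1) * e2 - w * e4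

theorem loc_split {R : Type*} [Finite R] (A p : R → Prop) :
    Nat.card {x // A x} = Nat.card {x // ¬ p x ∧ A x} + Nat.card {x // p x ∧ A x} := by
  have := Set.ncard_inter_add_ncard_diff_eq_ncard {x | A x} {x | ¬ p x}
  refine this.symm.trans ?_
  congr 1 <;> refine Nat.card_congr (Equiv.subtypeEquivRight fun x => ?_) <;> simp [and_comm]

omit [Fintype F] in
theorem loc_dvd {φ P : F[X]} {k j : ℕ} (hj : j ≤ k) : AdjoinRoot.mk (φ ^ k) φ ^ j ∣ AdjoinRoot.mk (φ ^ k) P ↔ φ ^ j ∣ P := by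
  rw [← map_pow]
  refine ⟨fun ⟨t, ht⟩ => ?_, map_dvd _⟩
  obtain ⟨T, rfl⟩ := AdjoinRoot.mk_surjective t
  rw [← map_mul, AdjoinRoot.mk_eq_mk] at ht
  simpa using dvd_add ((pow_dvd_pow φ hj).trans ht) (dvd_mul_right (φ ^ j) T)

omit [Fintype F] in
theorem loc_val {φ : F[X]} (h2 : Irreducible φ) {k : ℕ} (x : AdjoinRoot (φ ^ k)) : ∃ i ≤ k,
    finrank F (LinearMap.ker (Algebra.lmul F (AdjoinRoot (φ ^ k)) x)) = i * φ.natDegree ∧
      ∀ j ≤ k, AdjoinRoot.mk (φ ^ k) φ ^ j ∣ x ↔ j ≤ i := by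
  obtain ⟨P, rfl⟩ := AdjoinRoot.mk_surjective x
  have h0 := pow_ne_zero k h2.ne_zero
  rw [← aeval_cyc]
  by_cases c : φ ^ k ∣ P
  · exact ⟨k, le_rfl, (kd_cyc_of_dvd h0 c).trans (natDegree_pow _ _), fun j hj =>
      (loc_dvd hj).trans (iff_of_true ((pow_dvd_pow φ hj).trans c) hj)⟩
  obtain ⟨i, u, hu, rfl⟩ := WfDvdMonoid.max_power_factor (a₀ := P) (fun e => c (e ▸ dvd_zero _)) h2
  have hi : i ≤ k := by
    by_contra n
    exact c ((pow_dvd_pow φ (by omega)).mul_right u)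
  obtain ⟨d, rfl⟩ := Nat.exists_eq_add_of_le hi
  obtain ⟨a, b, e⟩ := (h2.coprime_iff_not_dvd.2 hu).pow_left (m := d)
  refine ⟨i, hi, (kd_cyc (G := φ ^ i) (a := a) (b := b) h0 (pow_dvd_pow φ hi) (dvd_mul_right _ u)
    (by rw [pow_add]; linear_combination φ ^ i * e)).trans (natDegree_pow _ _), fun j hj =>
      (loc_dvd hj).trans ⟨fun h => ?_, fun h => (pow_dvd_pow φ h).mul_right u⟩⟩
  by_contra n
  have := (pow_dvd_pow φ (show i + 1 ≤ j by omega)).trans h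
  rw [pow_succ, mul_dvd_mul_iff_left (pow_ne_zero i h2.ne_zero)] at this
  exact hu this

omit [Fintype F] in
theorem loc_unit {φ : F[X]} (h2 : Irreducible φ) {k : ℕ} (hk : 1 ≤ k) (x : AdjoinRoot (φ ^ k)) :
    IsUnit x ↔ ¬ AdjoinRoot.mk (φ ^ k) φ ∣ x := by
  have l : ∀ P, AdjoinRoot.mk (φ ^ k) φ ∣ AdjoinRoot.mk (φ ^ k) P ↔ φ ∣ P := fun P => by simpa using loc_dvd (φ := φ) (P := P) hk
  refine ⟨fun h d => h2.not_dvd_one ((l 1).1 (d.trans (map_one (AdjoinRoot.mk (φ ^ k)) ▸ h.dvd))), fun h => ?_⟩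
  obtain ⟨P, rfl⟩ := AdjoinRoot.mk_surjective x
  obtain ⟨a, b, e⟩ := (h2.coprime_iff_not_dvd.2 (mt (l P).2 h)).pow_left (m := k)
  have := congrArg (AdjoinRoot.mk (φ ^ k)) e
  rw [map_add, map_mul, AdjoinRoot.mk_self, mul_zero, zero_add, map_mul, map_one] at this
  exact IsUnit.of_mul_eq_one_right _ this

theorem loc_card (hσ : IsBar q σ) {φ : F[X]} (h2 : Irreducible φ) {k j : ℕ} (hj : j ≤ k) (τ : AdjoinRoot (φ ^ k) →+* AdjoinRoot (φ ^ k))
    (hτ : ∀ x, τ (τ x) = x) (hc : ∀ c, τ (algebraMap F _ c) = algebraMap F _ (σ c))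
    (hs : ∀ x, AdjoinRoot.mk (φ ^ k) φ ^ j ∣ x → AdjoinRoot.mk (φ ^ k) φ ^ j ∣ τ x) :
    Nat.card {x // AdjoinRoot.mk (φ ^ k) φ ^ j ∣ x} = ((q ^ φ.natDegree) ^ (k - j)) ^ 2 ∧
      Nat.card {x // AdjoinRoot.mk (φ ^ k) φ ^ j ∣ x ∧ τ x = x} = (q ^ φ.natDegree) ^ (k - j) := by
  have h0 := pow_ne_zero k h2.ne_zero
  have := (AdjoinRoot.powerBasis h0).finite
  let I := LinearMap.range (Algebra.lmul F (AdjoinRoot (φ ^ k)) (AdjoinRoot.mk (φ ^ k) φ ^ j))
  have mI : ∀ x, x ∈ I ↔ AdjoinRoot.mk (φ ^ k) φ ^ j ∣ x := fun x => exists_congr fun _ => eq_comm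
  have fI : finrank F I = φ.natDegree * (k - j) := by
    have e := LinearMap.finrank_range_add_finrank_ker (Algebra.lmul F (AdjoinRoot (φ ^ k)) (AdjoinRoot.mk (φ ^ k) φ ^ j))
    have e2 := kd_cyc_pow h2.ne_zero k j
    rw [kd, aeval_cyc, map_pow, min_eq_right hj] at e2
    rw [e2, finrank_adjoinRoot, natDegree_pow] at e
    obtain ⟨d, rfl⟩ := Nat.exists_eq_add_of_le hj
    rw [Nat.add_sub_cancel_left]
    exact Nat.add_right_cancel (e.trans (by ring))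
  have cI : Nat.card I = ((q ^ φ.natDegree) ^ (k - j)) ^ 2 := by
    rw [Module.natCard_eq_pow_finrank (K := F), fI, hσ.card]; ring
  refine ⟨(Nat.card_congr (Equiv.subtypeEquivRight mI)).symm.trans cI, ?_⟩
  have e := hσ.card_fixed_sq (V := I) ((τ.toAddMonoidHom.comp I.subtype.toAddMonoidHom).codRestrict I
    fun x => (mI _).2 (hs _ ((mI _).1 x.2))) (fun c v => Subtype.ext (by
      change τ (c • v.1) = σ c • τ v.1
      rw [Algebra.smul_def, map_mul, hc, Algebra.smul_def])) fun v => Subtype.ext (hτ v.1)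
  rw [cI] at e
  rw [← Nat.pow_left_injective two_ne_zero e]
  exact Nat.card_congr ⟨fun x => ⟨⟨x.1, (mI _).2 x.2.1⟩, Subtype.ext x.2.2⟩,
    fun y => ⟨y.1.1, (mI _).1 y.1.2, congrArg Subtype.val y.2⟩, fun _ => rfl, fun _ => rfl⟩

/-- `R = F[X]/φ^k`, `a = deg φ` and `k` are odd, `Q = q^a`, `s = mk φ`, `I_j = (s^j)`, `|I_j| = Q^(2(k-j))`
(`j ≤ k`); non-units are the elements of `I_1` (`φ` irreducible); `τ s` is nilpotent, so it lies in `I_1`
and `τ` preserves every `I_j`; `|{x ∈ I_j | τ x = x}| = Q^(k-j)` (`IsBar.card_fixed_sq`).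
`D_j = {h | h τ h = 1, h - 1 ∈ I_j}`.  `c ↦ c / τ c` maps the units onto `D_0`
(`Unitary.exists_unit_eq_mul_invol`, `ω ∈ F` with `σ ω ≠ ω`) with kernel the fixed units, so
`|D_0| = (Q^(2k) - Q^(2k-2)) / (Q^k - Q^(k-1)) = Q^k + Q^(k-1)`; for `j ≥ 1` it maps the group `1 + I_j`
onto `D_j` (`c = 1 + (h - 1) τ θ = θ + h τ θ`, `θ + σ θ = 1`, has `c = h τ c`) with kernel the fixed
elements, so `|D_j| = Q^(k-j)`.  For `h - 1 ∈ I_i - I_(i+1)` (`h - 1 = mk (u φ^i)`, `u` prime to `φ`;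
`i = k` for `h = 1`) the kernel has dimension `a i` (`GLC.kd_cyc`, `aeval_cyc`, `kd_cyc_pow`), and
`(-q)^(a i) = (-Q)^i = ∑_(j ≤ i) d_j`, `d_0 = 1`, `d_j = (-Q)^j - (-Q)^(j-1)`.  So the sum is
`∑_(j ≤ k) d_j |D_j| = (Q^k + Q^(k-1)) ∑_(j ≤ k) (-1)^j = 0`. -/
theorem loc_sum (hσ : IsBar q σ) {φ : F[X]} (h1 : φ.Monic) (h2 : Irreducible φ) {k : ℕ}
    (hk : Odd (φ ^ k).natDegree) (τ : AdjoinRoot (φ ^ k) →+* AdjoinRoot (φ ^ k))
    (hτ : ∀ x, τ (τ x) = x) (hc : ∀ c, τ (algebraMap F _ c) = algebraMap F _ (σ c)) :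
    ∑ᶠ h : {h : AdjoinRoot (φ ^ k) // h * τ h = 1},
      (-(q : ℂ)) ^ finrank F (LinearMap.ker (Algebra.lmul F (AdjoinRoot (φ ^ k)) (h.1 - 1))) = 0 := by
  classical
  have h0 := pow_ne_zero k h2.ne_zero
  have := (AdjoinRoot.powerBasis h0).finite
  have : Finite (AdjoinRoot (φ ^ k)) := Module.finite_of_finite F
  rw [natDegree_pow, Nat.odd_mul] at hk
  have k1 : 1 ≤ k := hk.1.pos
  have hu := loc_unit h2 k1
  have hv := loc_val h2 (k := k)
  have hcard := fun j hj => loc_card hσ h2 (j := j) hj τ hτ hc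
  have s0 : AdjoinRoot.mk (φ ^ k) φ ^ k = 0 := by rw [← map_pow, AdjoinRoot.mk_self]
  generalize AdjoinRoot.mk (φ ^ k) φ = s at hu hv hcard s0
  have n1 : ¬ s ∣ 1 := (hu 1).1 isUnit_one
  have ts : s ∣ τ s := by
    by_contra n
    have := ((hu _).2 n).pow k
    rw [← map_pow, s0, map_zero] at this
    exact (hu 0).1 this (dvd_zero s)
  have hs : ∀ j x, s ^ j ∣ x → s ^ j ∣ τ x := fun j x d => (pow_dvd_pow_of_dvd ts j).trans (map_pow τ s j ▸ map_dvd τ d)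
  have hQ : 2 ≤ q ^ φ.natDegree := hσ.two_le.trans (Nat.le_self_pow hk.2.pos.ne' q)
  have eQ : (-(q : ℂ)) ^ φ.natDegree = -((q ^ φ.natDegree : ℕ) : ℂ) := by rw [hk.2.neg_pow, Nat.cast_pow]
  generalize q ^ φ.natDegree = Q at hcard hQ eQ
  have no : ∀ h c : AdjoinRoot (φ ^ k), IsUnit c → c = h * τ c → h * τ h = 1 := fun h c u e => by
    have e' := congrArg τ e
    rw [map_mul, hτ] at e'
    exact u.mul_right_cancel (by rw [one_mul, mul_assoc, ← e', ← e])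
  obtain ⟨m, rfl⟩ := Nat.exists_eq_add_of_le' k1
  have N0 : Nat.card {h : AdjoinRoot (φ ^ (m + 1)) // h * τ h = 1} = Q ^ (m + 1) + Q ^ m := by
    obtain ⟨ω, hω⟩ := hσ.exists_ne
    have e := loc_hilb τ IsUnit (fun h => h * τ h = 1) (fun _ _ => IsUnit.mul) (fun _ _ _ => isUnit_of_mul_isUnit_right)
      (fun _ => id) fun h => ⟨exists_unit_eq_mul_invol τ hτ (ω := algebraMap F _ ω) (by
        rw [hc, ← map_sub]; exact (sub_ne_zero.2 hω.symm).isUnit.map _), fun ⟨c, u, e⟩ => no h c u e⟩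
    obtain ⟨a0, b0⟩ := hcard 0 (by omega) (hs 0)
    obtain ⟨a1, b1⟩ := hcard 1 (by omega) (hs 1)
    have e1 := loc_split (fun _ => True) (s ∣ ·)
    have e2 := loc_split (fun x => τ x = x) (s ∣ ·)
    simp only [pow_zero, one_dvd, true_and, pow_one, Nat.sub_zero, Nat.add_sub_cancel] at a0 b0 a1 b1
    simp only [and_true, ← hu] at e1 e2
    rw [a0, a1, e] at e1
    rw [b0, b1] at e2
    have : Q ^ m < Q ^ (m + 1) := Nat.pow_lt_pow_right (show 1 < Q by omega) m.lt_succ_self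
    generalize Nat.card {c // IsUnit c ∧ τ c = c} = U at e e1 e2
    refine Nat.eq_of_mul_eq_mul_left (show 0 < U by omega) (Nat.add_right_cancel (e1.symm.trans ?_))
    rw [e2]; ring
  have Nj : ∀ j < m + 1, Nat.card {h : AdjoinRoot (φ ^ (m + 1)) // h * τ h = 1 ∧ s ^ (j + 1) ∣ h - 1} = Q ^ (m - j) := fun j hj => by
    obtain ⟨θ, hθ⟩ := hσ.exists_trace_eq (map_one σ)
    have eθ : algebraMap F (AdjoinRoot (φ ^ (m + 1))) θ + τ (algebraMap F _ θ) = 1 := by rw [hc, ← map_add, hθ, map_one]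
    generalize algebraMap F (AdjoinRoot (φ ^ (m + 1))) θ = t at eθ
    have un : ∀ a, s ^ (j + 1) ∣ a - 1 → IsUnit a := fun a d => (hu a).2 fun e =>
      n1 (by simpa using dvd_sub e ((dvd_pow_self s j.succ_ne_zero).trans d))
    have e := loc_hilb τ (fun a => s ^ (j + 1) ∣ a - 1) (fun h => h * τ h = 1 ∧ s ^ (j + 1) ∣ h - 1)
      (fun a b x y => by convert dvd_add (x.mul_right b) y using 1; ring)
      (fun a b x y => by convert dvd_sub y (x.mul_right b) using 1; ring) un fun h =>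
      ⟨fun ⟨x, y⟩ => ⟨1 + (h - 1) * τ t, by simpa using y.mul_right _, by
          simp only [map_add, map_mul, map_sub, map_one, hτ]; linear_combination (-t) * x + (h - 1) * eθ⟩,
        fun ⟨c, x, y⟩ => ⟨no h c (un c x) y, ((un c x).map τ).dvd_mul_right.1 (by
          have := dvd_sub x (hs _ _ x)
          rw [map_sub, map_one] at this
          convert this using 1
          linear_combination -y)⟩⟩
    obtain ⟨a, b⟩ := hcard (j + 1) hj (hs _)
    rw [Nat.card_congr ((Equiv.subRight 1).subtypeEquiv (p := fun c => s ^ (j + 1) ∣ c - 1) (q := fun x => s ^ (j + 1) ∣ x)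
        fun _ => Iff.rfl), a,
      Nat.card_congr ((Equiv.subRight 1).subtypeEquiv (p := fun c => s ^ (j + 1) ∣ c - 1 ∧ τ c = c)
        (q := fun x => s ^ (j + 1) ∣ x ∧ τ x = x) fun _ => by simp), b,
      Nat.add_sub_add_right, sq] at e
    exact (Nat.eq_of_mul_eq_mul_left (by positivity) e).symm
  have pt : ∀ x : AdjoinRoot (φ ^ (m + 1)), (-(q : ℂ)) ^ finrank F (LinearMap.ker (Algebra.lmul F _ x)) =
      1 + ∑ j ∈ Finset.range (m + 1), if s ^ (j + 1) ∣ x then (-(Q : ℂ)) ^ (j + 1) - (-(Q : ℂ)) ^ j else 0 := fun x => by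
    obtain ⟨i, hi, e, d⟩ := hv x
    rw [e, mul_comm, pow_mul, eQ, ← Finset.sum_filter, show (Finset.range (m + 1)).filter (fun j => s ^ (j + 1) ∣ x) = Finset.range i from
      Finset.ext fun j => by
        simp only [Finset.mem_filter, Finset.mem_range]
        exact ⟨fun h => (d _ h.1).1 h.2, fun h => ⟨by omega, (d _ (by omega)).2 h⟩⟩, Finset.sum_range_sub]
    ring
  have := Fintype.ofFinite {h : AdjoinRoot (φ ^ (m + 1)) // h * τ h = 1}
  simp only [finsum_eq_sum_of_fintype, pt, Finset.sum_add_distrib]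
  rw [Finset.sum_comm, Finset.sum_const, Finset.card_univ, ← Nat.card_eq_fintype_card, N0,
    Finset.sum_congr rfl (g := fun j => -((Q + 1) * (Q : ℂ) ^ m) * (-1) ^ j) fun j hj => ?_, ← Finset.mul_sum,
    neg_one_geom_sum, if_neg (Nat.not_even_iff_odd.2 hk.1)]
  · simp only [nsmul_eq_mul]; push_cast; ring
  rw [← Finset.sum_filter, Finset.sum_const, ← Fintype.card_subtype, ← Nat.card_eq_fintype_card,
    Nat.card_congr (Equiv.subtypeSubtypeEquivSubtypeInter _ fun h => s ^ (j + 1) ∣ h - 1), Nj j (Finset.mem_range.1 hj)]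
  obtain ⟨d, rfl⟩ := Nat.exists_eq_add_of_le (Nat.lt_succ_iff.1 (Finset.mem_range.1 hj))
  rw [Nat.add_sub_cancel_left, nsmul_eq_mul, neg_pow (Q : ℂ), neg_pow (Q : ℂ)]
  push_cast; ring

end Cfsg.Lib.CW
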