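import Cfsg.Agent.Lib.CW.Def
import Cfsg.Agent.S0157

/-! # Dimension three: the Steinberg character -/

set_option autoImplicit false
set_option linter.unusedSectionVars false

namespace Cfsg.Lib.CW

open Module LinearMap Cfsg.Lib.Unitary Cfsg.Lib.US7 Cfsg.Lib.Char MulAction
open scoped Pointwise

variable {F V : Type*} [Field F] [Fintype F] [AddCommGroup V] [Module F V] [FiniteDimensional F V]
  {σ : F →+* F} {B : V →ₛₗ[σ] V →ₗ[F] F} {q : ℕ}

theorem st_smul (g : SUG B) (v : V) : g • (F ∙ v : Submodule F V) = F ∙ g.1 v := by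
  change Submodule.map _ _ = _
  rw [Submodule.map_span, Set.image_singleton]; rfl

variable (B) in
/-- the isotropic points -/
def stPt : SubMulAction (SUG B) (Submodule F V) where
  carrier := {L | ∃ v, v ≠ 0 ∧ B v v = 0 ∧ L = F ∙ v}
  smul_mem' := by
    rintro g _ ⟨v, h0, hv, rfl⟩
    exact ⟨g.1 v, by simpa using h0, (SUG_le_UG g.2 v v).trans hv, st_smul g v⟩

/-- perpendicular isotropic points coincide -/
theorem st_perp (hB : IsHerm σ B) (h3 : finrank F V = 3) {u v : V} (u0 : u ≠ 0) (v0 : v ≠ 0) (hu : B u u = 0) (hv : B v v = 0)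
    (e : B u v = 0) : (F ∙ u : Submodule F V) = F ∙ v := by
  have l := hB.two_mul_finrank_le (W := (F ∙ u) ⊔ F ∙ v) (by
    rw [perp_sup]
    simp only [sup_le_iff, le_inf_iff, Submodule.span_singleton_le_iff_mem, mem_perp_singleton]
    exact ⟨⟨hu, e⟩, hB.eq_zero_comm.1 e, hv⟩)
  have e1 := Submodule.eq_of_le_of_finrank_le (le_sup_left : (F ∙ u) ≤ (F ∙ u) ⊔ F ∙ v)
    (by rw [finrank_span_singleton u0]; omega)
  have e2 := Submodule.eq_of_le_of_finrank_le (le_sup_right : (F ∙ v) ≤ (F ∙ u) ⊔ F ∙ v)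
    (by rw [finrank_span_singleton v0]; omega)
  exact e1.trans e2.symm

theorem st_card (hσ : IsBar q σ) (hB : IsHerm σ B) (h3 : finrank F V = 3) : Nat.card (stPt B) = q ^ 3 + 1 := by
  have : Finite V := Module.finite_of_finite F
  have : Finite (Submodule F V) := Finite.of_injective _ SetLike.coe_injective
  choose r r0 ri re using fun L : stPt B => L.2
  let f : Option (stPt B × Fˣ) → {v : V // B v v = 0} := fun x =>
    x.elim ⟨0, by simp⟩ fun y => ⟨(y.2 : F) • r y.1, by simp [LinearMap.map_smulₛₗ, ri]⟩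
  have sp : ∀ y : stPt B × Fˣ, (F ∙ ((y.2 : F) • r y.1) : Submodule F V) = y.1.1 := fun y => by
    rw [Submodule.span_singleton_smul_eq y.2.isUnit, ← re]
  have hf : Function.Bijective f := by
    refine ⟨?_, fun ⟨v, hv⟩ => ?_⟩
    · rintro (_ | x) (_ | y) e
      · rfl
      · exact absurd (congrArg Subtype.val e).symm (smul_ne_zero y.2.ne_zero (r0 _))
      · exact absurd (congrArg Subtype.val e) (smul_ne_zero x.2.ne_zero (r0 _))
      · have e' : (x.2 : F) • r x.1 = (y.2 : F) • r y.1 := congrArg Subtype.val e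
        have e1 : x.1 = y.1 := Subtype.ext (by rw [← sp, e', sp])
        rw [e1] at e'
        exact congrArg some (Prod.ext e1 (Units.ext (smul_left_injective F (r0 _) e')))
    · by_cases v0 : v = 0
      · exact ⟨none, Subtype.ext v0.symm⟩
      let L : stPt B := ⟨F ∙ v, v, v0, hv, rfl⟩
      obtain ⟨a, ha⟩ := Submodule.mem_span_singleton.1 (re L ▸ Submodule.mem_span_singleton_self v : v ∈ F ∙ r L)
      exact ⟨some (L, Units.mk0 a fun e => v0 (by rw [← ha, e, zero_smul])), Subtype.ext ha⟩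
  have e := Nat.card_congr (Equiv.ofBijective f hf)
  rw [hB.card_isotropic hσ (n := 1) h3, Finite.card_option, Nat.card_prod, Nat.card_units, hσ.card, add_left_inj] at e
  have h2 := hσ.two_le
  have p : 0 < q ^ 2 - 1 := by have := Nat.pow_le_pow_left h2 2; omega
  exact Nat.eq_of_mul_eq_mul_right p (by rw [e]; simp [uf])

theorem exists_st' (hσ : IsBar q σ) (hB : IsHerm σ B) (h3 : finrank F V = 3) :
    ∃ b : SUG B → ℂ, IsIrrCharacter (SUG B) b ∧ b 1 = (q ^ 3 : ℕ) ∧ ∀ h : SUG B, Irr h.1 → b h = -1 := by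
  have : Finite V := Module.finite_of_finite F
  have : Finite (Submodule F V) := Finite.of_injective _ SetLike.coe_injective
  have := finite_linearEquiv (F := F) (V := V)
  have c := st_card hσ hB h3
  have t2 : IsMultiplyPretransitive (SUG B) (stPt B) 2 := by
    refine is_two_pretransitive_iff.2 ?_
    rintro ⟨_, u, u0, hu, rfl⟩ ⟨_, v, v0, hv, rfl⟩ ⟨_, u', u0', hu', rfl⟩ ⟨_, v', v0', hv', rfl⟩ n n'
    obtain ⟨g, hg, rfl⟩ := hB.exists_SUG_vec h3.ge u0 u0' (hu.trans hu'.symm)
    obtain ⟨t, ht, a, a0, e⟩ := hB.ptRel_QE hu' (u := g v) ((SUG_le_UG hg v v).trans hv) hv'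
      (fun e => n (Subtype.ext (st_perp hB h3 u0 v0 hu hv ((SUG_le_UG hg u v).symm.trans e))))
      (fun e => n' (Subtype.ext (st_perp hB h3 u0' v0' hu' hv' e)))
    refine ⟨⟨t * g, mul_mem (hB.QE_le_SUG u0' hu' ht) hg⟩, Subtype.ext ((st_smul _ u).trans ?_),
      Subtype.ext ((st_smul _ v).trans ?_)⟩
    · change (F ∙ t (g u)) = F ∙ g u
      rw [ht.2.1]
    · change (F ∙ t (g v)) = F ∙ v'
      rw [e, Submodule.span_singleton_smul_eq a0.isUnit]
  have : IsPretransitive (SUG B) (stPt B) := isPretransitive_of_is_two_pretransitive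
  refine ⟨_, (Agent.S0157.result (stPt B) (by rw [c]; have := pow_pos (by have := hσ.two_le; omega : 0 < q) 3; omega)).2 t2,
    by simp [c], fun h hh => ?_⟩
  have : IsEmpty (fixedBy (stPt B) h) := ⟨by
    rintro ⟨⟨_, v, v0, hv, rfl⟩, e⟩
    have e' : (F ∙ h.1 v : Submodule F V) = F ∙ v := (st_smul h v).symm.trans (congrArg Subtype.val e)
    rcases hh (F ∙ v) (fun w hw => by
      obtain ⟨a, rfl⟩ := Submodule.mem_span_singleton.1 hw
      rw [map_smul, ← e']
      exact Submodule.smul_mem _ _ (Submodule.mem_span_singleton_self _)) with k | k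
    · exact v0 (Submodule.span_singleton_eq_bot.1 k)
    · have := finrank_span_singleton (K := F) v0
      rw [k, finrank_top] at this
      omega⟩
  simp

end Cfsg.Lib.CW
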