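import Cfsg.Agent.Lib.CW.Irr
import Cfsg.Agent.Lib.CW.N3s
import Cfsg.Agent.Lib.CharDeg.PermChar

/-! # Dimension three -/

set_option autoImplicit false

namespace Cfsg.Lib.CW

open Module LinearMap Cfsg.Lib.Unitary Cfsg.Lib.US7 Cfsg.Lib.Char

variable {F V : Type*} [Field F] [Fintype F] [AddCommGroup V] [Module F V] [FiniteDimensional F V]
  {σ : F →+* F} {B : V →ₛₗ[σ] V →ₗ[F] F} {q : ℕ}
  (hσ : IsBar q σ) (hB : IsHerm σ B) (h3 : finrank F V = 3) (hc : (finrank F V).Coprime (q + 1))
include hσ hB h3 hc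

/-- An invariant line of `h` makes it scalar (`Irr.eq_smul`, `eq_one_of_smul`); the perp of an invariant
plane is an invariant line (`mem_subStab_of_le`, `perp_mem_subStab`). -/
theorem irr_of_comm {t h : SUG B} (ht : Irr t.1) (hh : h * t = t * h) (h1 : h ≠ 1) : Irr h.1 := by
  have hh' : h.1 * t.1 = t.1 * h.1 := congrArg Subtype.val hh
  have key : ∀ W : Submodule F V, (∀ v ∈ W, h.1 v ∈ W) → finrank F W ≠ 1 := fun W hW hd => by
    obtain ⟨⟨v, hv⟩, hv0, hs⟩ := finrank_eq_one_iff'.1 hd
    obtain ⟨a, ha⟩ := hs ⟨_, hW v hv⟩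
    exact h1 (eq_one_of_smul hσ hB hc (ht.eq_smul hh' (v := v) (fun e => hv0 (Subtype.ext e))
      (congrArg Subtype.val ha).symm))
  intro W hW
  have h4 := key W hW
  have h5 := key (perp B W) fun v hv => (perp_mem_subStab h.2.1 (mem_subStab_of_le hW) v).1 hv
  have h6 := hB.finrank_add_finrank_perp W
  by_cases h0 : finrank F W = 0
  · exact Or.inl (Submodule.finrank_eq_zero.1 h0)
  · exact Or.inr (Submodule.eq_top_of_finrank_eq (by omega))

omit hσ hB h3 hc [Fintype F] [FiniteDimensional F V] in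
theorem comm_aeval {x t : End F V} (h : Commute x t) (p : Polynomial F) :
    Commute x (Polynomial.aeval t p) := by
  rw [Polynomial.aeval_eq_sum_range]
  exact Commute.sum_right _ _ _ fun i _ => (h.pow_right i).smul_right _

omit hσ hB h3 hc in
/-- For `v ≠ 0` the space `F[t] v` is invariant, so it is `V`: `x v = p(t) v`, and then `x = p(t)` on
`V = F[t] v`. -/
theorem Irr.exists_aeval {t x : V ≃ₗ[F] V} (ht : Irr t) (hx : x * t = t * x) :
    ∃ p : Polynomial F, (x : End F V) = Polynomial.aeval (t : End F V) p := by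
  rcases subsingleton_or_nontrivial V with _ | _
  · exact ⟨0, Subsingleton.elim _ _⟩
  obtain ⟨v, hv⟩ := exists_ne (0 : V)
  let φ : Polynomial F →ₗ[F] V := LinearMap.applyₗ v ∘ₗ (Polynomial.aeval (t : End F V)).toLinearMap
  have hφ : ∀ p, φ p = Polynomial.aeval (t : End F V) p v := fun _ => rfl
  have hT : range φ = ⊤ := (ht _ (by
    rintro _ ⟨p, rfl⟩
    exact ⟨Polynomial.X * p, by simp [hφ]⟩)).resolve_left fun h0 =>
      hv ((Submodule.mem_bot F).1 (h0 ▸ ⟨1, by simp [hφ]⟩))
  have hxt : Commute (x : End F V) (t : End F V) :=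
    LinearMap.ext fun w => LinearEquiv.congr_fun hx w
  obtain ⟨p, hp⟩ := range_eq_top.1 hT (x v)
  refine ⟨p, LinearMap.ext fun w => ?_⟩
  obtain ⟨r, rfl⟩ := range_eq_top.1 hT w
  have h1 : Commute (x : End F V) (Polynomial.aeval (t : End F V) r) := comm_aeval hxt r
  rw [hφ] at hp ⊢
  rw [← End.mul_apply, h1.eq, End.mul_apply, LinearEquiv.coe_coe, ← hp, ← End.mul_apply,
    ← End.mul_apply, ← map_mul, ← map_mul, mul_comm]

/-- `h` is a polynomial in `t` and (`irr_of_comm`) `t` is a polynomial in `h` -/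
theorem cent_eq {t h : SUG B} (ht : Irr t.1) (hh : h ∈ Subgroup.centralizer ({t} : Set (SUG B)))
    (h1 : h ≠ 1) : Subgroup.centralizer ({h} : Set (SUG B)) = Subgroup.centralizer {t} := by
  have key : ∀ {a b : SUG B}, Irr a.1 → b * a = a * b →
      Subgroup.centralizer ({a} : Set (SUG B)) ≤ Subgroup.centralizer {b} := fun {a b} ha hb x hx => by
    rw [Subgroup.mem_centralizer_singleton_iff] at hx ⊢
    obtain ⟨p, hp⟩ := ha.exists_aeval (congrArg Subtype.val hb)
    have h1 : Commute (x.1 : End F V) (b.1 : End F V) := hp ▸ comm_aeval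
      (LinearMap.ext fun w => LinearEquiv.congr_fun (congrArg Subtype.val hx) w) p
    exact Subtype.ext (LinearEquiv.ext fun w => LinearMap.congr_fun h1.eq w)
  rw [Subgroup.mem_centralizer_singleton_iff] at hh
  exact le_antisymm (key (irr_of_comm hσ hB h3 hc ht hh h1) hh.symm) (key ht hh)

/-- `x ↦ x t x⁻¹` maps the normaliser to the set of roots of the minimal polynomial of `t` (degree `≤ 3`) in
the commutative domain `F[t]` (`Irr.exists_aeval`; a non-zero `p(t)` is injective, its kernel being invariant),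
so it has at most three values; the fibres are cosets of `C t`. -/
theorem card_norm_le {t : SUG B} (ht : Irr t.1) :
    Nat.card (Subgroup.normalizer (Subgroup.centralizer ({t} : Set (SUG B)) : Set (SUG B))) ≤
      3 * Nat.card (Subgroup.centralizer ({t} : Set (SUG B))) := by
  classical
  have := finite_linearEquiv (F := F) (V := V)
  have : Nontrivial V := Module.finrank_pos_iff.1 (by omega : 0 < finrank F V)
  set C := Subgroup.centralizer ({t} : Set (SUG B))
  let A := Algebra.adjoin F {(t.1 : End F V)}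
  have : NoZeroDivisors A := ⟨fun {a b} hab => or_iff_not_imp_left.2 fun h0 => by
    obtain ⟨p, hp⟩ : a.1 ∈ (Polynomial.aeval (t.1 : End F V)).range :=
      (Algebra.adjoin_singleton_eq_range_aeval F (t.1 : End F V)).le a.2
    have h1 : Commute (t.1 : End F V) a.1 := hp ▸ comm_aeval (Commute.refl _) p
    have h2 := (ht (ker a.1) fun v hv => by
      rw [mem_ker] at hv ⊢
      simpa [hv] using (LinearMap.congr_fun h1.eq v).symm).resolve_right
        fun h => h0 (Subtype.ext (ker_eq_top.1 h))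
    refine Subtype.ext (LinearMap.ext fun v => ker_eq_bot.1 h2 ?_)
    simpa using LinearMap.congr_fun (congrArg Subtype.val hab) v⟩
  have : IsDomain A := NoZeroDivisors.to_isDomain A
  let m := (t.1 : End F V).charpoly
  have hm : ∀ x : Subgroup.normalizer (C : Set (SUG B)), ∃ a : m.rootSet A,
      a.1.1 = (x.1 * t * x.1⁻¹).1 := fun x => by
    have h1 : x.1 * t * x.1⁻¹ ∈ C := (Subgroup.mem_normalizer_iff.1 x.2 t).1
      (Subgroup.mem_centralizer_singleton_iff.2 rfl)
    obtain ⟨p, hp⟩ := ht.exists_aeval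
      (congrArg Subtype.val (Subgroup.mem_centralizer_singleton_iff.1 h1))
    have h2 : ((x.1 * t * x.1⁻¹).1 : End F V) ∈ A :=
      (Algebra.adjoin_singleton_eq_range_aeval F (t.1 : End F V)).ge ⟨p, hp.symm⟩
    refine ⟨⟨⟨_, h2⟩, Polynomial.mem_rootSet.2 ⟨(charpoly_monic _).ne_zero, Subtype.ext ?_⟩⟩, rfl⟩
    rw [← Subalgebra.coe_val, ← Polynomial.aeval_algHom_apply]
    have h4 : ((x.1 * t * x.1⁻¹).1 : End F V) = x.1.1.conj (t.1 : End F V) := rfl
    have h5 : m = ((x.1 * t * x.1⁻¹).1 : End F V).charpoly := by rw [h4, LinearEquiv.charpoly_conj]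
    rw [h5]
    exact aeval_self_charpoly _
  choose f hf using hm
  have hfC : ∀ x y, f x = f y → x.1⁻¹ * y.1 ∈ C := fun x y h => by
    have h1 : x.1 * t * x.1⁻¹ = y.1 * t * y.1⁻¹ :=
      Subtype.ext (LinearEquiv.toLinearMap_injective (by rw [← hf, ← hf, h]))
    refine Subgroup.mem_centralizer_singleton_iff.2 ?_
    calc x.1⁻¹ * y.1 * t = x.1⁻¹ * (y.1 * t * y.1⁻¹) * y.1 := by group
      _ = t * (x.1⁻¹ * y.1) := by rw [← h1]; group
  have hi : Function.Injective fun x => (f x, (⟨_, hfC (Function.invFun f (f x)) x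
      (Function.invFun_eq ⟨x, rfl⟩)⟩ : C)) := fun x y h => by
    obtain ⟨h1, h2⟩ := Prod.ext_iff.1 h
    have h4 := congrArg Subtype.val h2
    simp only at h1 h4
    rw [h1] at h4
    exact Subtype.ext (mul_left_cancel h4)
  refine (Nat.card_le_card_of_injective _ hi).trans ?_
  rw [Nat.card_prod]
  refine Nat.mul_le_mul_right _ ?_
  rw [Nat.card_coe_set_eq, ← h3, ← charpoly_natDegree (t.1 : End F V)]
  exact Polynomial.ncard_rootSet_le m A

/-- `b = π - 1`, `π` the permutation character on the `q³ + 1` isotropic points (`card_isotropic`; e.g. the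
one-dimensional subspaces spanned by isotropic vectors).  The action is transitive (`exists_SUG_vec`) and
`Q_e` is transitive on the other points (perpendicular isotropic points coincide: `two_mul_finrank_le`;
`ptRel_QE`, `QE_le_SUG`), so `⟨π, π⟩ = 2`, `⟨π, 1⟩ = 1` (`PermChar.inner_pc_self`, `inner_pc_one_of_trans`),
`IsGeneralizedCharacter.isIrrCharacter_of_inner_self`; an irreducible `h` fixes no point. -/
theorem exists_st : ∃ b : SUG B → ℂ, IsIrrCharacter (SUG B) b ∧ b 1 = (q ^ 3 : ℕ) ∧
    ∀ h : SUG B, Irr h.1 → b h = -1 := exists_st' hσ hB h3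

end Cfsg.Lib.CW
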