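import Cfsg.Agent.Lib.CW.Base
import Cfsg.Agent.Lib.CW.Gp

/-! # The Weil character has sum zero on every centraliser in odd dimension -/

set_option autoImplicit false

namespace Cfsg.Lib.CW

open Module Polynomial Cfsg.Lib.Unitary Cfsg.Lib.GLC

variable {F V : Type*} [Field F] [Fintype F] [AddCommGroup V] [Module F V] [FiniteDimensional F V]
  {σ : F →+* F} {B : V →ₛₗ[σ] V →ₗ[F] F} {q : ℕ}

/-- strong induction on the size with `IsBar.exists_split` (`natDegree_dual`): a pair `P, dual P` has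
even total degree, a self-dual `P` of even degree is removed as well -/
theorem exists_odd (hσ : IsBar q σ) {μ : Multiset F[X]} (h1 : ∀ P ∈ μ, P.Monic ∧ P.coeff 0 ≠ 0)
    (h2 : μ.map (dual σ) = μ) (h3 : Odd (μ.map natDegree).sum) :
    ∃ P ν, μ = {P} + ν ∧ dual σ P = P ∧ ν.map (dual σ) = ν ∧ Odd P.natDegree := by
  suffices h : ∃ P ∈ μ, dual σ P = P ∧ Odd P.natDegree by
    obtain ⟨P, hP, d, o⟩ := h
    obtain ⟨ν, hν, ⟨-, e⟩ | ⟨e, -⟩⟩ := hσ.exists_split h2 hP (h1 P hP).1 (h1 P hP).2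
    · exact ⟨P, ν, e, d, hν, o⟩
    · exact absurd d e
  induction μ using Multiset.strongInductionOn with
  | _ μ ih =>
  obtain ⟨P, hP⟩ := Multiset.exists_mem_of_ne_zero (s := μ) fun e => by simp [e] at h3
  obtain ⟨ν, hν, ⟨d, rfl⟩ | ⟨-, rfl⟩⟩ := hσ.exists_split h2 hP (h1 P hP).1 (h1 P hP).2
  · by_cases o : Odd P.natDegree
    · exact ⟨P, hP, d, o⟩
    rw [Multiset.map_add, Multiset.sum_add, Multiset.map_singleton, Multiset.sum_singleton,
      Nat.odd_add'] at h3
    obtain ⟨Q, hQ, k⟩ := ih ν (lt_add_of_pos_left _ (by simp [pos_iff_ne_zero]))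
      (fun Q hQ => h1 Q (Multiset.mem_add.2 (.inr hQ))) hν (h3.2 (Nat.not_odd_iff_even.1 o))
    exact ⟨Q, Multiset.mem_add.2 (.inr hQ), k⟩
  · have e : (({P, dual σ P} + ν : Multiset F[X]).map natDegree).sum =
        2 * P.natDegree + (ν.map natDegree).sum := by
      simp [natDegree_dual (h1 P hP).2]; ring
    rw [e, Nat.odd_add'] at h3
    obtain ⟨Q, hQ, k⟩ := ih ν (lt_add_of_pos_left _ (by simp [pos_iff_ne_zero]))
      (fun Q hQ => h1 Q (Multiset.mem_add.2 (.inr hQ))) hν (h3.2 (even_two_mul _))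
    exact ⟨Q, Multiset.mem_add.2 (.inr hQ), k⟩

/-- `typ g = {P} + ν` (`IsHerm.sd`, `exists_odd`).  Take a non-degenerate `A` of dimension `deg P`
(`exists_nondeg`), isometries `g₁` of `A` similar to `cyc P` and `g₂` of `A^⊥` of type `ν`
(`exists_UG_sim`, `sd_of_blocks`, `exists_blocks_model`); `glue (g₁, g₂)` has type `{P} + ν`
(`Blocks.of_isCompl`), so an isometry `e` of `V` conjugates it to `g` (`exists_isometry_of_sim`,
`Blocks.sim`); take the image of `A`. -/
theorem exists_block (hσ : IsBar q σ) (hB : IsHerm σ B) (hn : Odd (finrank F V)) (g : UG B) :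
    ∃ (A : Submodule F V) (hA : g.1 ∈ subStab A) (φ : F[X]) (k : ℕ), Disjoint A (perp B A) ∧
      Odd (finrank F A) ∧ φ.Monic ∧ Irreducible φ ∧
      Sim (restr A ⟨g.1, hA⟩ : End F A) (cyc (φ ^ k)) := by
  have sd := hB.sd hσ g.2
  have bl := blocks_typ (g.1 : End F V)
  obtain ⟨P, ν, e, d, hν, o⟩ := exists_odd hσ (fun P hP => ⟨(typ_pp _ P hP).monic, sd.coeff_ne hP⟩) sd.2
    (bl.finrank_eq ▸ hn)
  obtain ⟨φ, k, h1, h2, -, rfl⟩ := typ_pp (g.1 : End F V) P (by rw [e]; simp)
  rw [e] at bl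
  obtain ⟨A, hA, a, b, e', ha, -⟩ := hB.exists_nondeg_blocks hσ g.2 bl (by rw [Multiset.map_singleton, d]) hν
  have hg : g.1 ∈ subStab A := e' ▸ glue_mem_subStab_left _ _
  have ea : restr A ⟨g.1, hg⟩ = a := by
    ext v
    rw [coe_restr_apply]
    exact (congrArg (fun x : V ≃ₗ[F] V => x v) e').trans (glue_apply_left _ _ v)
  refine ⟨A, hg, φ, k, hA, ?_, h1, h2, ?_⟩
  · rw [ha.finrank_eq, Multiset.map_singleton, Multiset.sum_singleton]; exact o
  · rw [ea]; exact ha.sim (blocks_cyc (h1.pow k))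

omit [Fintype F] [FiniteDimensional F V] in
theorem red_kf (g : V ≃ₗ[F] V) : kf g = kd (g : End F V) (X - 1) := by
  rw [kf, kd, map_sub, aeval_X, map_one]; rfl

/-- `ker (dev (glue (h, 1))) = ker (dev h) ⊕ A'` -/
theorem wf_glue {A A' : Submodule F V} (hc : IsCompl A A') (h : A ≃ₗ[F] A) :
    wf q (glue hc (h, 1)) = (q : ℂ) ^ finrank F A' * wf q h := by
  have e : kf (glue hc (h, 1)) = kf h + finrank F A' := by
    rw [red_kf, ← (sim_glue hc h 1).kd_eq, kd_prodMap, ← red_kf, ← red_kf]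
    congr 1
    have : dev (1 : A' ≃ₗ[F] A') = 0 := LinearMap.ext fun v => by rw [dev_apply]; simp
    rw [kf, this, LinearMap.ker_zero, finrank_top]
  rw [wf, wf, e, ← Submodule.finrank_add_eq_of_isCompl hc, pow_add, pow_add,
    show (q : ℂ) ^ finrank F A' = (-1) ^ finrank F A' * (-(q : ℂ)) ^ finrank F A' by
      rw [← mul_pow, neg_one_mul, neg_neg]]
  ring

/-- `D` is the image of the centraliser of `g|A` in `UG (B|A)` under `h ↦ glue (h, 1)` (injective
homomorphism into `UG B`: `glue_mem_UG_iff`, commutes with `g = glue (g|A, g|A^⊥)`: `glue_restr`,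
`perp_mem_subStab`); the sum over `D` vanishes by `wf_glue`, `base`; `sum_zero_of_le`. -/
theorem zero_sum (hσ : IsBar q σ) (hB : IsHerm σ B) (hw : IsCharacter (UG B) fun x => wf q x.1)
    (hn : Odd (finrank F V)) (g : UG B) :
    ∑ᶠ h : Subgroup.centralizer ({g} : Set (UG B)), wf q h.1.1 = 0 := by
  obtain ⟨A, hA, φ, k, d, o, h1, h2, hs⟩ := exists_block hσ hB hn g
  have hc := hB.isCompl_perp d
  have := finite_linearEquiv (F := F) (V := V)
  have := finite_linearEquiv (F := F) (V := A)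
  let j : UG (B.domRestrict₁₂ A A) →* UG B :=
    { toFun := fun h => ⟨glue hc (h.1, 1), (glue_mem_UG_iff hc hB le_rfl _).2 ⟨h.2, one_mem _⟩⟩
      map_one' := Subtype.ext (map_one (glue hc))
      map_mul' := fun a b => Subtype.ext (by
        change glue hc (a.1 * b.1, 1) = glue hc (a.1, 1) * glue hc (b.1, 1)
        rw [← map_mul, Prod.mk_mul_mk, one_mul]) }
  have ji : Function.Injective j := fun a b e =>
    Subtype.ext (congrArg Prod.fst (glue_injective hc (congrArg Subtype.val e)))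
  let a : UG (B.domRestrict₁₂ A A) := ⟨restr A ⟨g.1, hA⟩, restr_mem_UG _ g.2⟩
  have b0 := base hσ (hB.restrict d) (g := a) h1 h2 hs o
  refine sum_zero_of_le hw (D := (Subgroup.centralizer {a}).map j) ?_ ?_
  · rintro _ ⟨x, hx, rfl⟩
    have e := congrArg Subtype.val (Subgroup.mem_centralizer_singleton_iff.1 hx)
    refine Subgroup.mem_centralizer_singleton_iff.2 (Subtype.ext ?_)
    change glue hc (x.1, 1) * g.1 = g.1 * glue hc (x.1, 1)
    rw [← glue_restr hc hA (perp_mem_subStab g.2 hA), ← map_mul, ← map_mul, Prod.mk_mul_mk, Prod.mk_mul_mk,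
      one_mul, mul_one]
    exact congrArg (fun y => glue hc (y, _)) e
  · rw [← finsum_comp_equiv ((Subgroup.centralizer {a}).equivMapOfInjective j ji).toEquiv]
    have : ∀ x : Subgroup.centralizer ({a} : Set (UG (B.domRestrict₁₂ A A))),
        wf q (((Subgroup.centralizer {a}).equivMapOfInjective j ji).toEquiv x).1.1 =
          (q : ℂ) ^ finrank F (perp B A) * wf q x.1.1 := fun x => wf_glue hc x.1.1
    simp only [this]
    rw [← mul_finsum, b0, mul_zero]

end Cfsg.Lib.CW
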