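import Cfsg.Agent.Lib.CW.Cent
import Cfsg.Agent.Lib.CW.Lin

/-! # Representations without property (W) occur in the conjugation character -/

set_option autoImplicit false

namespace Cfsg.Lib.CW

open Module LinearMap Cfsg.Lib.Unitary

variable {F V : Type*} [Field F] [Fintype F] [AddCommGroup V] [Module F V] [FiniteDimensional F V]
  {σ : F →+* F} {B : V →ₛₗ[σ] V →ₗ[F] F} {q : ℕ} {M : Type*} [AddCommGroup M] [Module ℂ M]

/-- `exists_NT`, `exists_lin`, `g` from `exists_cent`, `m' = ∑_(h ∈ C g) ρ h m` is fixed by `C g`.  For `h ∈ C g`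
either `σ a h v = v`, `h = tv e c = ei e 0 c` and `ρ h m = m`, or `ρ h m ∈ Lc v'`, `v' = σ a h v ≠ v` in `U`
(`Lc_map`).  So `m' = k m + y`, `k ≥ 1` (`h = 1`), `y ∈ ⨆_(v' ≠ v) Lc v'`, and `m' ≠ 0` by `Lc_indep`. -/
theorem stepA (hσ : IsBar q σ) (hB : IsHerm σ B) (hn : 5 ≤ finrank F V)
    (hc : (finrank F V).Coprime (2 * (q + 1))) {ρ : SUG B →* End ℂ M} (W : ¬ PW hB ρ) : Fx ρ := by
  classical
  obtain ⟨ψ, c, -, hψ⟩ := exists_NT hσ
  have hψ : ψ ≠ 1 := fun e => hψ (by simp [e])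
  obtain ⟨e, f, v, m, he, hf, hef, hev, hfv, v0, m0, hm⟩ := exists_lin hB hψ W
  obtain ⟨g, hg⟩ := exists_cent hσ hB hn hc he hf hef
  have := finite_linearEquiv (F := F) (V := V)
  let C := Subgroup.centralizer ({g} : Set (SUG B))
  have := Fintype.ofFinite C
  refine ⟨g, ∑ h : C, ρ h m, fun z => m0 ?_, fun h hh => ?_⟩
  · rw [← Finset.sum_filter_add_sum_filter_not _ fun h : C => ρ h m = m,
      Finset.sum_congr rfl fun h hh => (Finset.mem_filter.1 hh).2, Finset.sum_const, add_eq_zero_iff_eq_neg] at z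
    have k := Finset.card_ne_zero.2 (⟨1, by simp⟩ : (Finset.univ.filter fun h : C => ρ h m = m).Nonempty)
    refine (smul_eq_zero_iff_right (Nat.cast_ne_zero (R := ℂ).2 k)).1 ((Nat.cast_smul_eq_nsmul ℂ _ _).trans
      (Submodule.disjoint_def.1 (Lc_indep hB (ρ := ρ) hψ he hf hef ⟨v, hev, hfv⟩) _
      (nsmul_mem hm _) (z ▸ neg_mem (sum_mem fun h hh => ?_))))
    obtain ⟨a, ha, h1, h2, h3⟩ := hg h (Subgroup.mem_centralizer_singleton_iff.1 h.2)
    have a0 : σ a ≠ 0 := right_ne_zero_of_mul_eq_one ha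
    have b := h.1.2.1 e v
    rw [h1, hev, map_smulₛₗ, LinearMap.smul_apply, smul_eq_zero_iff_right a0] at b
    refine Submodule.mem_iSup_of_mem ⟨σ a • h.1.1 v, by simp [b], by simp [h2 v hev hfv]⟩ (Submodule.mem_iSup_of_mem
      (fun z => (Finset.mem_filter.1 hh).2 ?_) (Lc_map hB he ha h1 h2 hm))
    obtain ⟨c, hc, z⟩ := h3 v v0 hev hfv (congrArg Subtype.val z)
    rw [z, ← ei_zero, hm 0 c (by simp) (by simp) (by simpa)]
    simp
  · rw [map_sum]
    exact Fintype.sum_equiv (Equiv.mulLeft (⟨h, Subgroup.mem_centralizer_singleton_iff.2 hh⟩ : C)) _ _ fun k => by simp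

end Cfsg.Lib.CW
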