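import Cfsg.Agent.Lib.CW.Def
import Cfsg.Agent.Lib.Induce.Basic

/-! # A self-centralising abelian subgroup with automiser of order at most three -/

set_option autoImplicit false

namespace Cfsg.Lib.CW

open Cfsg.Lib.Char

theorem ti_int {I : Type*} [Fintype I] {c : I → ℤ} {d : I → ℕ} {o a b x : I} (h1 : o ≠ a) (h2 : o ≠ b) (h3 : a ≠ b)
    (h4 : o ≠ x) (h5 : a ≠ x) (h6 : b ≠ x) (co : c o = 1) (ca : c a = -1) (cb : c b = -1) (sq : ∑ i, c i ^ 2 ≤ 4)
    (s : ∑ i, c i * d i = 0) (cx : c x ≠ 0) : (d o : ℤ) - d a - d b + c x * d x = 0 ∧ (c x = 1 ∨ c x = -1) := by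
  classical
  have e : ∀ f : I → ℤ, ∑ i ∈ ({o, a, b, x} : Finset I), f i = f o + f a + f b + f x := fun f => by
    rw [Finset.sum_insert (by simp [h1, h2, h4]), Finset.sum_insert (by simp [h3, h5]), Finset.sum_pair h6]; ring
  have p : ∀ z : ℤ, z ≠ 0 → 1 ≤ z ^ 2 := fun z hz => sq_pos_of_ne_zero hz
  have l := (Finset.sum_le_sum_of_subset_of_nonneg (Finset.subset_univ {o, a, b, x}) fun i _ _ => sq_nonneg (c i)).trans sq
  rw [e, co, ca, cb] at l
  have z : ∀ i, i ∉ ({o, a, b, x} : Finset I) → c i = 0 := fun i hi => by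
    by_contra k
    have l := (Finset.sum_le_sum_of_subset_of_nonneg (Finset.subset_univ (insert i {o, a, b, x}))
      fun i _ _ => sq_nonneg (c i)).trans sq
    rw [Finset.sum_insert hi, e, co, ca, cb] at l
    have := p _ k
    have := p _ cx
    omega
  rw [← Finset.sum_subset (Finset.subset_univ {o, a, b, x}) fun i _ hi => by rw [z i hi, zero_mul], e, co, ca, cb] at s
  exact ⟨by linarith, mul_self_eq_one_iff.1 (by rw [← pow_two]; exact le_antisymm (by linarith) (p _ cx))⟩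

theorem ti_norm {G : Type*} [Group G] [Fintype G] {T : Subgroup G} [Fintype T]
    (hT : ∀ h ∈ T, h ≠ 1 → Subgroup.centralizer ({h} : Set G) = T) (cm : ∀ x y : T, x * y = y * x)
    (hN : Nat.card (Subgroup.normalizer (T : Set G)) ≤ 3 * Nat.card T) (l : IrrCharacter T) (l1 : l ≠ irrOne T) :
    (classInner (indFun T fun h => 1 - l.1 h) (indFun T fun h => 1 - l.1 h)).re ≤ 4 := by
  classical
  set N := Subgroup.normalizer (T : Set G)
  have one := US7.vr_lin cm l
  have mul := l.2.isCharacter.map_mul_of_apply_one one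
  let cj : N → T → T := fun x h => ⟨x * h * (x : G)⁻¹, (Subgroup.mem_normalizer_iff.1 x.2 _).1 h.2⟩
  have cjm : ∀ x h k, cj x (h * k) = cj x h * cj x k := fun x h k => Subtype.ext (by simp [cj])
  have cj1 : ∀ x, cj x 1 = 1 := fun x => Subtype.ext (by simp [cj])
  have irr : ∀ x, IsIrrCharacter T fun h => l.1 (cj x h) := fun x =>
    isIrrCharacter_of_map_mul (by rw [cj1, one]) fun h k => by rw [cjm, mul]
  have ne : ∀ x, (fun _ => 1) ≠ fun h => l.1 (cj x h) := fun x e => l1 (Subtype.ext (funext fun h => by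
    have := congrFun e (cj x⁻¹ h)
    rw [show cj x (cj x⁻¹ h) = h from Subtype.ext (by simp [cj, mul_assoc])] at this
    exact this.symm))
  have fix : ∀ x, (l.1 = fun h => l.1 (cj x h)) → x.1 ∈ T := fun x e => by
    by_contra hx
    have inj : Function.Injective fun h : T => h⁻¹ * cj x h := fun h k q => by
      have q1 : cj x (k⁻¹ * h) = k⁻¹ * h := by
        have q2 : cj x k⁻¹ * cj x k = 1 := by rw [← cjm, inv_mul_cancel, cj1]
        rw [cjm, eq_inv_of_mul_eq_one_left q2, ← mul_inv_cancel_left h (cj x h), show h⁻¹ * cj x h = k⁻¹ * cj x k from q,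
          cm _ (h * _), mul_assoc, mul_inv_cancel_right, cm]
      by_contra n
      refine hx (hT (k⁻¹ * h : T) (k⁻¹ * h).2 (fun w => n (inv_mul_eq_one.1 (Subtype.ext w)).symm) ▸ ?_)
      exact Subgroup.mem_centralizer_singleton_iff.2 (mul_inv_eq_iff_eq_mul.1 (congrArg Subtype.val q1))
    refine l1 (Subtype.ext (funext fun t => ?_))
    obtain ⟨h, rfl⟩ := Finite.surjective_of_injective inj t
    rw [mul, ← congrFun e h, ← mul, inv_mul_cancel, one]; rfl
  have res : (fun h : T => indFun T (fun h => 1 - l.1 h) h) =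
      (Nat.card T : ℂ)⁻¹ • ∑ x : N, ((fun _ => 1) - fun h => l.1 (cj x h)) := funext fun h => by
    rw [Induce.indFun_apply', Pi.smul_apply, Finset.sum_apply, smul_eq_mul, ← Induce.sum_extendByZero]
    refine congrArg _ (Finset.sum_congr rfl fun x _ => ?_)
    by_cases hx : x ∈ N
    · rw [Induce.extendByZero_of_mem N _ hx, Induce.extendByZero_of_mem T _ (cj ⟨x, hx⟩ h).2]; rfl
    rw [Induce.extendByZero_of_not_mem N _ hx]
    by_cases h1 : h = 1
    · simp [h1, Induce.extendByZero_of_mem T _ T.one_mem, show (⟨1, T.one_mem⟩ : T) = 1 from rfl, one]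
    refine Induce.extendByZero_of_not_mem T _ fun w => hx (Subgroup.mem_normalizer_iff.2 fun y => ?_)
    have e1 := hT h h.2 fun e => h1 (Subtype.ext e)
    have e2 := hT _ w fun e => h1 (Subtype.ext (by simpa using e))
    conv_lhs => rw [← e1]
    conv_rhs => rw [← e2]
    simp only [Subgroup.mem_centralizer_singleton_iff, mul_assoc, inv_mul_cancel_left, mul_right_inj]
    simp only [← mul_assoc, mul_left_inj]
  have ip : ∀ x, classInner (fun h => 1 - l.1 h) ((fun _ => 1) - fun h => l.1 (cj x h)) =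
      ((1 + if (l.1 = fun h => l.1 (cj x h)) then 1 else 0 : ℕ) : ℂ) := fun x => by
    rw [show (fun h => 1 - l.1 h) = (fun _ => 1) - l.1 from rfl, classInner_sub_left, classInner_sub_right, classInner_sub_right,
      isIrrCharacter_one.inner_self, isIrrCharacter_one.inner_eq_zero_of_ne (irr x) (ne x),
      l.2.inner_eq_zero_of_ne isIrrCharacter_one fun e => l1 (Subtype.ext e), l.2.inner_eq_ite (irr x)]
    split_ifs <;> norm_num
  rw [Induce.frobenius_reciprocity T _ (Induce.isClassFunction_indFun T _), res, classInner_smul_right, classInner_sum_right]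
  simp only [ip]
  rw [← Nat.cast_sum, map_inv₀, Complex.conj_natCast, ← Complex.ofReal_natCast, ← Complex.ofReal_natCast, ← Complex.ofReal_inv,
    ← Complex.ofReal_mul, Complex.ofReal_re, inv_mul_le_iff₀ (Nat.cast_pos.2 Nat.card_pos)]
  have c : Fintype.card {x : N // l.1 = fun h => l.1 (cj x h)} ≤ Nat.card T := by
    rw [← Nat.card_eq_fintype_card]
    exact Nat.card_le_card_of_injective (fun x => (⟨x.1, fix _ x.2⟩ : T)) fun x y e =>
      Subtype.ext (Subtype.ext (congrArg (fun t : T => (t : G)) e))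
  rw [Fintype.card_subtype] at c
  rw [Finset.sum_add_distrib, Finset.sum_boole, Finset.sum_const, Finset.card_univ, ← Nat.card_eq_fintype_card, smul_eq_mul,
    mul_one, Nat.cast_id]
  exact_mod_cast (by omega : Nat.card N + _ ≤ Nat.card T * 4)

/-- `T` is abelian (`T = C h` for `1 ≠ h ∈ T`) and TI: if `1 ≠ h ∈ T` and `x h x⁻¹ ∈ T` then `x`
normalises `T = C h`.  For `l ∈ Irr T` (linear; `US7.vr_lin vr_card vr_one`) put
`m_χ l = ⟨χ|T, l⟩ ∈ ℕ`.  For `l ≠ 1` let `θ = Ind_T^G (1 - l)` (`Lib/Induce/Basic`: `indFun`,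
`frobenius_reciprocity`; or define `θ = ∑_χ (m_χ 1 - m_χ l) χ`).  `θ 1 = 0`, `⟨θ, χ⟩ = m_χ 1 - m_χ l ∈ ℤ`,
`θ h = |T|⁻¹ ∑_(x ∈ N) (1 - l) (x h x⁻¹)` on `T`, so `⟨θ, θ⟩ = ⟨θ|T, 1 - l⟩ = |T|⁻¹ ∑_(x ∈ N) ⟨1 - l^x, 1 - l⟩
= |N : T| + 1 ≤ 4`, as `l^x ≠ l` for `x ∈ N - T` (`h ↦ h⁻¹ x h x⁻¹` is injective on `T` because
`C_T x = 1`, hence onto, so `l^x = l` gives `l = 1`).  The coefficients of `1, a, b` in `θ` are
`1, -1, -1` (`|T| m_a 1 = A + 1 - |T|`, `|T| m_a l = A + 1`), so at most one more irreducible `ψ` occurs,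
with coefficient `±1`, and `θ 1 = 0` gives coefficient `+1` and `ψ 1 = A + C - 1`.  Hence for
`χ ∉ {1, a, b}`: `m_χ l ≤ m_χ 1` for all `l`, so `χ 1 = ∑_l m_χ l ≤ |T| m_χ 1` and `m_χ 1 ≠ 0`; if
`χ 1 = A` then `m_χ l = m_χ 1` for all `l`, `|T|` divides `A` and `A + 1`, impossible.  For `χ = b`:
the sum is `C + 1 - |T| ≠ 0` as `|T| ∣ A + 1`. -/
theorem ti_main {G : Type*} [Group G] [Fintype G] {T : Subgroup G} (h0 : T ≠ ⊥)
    (hT : ∀ h ∈ T, h ≠ 1 → Subgroup.centralizer ({h} : Set G) = T)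
    (hN : Nat.card (Subgroup.normalizer (T : Set G)) ≤ 3 * Nat.card T) {a b χ : G → ℂ}
    (ha : IsIrrCharacter G a) (hb : IsIrrCharacter G b) {A C : ℕ} (a1 : a 1 = A) (b1 : b 1 = C)
    (h1 : 1 < A) (h2 : A < C) (av : ∀ h ∈ T, h ≠ 1 → a h = -1) (bv : ∀ h ∈ T, h ≠ 1 → b h = -1)
    (hχ : IsIrrCharacter G χ) (hne : χ ≠ a) : χ 1 ≠ A ∧ ∑ᶠ h : T, χ h ≠ 0 := by
  classical
  have := Fintype.ofFinite T
  obtain ⟨⟨u, hu⟩, u1⟩ := Subgroup.ne_bot_iff_exists_ne_one.1 h0
  have cm : ∀ x y : T, x * y = y * x := fun x y => by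
    by_cases e : y = 1
    · simp [e]
    · exact Subtype.ext (Subgroup.mem_centralizer_singleton_iff.1 ((hT y y.2 fun w => e (Subtype.ext w)).ge x.2))
  have t2 : 1 < Nat.card T := Finite.one_lt_card_iff_nontrivial.2 ⟨_, _, u1⟩
  have t0 := card_ne_zero_complex T
  choose m hm using fun (ψ : IrrCharacter G) (l : IrrCharacter T) =>
    (ψ.2.isCharacter.restrict T).exists_inner_eq_nat l.2.isCharacter
  choose d d0 hd using fun ψ : IrrCharacter G => ψ.2.exists_apply_one
  have val : ∀ (f : IrrCharacter G) (A : ℕ), f.1 1 = A → (∀ h ∈ T, h ≠ 1 → f.1 h = -1) → ∀ l,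
      Nat.card T * (m f l + if irrOne T = l then 1 else 0) = A + 1 := fun f A f1 fv l => by
    have e : (fun h : T => f.1 h) = ((Nat.card T : ℂ)⁻¹ * (A + 1)) • regChar T - (irrOne T).1 := funext fun h => by
      by_cases e : h = 1
      · simp only [e, Pi.sub_apply, Pi.smul_apply, regChar_apply, coe_irrOne, if_true, OneMemClass.coe_one, f1, smul_eq_mul]
        field_simp; ring
      · simp [regChar_apply, coe_irrOne, e, fv h h.2 fun w => e (Subtype.ext w)]
    have := hm f l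
    rw [e, classInner_sub_left, classInner_smul_left, classInner_regChar_left, US7.vr_lin cm, map_one, irr_inner_eq_ite] at this
    apply Nat.cast_injective (R := ℂ)
    push_cast
    rw [← this]; field_simp; ring
  obtain ⟨l0, l01⟩ := Fintype.exists_ne_of_one_lt_card (α := IrrCharacter T) (by rwa [US7.vr_card cm]) (irrOne T)
  have vA := val ⟨a, ha⟩ A a1 av
  have vC := val ⟨b, hb⟩ C b1 bv
  have tA := vA l0
  rw [if_neg l01.symm, add_zero] at tA
  have tA' : Nat.card T ≤ A + 1 := Nat.le_of_dvd (by omega) ⟨_, tA.symm⟩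
  have sm : ∀ ψ : IrrCharacter G, ∑ᶠ h : T, ψ.1 h = (Nat.card T * m ψ (irrOne T) : ℕ) := fun ψ => by
    rw [finsum_eq_sum_of_fintype, Nat.cast_mul, ← hm, coe_irrOne, classInner_one_right]; field_simp
  have dA : d ⟨a, ha⟩ = A := Nat.cast_injective (R := ℂ) ((hd _).symm.trans a1)
  have dC : d ⟨b, hb⟩ = C := Nat.cast_injective (R := ℂ) ((hd _).symm.trans b1)
  have d1 : d (irrOne G) = 1 := Nat.cast_injective (R := ℂ) ((hd _).symm.trans Nat.cast_one.symm)
  rw [show χ 1 = d ⟨χ, hχ⟩ from hd ⟨χ, hχ⟩, sm ⟨χ, hχ⟩, Nat.cast_injective.ne_iff, Nat.cast_ne_zero]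
  have m1 : ∀ l, m (irrOne G) l = if irrOne T = l then 1 else 0 := fun l => Nat.cast_injective (R := ℂ) (by
    rw [← hm, Nat.cast_ite, Nat.cast_one, Nat.cast_zero, ← irr_inner_eq_ite]; rfl)
  by_cases e1 : irrOne G = ⟨χ, hχ⟩
  · rw [← e1, d1, m1, if_pos rfl]; omega
  by_cases e2 : (⟨b, hb⟩ : IrrCharacter G) = ⟨χ, hχ⟩
  · have := vC (irrOne T)
    rw [if_pos rfl, mul_add] at this
    rw [← e2, dC]; omega
  have key : ∀ l, m ⟨χ, hχ⟩ l = m ⟨χ, hχ⟩ (irrOne T) ∨ m ⟨χ, hχ⟩ l ≤ m ⟨χ, hχ⟩ (irrOne T) ∧ d ⟨χ, hχ⟩ ≠ A := fun l => by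
    by_cases l1 : l = irrOne T
    · exact .inl (by rw [l1])
    have cl := Induce.isClassFunction_indFun T fun h => 1 - l.1 h
    have co : ∀ ψ : IrrCharacter G, classInner (indFun T fun h => 1 - l.1 h) ψ.1 = (((m ψ (irrOne T) : ℤ) - m ψ l : ℤ) : ℂ) :=
      fun ψ => by
        rw [Induce.frobenius_reciprocity T _ ψ.2.isClassFunction, show (fun h => 1 - l.1 h) = (irrOne T).1 - l.1 from rfl,
          classInner_sub_left, ← conj_classInner, hm, ← conj_classInner, hm]
        simp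
    have n4 := ti_norm hT cm hN l l1
    rw [cl.inner_eq_sum_irr] at n4
    simp only [co, map_intCast, ← Int.cast_mul, ← Int.cast_sum, Complex.intCast_re, ← sq] at n4
    have z := cl.apply_eq_sum_irr 1
    rw [Induce.indFun_one, US7.vr_lin cm, sub_self, mul_zero] at z
    simp only [co, hd] at z
    have cv : ∀ (f : IrrCharacter G) (A : ℕ), (∀ l, Nat.card T * (m f l + if irrOne T = l then 1 else 0) = A + 1) →
        (m f (irrOne T) : ℤ) - m f l = -1 := fun f A v => by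
      have := Nat.eq_of_mul_eq_mul_left (by omega) ((v l).trans (v (irrOne T)).symm)
      rw [if_neg (Ne.symm l1), if_pos rfl] at this
      omega
    by_cases c0 : (m ⟨χ, hχ⟩ (irrOne T) : ℤ) - m ⟨χ, hχ⟩ l = 0
    · exact .inl (by omega)
    have := ti_int (c := fun ψ => (m ψ (irrOne T) : ℤ) - m ψ l) (d := d) (o := irrOne G) (a := ⟨a, ha⟩) (b := ⟨b, hb⟩)
      (x := ⟨χ, hχ⟩) (fun e => by rw [← e] at dA; omega) (fun e => by rw [← e] at dC; omega) (fun e => by rw [← e] at dC; omega)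
      e1 (fun e => hne (congrArg Subtype.val e).symm) e2 (by simp [m1, Ne.symm l1]) (cv _ _ vA) (cv _ _ vC)
      (by exact_mod_cast n4) (by exact_mod_cast z.symm) c0
    rw [d1, dA, dC] at this
    obtain ⟨e, q | q⟩ := this <;> rw [q] at e
    · exact .inr ⟨by omega, by omega⟩
    · omega
  have ds : d ⟨χ, hχ⟩ = ∑ l, m ⟨χ, hχ⟩ l := Nat.cast_injective (R := ℂ) (by
    rw [← hd, Nat.cast_sum]; simp only [← hm]; exact US7.vr_one cm fun h : T => χ h)
  refine ⟨fun e => ?_, fun e => ?_⟩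
  · rw [Finset.sum_congr rfl fun l _ => (key l).resolve_right fun k => k.2 e, Finset.sum_const, Finset.card_univ, US7.vr_card cm,
      smul_eq_mul, e] at ds
    have := (Nat.dvd_add_right ⟨_, ds⟩).1 ⟨_, tA.symm⟩
    exact t2.ne' (Nat.dvd_one.1 this)
  · have z : m ⟨χ, hχ⟩ (irrOne T) = 0 := (mul_eq_zero.1 e).resolve_left (by omega)
    rw [Finset.sum_eq_zero fun l _ => by have := key l; omega] at ds
    exact (d0 _).ne' ds

end Cfsg.Lib.CW
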