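import Cfsg.Agent.Lib.CW.WeilR

/-! # The Weil character of the unitary group -/

set_option autoImplicit false

namespace Cfsg.Lib.CW

open Module LinearMap Cfsg.Lib.Unitary Cfsg.Lib.Char Cfsg.Lib.US7 Cfsg.Lib.UW ComplexConjugate

theorem orb_sum {C X : Type*} [Group C] [Finite C] [Fintype X] [MulAction C X] {f : X → ℂ}
    (hf : ∀ (c : C) (x : X), c • x = x → f x ≠ 0 → c = 1) (hi : ∀ x, IsIntegral ℤ (f x))
    (hc : ∀ (c : C) x, f (c • x) = f x) : ∃ z, IsIntegral ℤ z ∧ ∑ x, f x = Nat.card C * z := by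
  classical
  have := Fintype.ofFinite C
  refine ⟨∑ ω : MulAction.orbitRel.Quotient C X, f ω.out, IsIntegral.sum _ fun _ _ => hi _, ?_⟩
  rw [Finset.mul_sum, ← Finset.sum_fiberwise (s := Finset.univ)
    (g := fun x => (Quotient.mk'' x : MulAction.orbitRel.Quotient C X))]
  refine Finset.sum_congr rfl fun ω _ => ?_
  have e : (Finset.univ.filter fun x => (Quotient.mk'' x : MulAction.orbitRel.Quotient C X) = ω) =
      Finset.univ.image fun c : C => c • ω.out := by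
    ext x
    conv_lhs => rw [← ω.out_eq']
    simp only [Finset.mem_filter, Finset.mem_univ, true_and, Finset.mem_image, Quotient.eq'', MulAction.orbitRel_apply]
    rfl
  rw [e]
  by_cases h0 : f ω.out = 0
  · rw [h0, mul_zero]
    refine Finset.sum_eq_zero fun x hx => ?_
    obtain ⟨c, -, rfl⟩ := Finset.mem_image.1 hx
    rw [hc, h0]
  rw [Finset.sum_image fun c _ d _ e => (inv_mul_eq_one.1 (hf _ _ (by
    rw [mul_smul, show d • ω.out = c • ω.out from e.symm, inv_smul_smul]) h0))]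
  simp [hc]

/-- `G` is real of absolute value `q^b / q^a`, so rational; `z = (G - 1)/(q + 1)` is a rational algebraic
integer, so `G = 1 + (q + 1) m`, `m ∈ ℤ`, `G q^a = ± q^b`; modulo `q + 1 ≥ 3`: `(-1)^a ≡ ± (-1)^b`
fixes the sign. -/
theorem gauss_eq {q : ℕ} (hq : 2 ≤ q) {G z : ℂ} (hz : IsIntegral ℤ z) (hG : G = 1 + (q + 1) * z)
    (hr : conj G = G) {a b : ℕ} (h : ‖G‖ * (q : ℝ) ^ a = (q : ℝ) ^ b) :
    G * (-(q : ℂ)) ^ a = (-(q : ℂ)) ^ b := by
  obtain ⟨r, rfl⟩ := Complex.conj_eq_iff_real.1 hr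
  rw [Complex.norm_real, Real.norm_eq_abs] at h
  obtain ⟨s, hs, e⟩ : ∃ s : ℤ, (s = 1 ∨ s = -1) ∧ r * q ^ a = s * q ^ b := by
    rcases le_total 0 r with l | l
    · exact ⟨1, .inl rfl, by rw [← h, abs_of_nonneg l]; simp⟩
    · exact ⟨-1, .inr rfl, by rw [← h, abs_of_nonpos l]; simp⟩
  have e' : (r : ℂ) * q ^ a = s * q ^ b := by exact_mod_cast e
  have q0 : (q : ℂ) ≠ 0 := Nat.cast_ne_zero.2 (by omega)
  have q1 : (q : ℂ) + 1 ≠ 0 := Nat.cast_add_one_ne_zero q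
  obtain ⟨m, hm⟩ := exists_int_of_isIntegral_of_rat hz (q := (s * q ^ b / q ^ a - 1) / (q + 1)) (by
    push_cast
    rw [← e', hG]
    field_simp
    ring)
  have e2 : (1 + (q + 1) * m) * (q : ℤ) ^ a = s * q ^ b := by
    rw [hG, hm] at e'
    exact_mod_cast e'
  have m1 : (q : ℤ) ≡ -1 [ZMOD q + 1] := (Int.modEq_iff_dvd.2 ⟨-1, by ring⟩)
  have m2 : 1 + ((q : ℤ) + 1) * m ≡ 1 [ZMOD q + 1] := (Int.modEq_iff_dvd.2 ⟨-m, by ring⟩)
  have d := ((m2.mul (m1.pow a)).symm.trans (e2 ▸ (m1.pow b).mul_left s)).dvd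
  have e3 : s * (-1) ^ b - 1 * (-1) ^ a = 0 := Int.eq_zero_of_abs_lt_dvd d (by
    rcases neg_one_pow_eq_or ℤ a with h1 | h1 <;> rcases neg_one_pow_eq_or ℤ b with h2 | h2 <;>
      rcases hs with rfl | rfl <;> rw [h1, h2] <;> norm_num <;> omega)
  have e4 : (s : ℂ) * (-1) ^ b - 1 * (-1) ^ a = 0 := by exact_mod_cast e3
  have e5 : (s : ℂ) * s = 1 := by rcases hs with rfl | rfl <;> norm_num
  rw [neg_pow, neg_pow (q : ℂ)]
  linear_combination (-1) ^ a * e' - s * q ^ b * e4 + (-1) ^ b * q ^ b * e5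

variable {F V : Type*} [Field F] [Fintype F] [AddCommGroup V] [Module F V] [Fintype V] {σ : F →+* F}
  {B : V →ₛₗ[σ] V →ₗ[F] F} {κ ε : AddChar F ℂ} {W : Type*} [AddCommGroup W] [Module ℂ W]
  [FiniteDimensional ℂ W] {h : V → End ℂ W} {ρ : UG B →* End ℂ W} {q : ℕ}

/-- if `g u = u` then `ρ g` commutes with `h u`, so `tr (ρ g h v) = tr (ρ g h u h v h (-u)) =
κ (B u v) tr (ρ g h v)`.  If `v ∉ range (dev g⁻¹) = (ker (dev g⁻¹))^⊥` (`IsHerm.range_dev`, `perp_perp`)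
some fixed `u` has `κ (B u v) ≠ 1` (scale `u`). -/
theorem tr_off (D : WQ B κ h ρ) (hB : IsHerm σ B) (g : UG B) {v : V}
    (hv : ∀ u, (g⁻¹).1 u - u ≠ v) : trace ℂ W (ρ g * h v) = 0 := tr_off' D hB g hv

/-- `φ v = tr (ρ g h v) / tr (ρ g)` (`tr (ρ g) ≠ 0`: `norm_sq`).  It is `0` (`tr_off`) or the inverse of a
root of unity `γ` (`tr_shift`, `D.mul`); conjugate with the central `ρ (scl c)` (`D.cj`). -/
theorem shift (hσ : IsBar q σ) (D : WQ B κ h ρ) (hB : IsHerm σ B) (g : UG B) : ∃ φ : V → ℂ,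
    (∀ v, trace ℂ W (ρ g * h v) = trace ℂ W (ρ g) * φ v) ∧ φ 0 = 1 ∧ (∀ v, IsIntegral ℤ (φ v)) ∧
      ∀ (c : F) v, c * σ c = 1 → φ (c • v) = φ v := by
  have t0 : trace ℂ W (ρ g) ≠ 0 := fun e => by
    have : Nonempty {v : V // g.1 v = v} := ⟨⟨0, map_zero _⟩⟩
    have := D.norm_sq hB g
    rw [e, norm_zero, zero_pow two_ne_zero, eq_comm, Nat.cast_eq_zero] at this
    exact Nat.card_pos.ne' this
  refine ⟨fun v => trace ℂ W (ρ g * h v) / trace ℂ W (ρ g), fun v => (mul_div_cancel₀ _ t0).symm, by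
    simp only [D.zero, mul_one, div_self t0], fun v => ?_, fun c v hc => ?_⟩
  · by_cases hv : ∀ u, (g⁻¹).1 u - u ≠ v
    · simp only [tr_off D hB g hv, zero_div, isIntegral_zero]
    push Not at hv
    obtain ⟨u, rfl⟩ := hv
    obtain ⟨γ, N, N0, hN, -, m⟩ := D.mul
    have e := D.tr_shift hB g u
    rw [m, mul_smul_comm, map_smul, smul_eq_mul, ← sub_eq_add_neg] at e
    refine IsIntegral.of_pow (Nat.pos_of_ne_zero N0) ?_
    rw [div_pow, show trace ℂ W (ρ g) ^ N = _ from by rw [e, mul_pow, hN, one_mul],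
      div_self (pow_ne_zero _ fun q => t0 (by rw [e, q, mul_zero]))]
    exact isIntegral_one
  · rw [hσ.norm_eq] at hc
    let z : UG B := ⟨scl q F V (rootsOfUnity.mkOfPowEq c hc), scl_mem_UG hσ B _⟩
    have e1 : h (c • v) = ρ z * h v * ρ z⁻¹ := by rw [D.cj, mul_assoc, ← map_mul, mul_inv_cancel, map_one, mul_one]; rfl
    have e2 : g * z = z * g := Subtype.ext (LinearEquiv.ext fun v => g.1.map_smul c v)
    simp only
    rw [e1, ← mul_assoc, ← mul_assoc, trace_mul_comm, ← mul_assoc, ← map_mul, ← map_mul, e2, inv_mul_cancel_left]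

/-- `planch`: `dim W tr (g₁ g₂) = tr g₁ tr g₂ G`, `G = ∑_v φ₁ (-v) φ₂ v`, `dim W = q^n`.  The `q + 1` scalars
of norm one act freely on `V - 0` and fix the summand, so `G = 1 + (q + 1) z` with `z` integral (sum over
orbit representatives).  `‖tr g‖ = q^(kf g)` (`norm_sq`), so `‖G‖ q^(k₁+k₂) = q^(n+k₁₂)`, and `gauss_eq`
shows that `s g = tr g / wf g` is multiplicative, `s 1 = 1`.  `wf = s⁻¹ tr`
(`isIrrCharacter_of_map_mul`, `IsCharacter.mul`, `isCharacter_character`). -/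
theorem weil_of (hσ : IsBar q σ) (D : WQ B κ h ρ) (hB : IsHerm σ B)
    (hr : ∀ g₁ g₂, ∃ r : ℝ, trace ℂ W (ρ (g₁ * g₂)) = r * (trace ℂ W (ρ g₁) * trace ℂ W (ρ g₂))) :
    IsCharacter (UG B) fun x => wf q x.1 := by
  classical
  have : FiniteDimensional F V := Module.Finite.of_finite
  have : Finite (V ≃ₗ[F] V) := DFunLike.finite _
  have q0 : (q : ℂ) ≠ 0 := Nat.cast_ne_zero.2 (by have := hσ.two_le; omega)
  have dm : finrank ℂ W = q ^ finrank F V := by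
    have e := D.dim
    rw [Module.natCard_eq_pow_finrank (K := F), hσ.card, ← pow_mul, mul_comm, pow_mul] at e
    exact Nat.pow_left_injective two_ne_zero e
  have nt : ∀ g : UG B, ‖trace ℂ W (ρ g)‖ = (q : ℝ) ^ kf g.1 := fun g => by
    have e := D.norm_sq hB g
    rw [show Nat.card {v : V // g.1 v = v} = Nat.card (ker (dev g.1)) from
      Nat.card_congr (Equiv.subtypeEquivRight fun v => sub_eq_zero.symm),
      Module.natCard_eq_pow_finrank (K := F), hσ.card, ← pow_mul, mul_comm, pow_mul] at e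
    exact (pow_left_inj₀ (norm_nonneg _) (by positivity) two_ne_zero).1 (by exact_mod_cast e)
  have t0 : ∀ g : UG B, trace ℂ W (ρ g) ≠ 0 := fun g => norm_ne_zero_iff.1 (by
    rw [nt]; exact pow_ne_zero _ (Nat.cast_ne_zero.2 (by have := hσ.two_le; omega)))
  have key : ∀ g₁ g₂ : UG B, wf q (g₁ * g₂).1 / trace ℂ W (ρ (g₁ * g₂)) =
      wf q g₁.1 / trace ℂ W (ρ g₁) * (wf q g₂.1 / trace ℂ W (ρ g₂)) := fun g₁ g₂ => by
    obtain ⟨φ₁, a1, a2, a3, a4⟩ := shift hσ D hB g₁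
    obtain ⟨φ₂, b1, b2, b3, b4⟩ := shift hσ D hB g₂
    have e := D.toWP.planch hB (ρ g₁) (ρ g₂)
    simp only [a1, b1, mul_mul_mul_comm (trace ℂ W (ρ g₁)) (φ₁ _) (trace ℂ W (ρ g₂))] at e
    rw [← Finset.mul_sum, ← map_mul, dm, Nat.cast_pow] at e
    obtain ⟨z, hz, ez⟩ := orb_sum (C := normOne σ) (f := fun v : V => if v = 0 then 0 else φ₁ (-v) * φ₂ v)
      (fun c v e n => by
        have : ((c.1 : F) - 1) • v = 0 := by rw [sub_smul, one_smul, sub_eq_zero]; exact e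
        exact Subtype.ext (Units.ext (sub_eq_zero.1 ((smul_eq_zero.1 this).resolve_right fun q => n (if_pos q)))))
      (fun v => by split_ifs; exacts [isIntegral_zero, (a3 _).mul (b3 _)])
      fun c v => by
        simp only [smul_eq_zero_iff_eq]
        rw [← smul_neg]
        exact congrArg _ (congrArg₂ _ (a4 c.1 _ c.2) (b4 c.1 _ c.2))
    have eG : ∑ v, φ₁ (-v) * φ₂ v = 1 + (q + 1) * z := by
      rw [hσ.card_normOne, Nat.cast_succ] at ez
      rw [← ez, ← Finset.add_sum_erase _ _ (Finset.mem_univ (0 : V)), ← Finset.add_sum_erase _ _ (Finset.mem_univ (0 : V)),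
        neg_zero, a2, b2, if_pos rfl, one_mul, zero_add]
      exact congrArg _ (Finset.sum_congr rfl fun v hv => (if_neg (Finset.ne_of_mem_erase hv)).symm)
    generalize ∑ v, φ₁ (-v) * φ₂ v = G at e eG
    obtain ⟨r, er⟩ := hr g₁ g₂
    have e1 : G = q ^ finrank F V * r := mul_left_cancel₀ (mul_ne_zero (t0 g₁) (t0 g₂)) (by rw [← e, er]; ring)
    have e2 := congrArg norm e
    simp only [norm_mul, norm_pow, nt, Complex.norm_natCast] at e2
    have e3 := gauss_eq hσ.two_le hz eG (by rw [e1]; simp) (a := kf g₁.1 + kf g₂.1) (b := finrank F V + kf (g₁ * g₂).1)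
      (by rw [pow_add, pow_add, e2]; ring)
    have e4 : ((-1 : ℂ) ^ finrank F V) * (-1) ^ finrank F V = 1 := by rw [← mul_pow]; simp
    rw [div_mul_div_comm, div_eq_div_iff (t0 _) (mul_ne_zero (t0 _) (t0 _))]
    refine mul_left_cancel₀ (pow_ne_zero (finrank F V) q0) ?_
    rw [pow_add, pow_add, neg_pow (q : ℂ) (finrank F V)] at e3
    simp only [wf]
    linear_combination (-(trace ℂ W (ρ g₁) * trace ℂ W (ρ g₂))) * e3 - (-(q : ℂ)) ^ kf g₁.1 * (-(q : ℂ)) ^ kf g₂.1 * e -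
      q ^ finrank F V * trace ℂ W (ρ (g₁ * g₂)) * (-(q : ℂ)) ^ kf g₁.1 * (-(q : ℂ)) ^ kf g₂.1 * e4
  have s1 : wf q (1 : UG B).1 / trace ℂ W (ρ 1) = 1 := by
    have : kf (1 : UG B).1 = finrank F V := by
      rw [kf, show dev (1 : UG B).1 = 0 from sub_self _, ker_zero, finrank_top]
    rw [div_eq_one_iff_eq (t0 1), wf, this, map_one, trace_one, dm, ← mul_pow]
    simp
  convert (isIrrCharacter_of_map_mul (χ := fun g : UG B => wf q g.1 / trace ℂ W (ρ g)) s1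
    key).isCharacter.mul (isCharacter_character ρ) using 1
  exact funext fun g => (div_mul_cancel₀ _ (t0 g)).symm

/-- `γ x y z = ε z` (`ε z ^ p = 1`), `WD.mul_neg`, `WD.conj_h` -/
theorem wq_of_wd (D : WD B ε h ρ) (hB : IsHerm σ B) (h2 : (2 : F) ≠ 0) :
    WQ B (ε.mulShift 2) h ρ := wq_of_wd' D hB h2

/-- `φ_g v = tr (ρ g h v) / tr (ρ g)` is `0` off the range (`tr_off`, `wq_of_wd`) and
`φ_g (g⁻¹ u - u) = ε (B (g⁻¹ u) u)` (`WD.tr_shift`).  For `c σ c = -1` (`exists_norm_eq`) this gives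
`φ_g (c v) = conj (φ_g v)`, so `G = ∑_v φ₁ (-v) φ₂ v = ∑_v φ₁ (-c v) φ₂ (c v) = conj G`; `planch`. -/
theorem real_odd (hσ : IsBar q σ) (D : WD B ε h ρ) (hB : IsHerm σ B) (h2 : (2 : F) ≠ 0) (g₁ g₂ : UG B) :
    ∃ r : ℝ, trace ℂ W (ρ (g₁ * g₂)) = r * (trace ℂ W (ρ g₁) * trace ℂ W (ρ g₂)) :=
  real_odd' hσ D hB h2 g₁ g₂

/-- `-v = v`, `h v ^ 2 = 1`.  For `v = a + u`, `a = g⁻¹ u`: `h a h u = γ h v` and
`(h a h u)^2 = (h a h u h (-a)) h u = κ (B a u)`, so `γ^2 = κ (B a u) = κ (B v u)` (`fix`), and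
`tr (ρ g) = γ tr (ρ g h v)` (`tr_shift`).  If `v` lies in both ranges, `v = g_i⁻¹ u_i + u_i`, then
`B v v = B v u_i + σ (B v u_i)`, so `B v (u₁ + u₂)` is fixed and `(γ₁ γ₂)^2 = 1`: every term of
`G = ∑_v φ₁ (-v) φ₂ v` is `0` (`tr_off`) or `±1`; `planch`. -/
theorem real_two (D : WQ B κ h ρ) (hB : IsHerm σ B) (h2 : (2 : F) = 0) (g₁ g₂ : UG B) :
    ∃ r : ℝ, trace ℂ W (ρ (g₁ * g₂)) = r * (trace ℂ W (ρ g₁) * trace ℂ W (ρ g₂)) :=
  real_two' D hB h2 g₁ g₂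

omit [Fintype V] in
theorem weil [FiniteDimensional F V] (hσ : IsBar q σ) (hB : IsHerm σ B) :
    IsCharacter (UG B) fun x => wf q x.1 := by
  have : Finite V := Module.finite_of_finite F
  have := Fintype.ofFinite V
  by_cases h2 : (2 : F) = 0
  · obtain ⟨κ, m, h, ρ, D⟩ := exists_wq hσ hB
    exact weil_of hσ D hB (real_two D hB h2)
  · obtain ⟨ε, m, h, ρ, D⟩ := exists_wd hσ hB h2
    exact weil_of hσ (wq_of_wd D hB h2) hB (real_odd hσ D hB h2)

end Cfsg.Lib.CW
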