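import Cfsg.Agent.Lib.CW.Cls
import Cfsg.Agent.Lib.CW.StepA
import Cfsg.Agent.Lib.CW.CompA
import Cfsg.Agent.Lib.CW.N3
import Cfsg.Agent.Lib.CW.TI
import Cfsg.Agent.Lib.CW.Red
import Cfsg.Agent.Lib.CW.Weil
import Cfsg.Agent.Lib.Char.Central

/-! # The constituents of the conjugation character of `SU_n(q)`, `gcd (n, 2 (q+1)) = 1` -/

set_option autoImplicit false

namespace Cfsg.Lib.CW

open Module LinearMap Cfsg.Lib.Unitary Cfsg.Lib.US7 Cfsg.Lib.Char

variable {F V : Type*} [Field F] [Fintype F] [AddCommGroup V] [Module F V] [FiniteDimensional F V]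
  {σ : F →+* F} {B : V →ₛₗ[σ] V →ₗ[F] F} {q : ℕ}

theorem main (hσ : IsBar q σ) (hB : IsHerm σ B) (h3 : 3 ≤ finrank F V)
    (hc : (finrank F V).Coprime (2 * (q + 1))) : ∃ a : SUG B → ℂ, IsIrrCharacter (SUG B) a ∧
      a 1 = dg q (finrank F V) ∧ ¬ Occ a ∧
      ∀ χ, IsIrrCharacter (SUG B) χ → χ ≠ a → χ 1 ≠ dg q (finrank F V) ∧ Occ χ := by
  classical
  have := finite_linearEquiv (F := F) (V := V)
  have := Fintype.ofFinite (SUG B)
  have hw := weil hσ hB
  have hodd : Odd (finrank F V) := Nat.coprime_two_right.1 (hc.coprime_dvd_right (dvd_mul_right _ _))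
  have hc' : (finrank F V).Coprime (q + 1) := hc.coprime_dvd_right (dvd_mul_left _ _)
  have q2 := hσ.two_le
  have d1 := one_lt_dg q2 h3
  have ha := om_irr hσ hB hw h3 hc (irrOne _)
  refine ⟨om hσ B fun _ => 1, ha, om_one hσ hB hc,
    om_not_occ hσ hB hc (zero_sum hσ hB hw hodd), fun χ hχ hne => ?_⟩
  rcases h3.eq_or_lt with e3 | h4
  · obtain ⟨t, ht⟩ := exists_irr_S hσ hB hc
    obtain ⟨b, hb, b1, bv⟩ := exists_st hσ hB e3.symm hc'
    have t1 : t ≠ 1 := by
      rintro rfl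
      obtain ⟨v, hv, -⟩ := hB.exists_isotropic (by omega)
      rcases ht (F ∙ v) (fun _ h => h) with h | h
      · exact hv (Submodule.span_singleton_eq_bot.1 h)
      · have := finrank_span_singleton (K := F) hv
        rw [h, finrank_top] at this
        omega
    have key := ti_main (T := Subgroup.centralizer ({t} : Set (SUG B)))
      (fun h => t1 (Subgroup.mem_bot.1 (h ▸ Subgroup.mem_centralizer_singleton_iff.2 rfl)))
      (fun h hh h1 => cent_eq hσ hB e3.symm hc' ht hh h1) (card_norm_le hσ hB e3.symm hc' ht) ha hb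
      (om_one hσ hB hc) b1 d1
      ((dg_lt q2 (by omega)).trans_le (Nat.pow_le_pow_right (by omega) (by omega)))
      (fun h hh h1 => om_irr_val hσ hB hc ht (Subgroup.mem_centralizer_singleton_iff.1 hh) h1)
      (fun h hh h1 => bv h
        (irr_of_comm hσ hB e3.symm hc' ht (Subgroup.mem_centralizer_singleton_iff.1 hh) h1)) hχ hne
    exact ⟨key.1, t, key.2⟩
  have h5 : 5 ≤ finrank F V := by
    obtain ⟨k, hk⟩ := hodd
    omega
  obtain ⟨m, ρ, hρ, rfl⟩ := id hχ
  by_cases W : PW hB ρ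
  · by_cases h1 : ρ = 1
    · have e : ρ.character = fun _ => ρ.character 1 := by
        funext g; simp only [Representation.character, h1]; rfl
      have e1 : ρ.character 1 = 1 := by
        have h2 := hχ.inner_self
        obtain ⟨k, hk, hk'⟩ := hχ.exists_apply_one
        rw [e, classInner_def, hk'] at h2
        simp only [map_natCast, Finset.sum_const, Finset.card_univ, nsmul_eq_mul,
          ← Nat.card_eq_fintype_card] at h2
        rw [inv_mul_cancel_left₀ (card_ne_zero_complex _)] at h2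
        have h3 : k * k = 1 := by exact_mod_cast h2
        rw [hk', Nat.eq_one_of_mul_eq_one_right h3, Nat.cast_one]
      refine ⟨by rw [e1]; exact_mod_cast d1.ne, 1, ?_⟩
      rw [e, e1, finsum_eq_sum_of_fintype]
      simp
    · obtain ⟨k, τ, hτ⟩ := hw
      obtain ⟨ω, hω⟩ := om_constit hσ hB ⟨k, τ, hτ⟩ h3 hc hχ
        (cls hB hσ h5 (ω := τ.comp (Subgroup.inclusion SUG_le_UG)) (fun g => congrFun hτ _) h1 W hρ)
      have hω1 : ω ≠ irrOne _ := by
        rintro rfl
        exact hne hω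
      rw [hω]
      refine ⟨?_, om_occ hσ hB hc hω1⟩
      rw [om_one' hσ hB hc hω1]
      simp
  · refine ⟨?_, occ_of_fx (stepA hσ hB h5 hc W)⟩
    rw [Representation.char_one]
    have := deg hB hσ h5 W
    have := dg_lt q2 (n := finrank F V) (by omega)
    exact_mod_cast (by omega : finrank ℂ (Fin m → ℂ) ≠ dg q (finrank F V))

theorem occ {G H : Type*} [Group G] [Group H] (e : G ≃* H) (χ : H → ℂ) :
    Occ (fun g => χ (e g)) → Occ χ := fun ⟨g, hg⟩ => ⟨e g, fun h0 => hg (by
  rw [← h0]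
  refine finsum_eq_of_bijective (fun x => ⟨e x, ?_⟩) ⟨fun x y h => ?_, fun y => ⟨⟨e.symm y, ?_⟩, ?_⟩⟩
    fun _ => rfl
  · rw [Subgroup.mem_centralizer_singleton_iff, ← map_mul, ← map_mul,
      Subgroup.mem_centralizer_singleton_iff.1 x.2]
  · exact Subtype.ext (e.injective (congrArg Subtype.val h))
  · rw [Subgroup.mem_centralizer_singleton_iff]
    apply e.injective
    simpa using Subgroup.mem_centralizer_singleton_iff.1 y.2
  · exact Subtype.ext (e.apply_symm_apply _))⟩

/-- transport to an isomorphic group -/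
theorem final {G H : Type*} [Group G] [Fintype G] [Group H] (e : G ≃* H) {D : ℕ} {a : H → ℂ}
    (ha : IsIrrCharacter H a) (a1 : a 1 = D) (h1 : ¬ Occ a)
    (h2 : ∀ χ, IsIrrCharacter H χ → χ ≠ a → χ 1 ≠ D ∧ Occ χ) :
    Nat.card {χ : IrrCharacter G // charDegree (χ : G → ℂ) = D} = 1 ∧ ∀ χ : IrrCharacter G,
      classInner (χ : G → ℂ) (fun g : G => (Nat.card (Subgroup.centralizer ({g} : Set G)) : ℂ)) ≠ 0 ↔
        charDegree (χ : G → ℂ) ≠ D := by
  let a' : IrrCharacter G := ⟨fun g => a (e g), ha.comp_equiv e⟩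
  have d1 : charDegree a'.1 = D := charDegree_eq_of_apply_one (by simp [a', a1])
  have h3 : ∀ χ : IrrCharacter G, χ ≠ a' → charDegree χ.1 ≠ D ∧ Occ χ.1 := fun χ hχ => by
    obtain ⟨h4, h5⟩ := h2 (fun x => χ.1 (e.symm x)) (χ.2.comp_equiv e.symm) fun h =>
      hχ (Subtype.ext (funext fun g => by simp [a', ← h]))
    refine ⟨fun h => h4 ?_, occ e.symm _ h5⟩
    obtain ⟨k, -, hk⟩ := χ.2.exists_apply_one
    rw [map_one, hk, ← h, charDegree_eq_of_apply_one hk]
  refine ⟨Nat.card_eq_one_iff_exists.2 ⟨⟨a', d1⟩, fun χ => Subtype.ext ?_⟩, fun χ => ?_⟩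
  · by_contra h
    exact (h3 _ h).1 χ.2
  · rw [inner_iff_occ χ.2.isCharacter]
    by_cases h : χ = a'
    · subst h
      exact iff_of_false (fun h => h1 (occ e _ h)) (not_not.2 d1)
    · exact iff_of_true (h3 χ h).2 (h3 χ h).1

end Cfsg.Lib.CW
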