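import Cfsg.Agent.Lib.CW.Def
import Cfsg.Agent.Lib.US7.WE
import Cfsg.Agent.Lib.UW.WE

/-! # The Weil character of the unitary group: vanishing off the range and reality -/

set_option autoImplicit false
set_option linter.unusedSectionVars false

namespace Cfsg.Lib.CW

open Module LinearMap Cfsg.Lib.Unitary Cfsg.Lib.Char Cfsg.Lib.US7 Cfsg.Lib.UW ComplexConjugate

variable {F V : Type*} [Field F] [Fintype F] [AddCommGroup V] [Module F V] [Fintype V] {σ : F →+* F}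
  {B : V →ₛₗ[σ] V →ₗ[F] F} {κ ε : AddChar F ℂ} {W : Type*} [AddCommGroup W] [Module ℂ W]
  [FiniteDimensional ℂ W] {h : V → End ℂ W} {ρ : UG B →* End ℂ W} {q : ℕ}

theorem tr_off' (D : WQ B κ h ρ) (hB : IsHerm σ B) (g : UG B) {v : V}
    (hv : ∀ u, (g⁻¹).1 u - u ≠ v) : trace ℂ W (ρ g * h v) = 0 := by
  have : FiniteDimensional F V := Module.Finite.of_finite
  obtain ⟨u, hu, uv⟩ : ∃ u ∈ LinearMap.ker (dev (g⁻¹).1), B u v ≠ 0 := by
    by_contra! e
    have : v ∈ LinearMap.range (dev (g⁻¹).1) := by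
      rw [← hB.perp_perp (LinearMap.range _), hB.range_dev (g⁻¹).2]; exact e
    obtain ⟨w, hw⟩ := this
    exact hv w hw
  obtain ⟨x, hx⟩ := AddChar.ne_one_iff.1 D.ne
  have hw := Submodule.smul_mem _ (σ (x / B u v)) hu
  have e1 : B (σ (x / B u v) • u) v = x := by
    rw [map_smulₛₗ, LinearMap.smul_apply, hB.invol, smul_eq_mul, div_mul_cancel₀ _ uv]
  generalize σ (x / B u v) • u = w at hw e1
  rw [LinearMap.mem_ker, dev_apply, sub_eq_zero] at hw
  have e2 : g.1 w = w := by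
    conv_lhs => rw [← hw]
    exact g.1.apply_symm_apply w
  have e3 := D.cj g w
  have e4 := D.neg (-w)
  rw [neg_neg] at e4
  rw [e2] at e3
  have e5 : trace ℂ W (ρ g * (h w * h v * h (-w))) = trace ℂ W (ρ g * h v) := by
    rw [← mul_assoc, ← mul_assoc, e3, mul_assoc (h w), mul_assoc (h w), trace_mul_comm ℂ (h w),
      mul_assoc (ρ g * h v), e4, mul_one]
  rw [D.conj, mul_smul_comm, map_smul, smul_eq_mul, e1] at e5
  by_contra n
  exact hx (mul_right_cancel₀ n (e5.trans (one_mul _).symm))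

theorem wq_of_wd' (D : WD B ε h ρ) (hB : IsHerm σ B) (h2 : (2 : F) ≠ 0) :
    WQ B (ε.mulShift 2) h ρ := by
  obtain ⟨p, hp⟩ := CharP.exists F
  refine ⟨⟨fun e => D.ne ?_, fun x hx => ?_, D.zero, ⟨fun _ _ z => ε z, p, (CharP.char_is_prime F p).ne_zero, fun _ _ z => ?_,
    ε.map_zero_eq_one, D.mul⟩, D.mul_neg hB, D.conj_h hB, D.tr, D.dim⟩, D.cj⟩
  · ext x
    have := DFunLike.congr_fun e (x / 2)
    rwa [AddChar.mulShift_apply, mul_div_cancel₀ _ h2] at this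
  · rw [AddChar.mulShift_apply]
    exact D.fix _ (by rw [map_mul, hx, map_ofNat])
  · rw [← AddChar.map_nsmul_eq_pow, nsmul_eq_mul, CharP.cast_eq_zero, zero_mul, AddChar.map_zero_eq_one]

theorem tr_ne (D : WQ B κ h ρ) (hB : IsHerm σ B) (g : UG B) : trace ℂ W (ρ g) ≠ 0 := fun e => by
  have := D.norm_sq hB g
  rw [e, norm_zero, zero_pow two_ne_zero, eq_comm, Nat.cast_eq_zero] at this
  have _ : Nonempty {v : V // g.1 v = v} := ⟨⟨0, map_zero _⟩⟩
  exact Nat.card_pos.ne' this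

theorem real_of (D : WQ B κ h ρ) (hB : IsHerm σ B) (g₁ g₂ : UG B)
    (hG : conj (∑ v, trace ℂ W (ρ g₁ * h (-v)) / trace ℂ W (ρ g₁) * (trace ℂ W (ρ g₂ * h v) / trace ℂ W (ρ g₂))) =
      ∑ v, trace ℂ W (ρ g₁ * h (-v)) / trace ℂ W (ρ g₁) * (trace ℂ W (ρ g₂ * h v) / trace ℂ W (ρ g₂))) :
    ∃ r : ℝ, trace ℂ W (ρ (g₁ * g₂)) = r * (trace ℂ W (ρ g₁) * trace ℂ W (ρ g₂)) := by
  obtain ⟨r, hr⟩ := Complex.conj_eq_iff_real.1 hG
  refine ⟨r / finrank ℂ W, ?_⟩
  have e := D.planch hB (ρ g₁) (ρ g₂)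
  have d := D.dim_ne hB
  simp only [div_mul_div_comm, ← Finset.sum_div] at hr
  rw [← e, div_eq_iff (mul_ne_zero (tr_ne D hB g₁) (tr_ne D hB g₂))] at hr
  rw [map_mul, Complex.ofReal_div, Complex.ofReal_natCast, div_mul_eq_mul_div, ← hr, mul_div_cancel_left₀ _ d]

theorem real_odd' (hσ : IsBar q σ) (D : WD B ε h ρ) (hB : IsHerm σ B) (h2 : (2 : F) ≠ 0) (g₁ g₂ : UG B) :
    ∃ r : ℝ, trace ℂ W (ρ (g₁ * g₂)) = r * (trace ℂ W (ρ g₁) * trace ℂ W (ρ g₂)) := by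
  have Q := wq_of_wd' D hB h2
  obtain ⟨c, hc⟩ := hσ.exists_norm_eq (μ := -1) (by rw [map_neg, map_one])
  have c0 : c ≠ 0 := by rintro rfl; simp at hc
  have val : ∀ (g : UG B) u, trace ℂ W (ρ g * h ((g⁻¹).1 u - u)) / trace ℂ W (ρ g) = ε (B ((g⁻¹).1 u) u) := fun g u => by
    rw [div_eq_iff (tr_ne Q hB g), D.tr_shift hB g u, ← mul_assoc, ← AddChar.map_add_eq_mul, add_neg_cancel,
      AddChar.map_zero_eq_one, one_mul]
  have key : ∀ (g : UG B) v, conj (trace ℂ W (ρ g * h v) / trace ℂ W (ρ g)) =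
      trace ℂ W (ρ g * h (c • v)) / trace ℂ W (ρ g) := fun g v => by
    by_cases e : ∃ u, (g⁻¹).1 u - u = v
    · obtain ⟨u, rfl⟩ := e
      rw [smul_sub, ← map_smul, val, val, ← AddChar.map_neg_eq_conj, map_smul, map_smul (g⁻¹).1, map_smulₛₗ B,
        LinearMap.smul_apply, smul_eq_mul, smul_eq_mul, ← mul_assoc, hc, neg_one_mul]
    · push Not at e
      rw [tr_off' Q hB g e, tr_off' Q hB g (v := c • v) fun u hu => e (c⁻¹ • u) (by
        rw [map_smul, ← smul_sub, hu, inv_smul_smul₀ c0]), zero_div, map_zero]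
  refine real_of Q hB g₁ g₂ ?_
  simp only [map_sum, map_mul, key, smul_neg]
  exact Fintype.sum_bijective _ (MulAction.bijective₀ c0) _ _ fun _ => rfl

theorem sq_two (D : WQ B κ h ρ) (hB : IsHerm σ B) (h2 : (2 : F) = 0) (g : UG B) {u v : V} (e : (g⁻¹).1 u - u = v) :
    (trace ℂ W (ρ g * h v) / trace ℂ W (ρ g)) ^ 2 * κ (B v u) = 1 ∧ B v v = B v u + σ (B v u) := by
  have n : ∀ x : V, -x = x := fun x => neg_eq_iff_add_eq_zero.2 (by rw [← two_smul F, h2, zero_smul])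
  have hh : ∀ x, h x * h x = 1 := fun x => by simpa only [n] using D.neg x
  have e1 := D.tr_shift hB g u
  have e2 := (g⁻¹).2 u u
  obtain ⟨γ, N, -, -, -, m⟩ := D.mul
  have e3 := D.conj ((g⁻¹).1 u) u
  have e4 := m ((g⁻¹).1 u) u
  generalize (g⁻¹).1 u = a at *
  generalize γ _ _ _ = y at e4
  obtain rfl : a = v + u := by rw [← e, sub_add_cancel]
  rw [add_assoc, ← two_smul F, h2, zero_smul, add_zero] at e4
  rw [n] at e1 e3
  constructor
  · have e5 : (y * y) • (1 : End ℂ W) = κ (B v u) • 1 := by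
      rw [← hh v, mul_smul, ← mul_smul_comm, ← smul_mul_assoc, ← e4, ← mul_assoc, e3, smul_mul_assoc, hh, hh, map_add,
        LinearMap.add_apply, AddChar.map_add_eq_mul, D.fix _ (hB.self_fixed u), mul_one]
    have e6 := congrArg (trace ℂ W) e5
    rw [map_smul, map_smul, trace_one, smul_eq_mul, smul_eq_mul] at e6
    rw [← mul_right_cancel₀ (D.dim_ne hB) e6, ← sq, ← mul_pow]
    rw [e4, mul_smul_comm, map_smul, smul_eq_mul] at e1
    rw [div_mul_eq_mul_div, mul_comm, ← e1, div_self (tr_ne D hB g), one_pow]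
  · simp only [map_add, LinearMap.add_apply] at e2
    rw [hB.symm]
    linear_combination e2 - (B v u + B u v) * h2

theorem real_two' (D : WQ B κ h ρ) (hB : IsHerm σ B) (h2 : (2 : F) = 0) (g₁ g₂ : UG B) :
    ∃ r : ℝ, trace ℂ W (ρ (g₁ * g₂)) = r * (trace ℂ W (ρ g₁) * trace ℂ W (ρ g₂)) := by
  have n : ∀ x : V, -x = x := fun x => neg_eq_iff_add_eq_zero.2 (by rw [← two_smul F, h2, zero_smul])
  refine real_of D hB g₁ g₂ ?_
  rw [map_sum]
  refine Finset.sum_congr rfl fun v _ => ?_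
  rw [n]
  by_cases e1 : ∃ u, (g₁⁻¹).1 u - u = v
  swap
  · rw [tr_off' D hB g₁ (not_exists.1 e1), zero_div, zero_mul, map_zero]
  by_cases e2 : ∃ u, (g₂⁻¹).1 u - u = v
  swap
  · rw [tr_off' D hB g₂ (not_exists.1 e2), zero_div, mul_zero, map_zero]
  obtain ⟨u, e1⟩ := e1
  obtain ⟨w, e2⟩ := e2
  obtain ⟨a1, b1⟩ := sq_two D hB h2 g₁ e1
  obtain ⟨a2, b2⟩ := sq_two D hB h2 g₂ e2
  have k : κ (B v u) * κ (B v w) = 1 := by
    rw [← AddChar.map_add_eq_mul]
    refine D.fix _ ?_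
    rw [map_add]
    linear_combination b2 - b1 + (σ (B v w) - B v u) * h2
  generalize trace ℂ W (ρ g₁ * h v) / trace ℂ W (ρ g₁) = x at *
  generalize trace ℂ W (ρ g₂ * h v) / trace ℂ W (ρ g₂) = y at *
  have : (x * y) ^ 2 = 1 := by linear_combination (y ^ 2 * κ (B v w)) * a1 + a2 - (x * y) ^ 2 * k
  rcases mul_self_eq_one_iff.1 ((sq _).symm.trans this) with e | e <;> simp [e]

end Cfsg.Lib.CW
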